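import Cfsg.Agent.H5.W12
import Cfsg.Agent.H5.W8
import Cfsg.Agent.H5.Sect3

set_option autoImplicit false
set_option linter.style.haveILetI false
set_option linter.unusedVariables false
set_option linter.unusedSectionVars false
set_option linter.unusedSimpArgs false

/-! Relative defect zero over a central `p`-subgroup. -/

namespace Cfsg.Agent.H5

open Cfsg
open scoped ComplexConjugate

universe u v w

variable {G : Type u} [Group G] [Fintype G] {p : ℕ} {M : Ideal AlgInt}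

theorem isPPart_qmul (hp : p.Prime) {q : ℕ} (hq : q.Prime) (hqp : q ≠ p) {x s y : G} (hc : Commute x s)
    (hx : ∃ k : ℕ, orderOf x = q ^ k) (h : IsPPart p s y) : IsPPart p (x * s) y := by
  obtain ⟨i, hi⟩ := pPart_mem_zpowers hp h
  obtain ⟨t, hyt, hct, hyp, htr⟩ := h
  have hi' : s ^ i = y := hi
  have hxy : Commute x y := by rw [← hi']; exact hc.zpow_right i
  have hxt : Commute x t := by
    have : t = y⁻¹ * s := by rw [← hyt]; group
    rw [this]; exact hxy.inv_right.mul_right hc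
  refine ⟨x * t, ?_, hxy.symm.mul_right hct, hyp, ?_⟩
  · rw [← hyt, ← mul_assoc, ← mul_assoc, hxy.eq]
  · intro hdvd
    have h1 := hxt.orderOf_mul_dvd_mul_orderOf
    obtain ⟨k, hk⟩ := hx
    rcases hp.dvd_mul.mp (hdvd.trans h1) with h2 | h2
    · rw [hk] at h2
      exact hqp ((Nat.prime_dvd_prime_iff_eq hp hq).mp (hp.dvd_of_dvd_pow h2)).symm
    · exact htr h2

theorem normal_of_le_center' {D : Subgroup G} (h : D ≤ Subgroup.center G) : D.Normal := by
  constructor
  intro y hy g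
  have := Subgroup.mem_center_iff.mp (h hy) g
  rw [this]; simpa using hy

/-- Elements with `p`-part in `D`. -/
def secS (p : ℕ) (D : Subgroup G) : Set G := {g | ∃ y ∈ D, IsPPart p g y}

theorem secS_conj {D : Subgroup G} [hDn : D.Normal] (g h : G) : h * g * h⁻¹ ∈ secS p D ↔ g ∈ secS p D := by
  constructor
  · rintro ⟨y, hy, hg⟩
    have := isPPart_conj hg h⁻¹
    have e : h⁻¹ * (h * g * h⁻¹) * h⁻¹⁻¹ = g := by group
    rw [e] at this
    exact ⟨_, hDn.conj_mem y hy _, this⟩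
  · rintro ⟨y, hy, hg⟩
    exact ⟨_, hDn.conj_mem y hy _, isPPart_conj hg h⟩

theorem secS_q (hp : p.Prime) {D : Subgroup G} (q : ℕ) (hq : q.Prime) (hqp : q ≠ p) (x s : G) (hc : Commute x s)
    (hx : ∃ k : ℕ, orderOf x = q ^ k) (hs : ¬ q ∣ orderOf s) : x * s ∈ secS p D ↔ s ∈ secS p D := by
  constructor
  · rintro ⟨y, hy, hg⟩
    refine ⟨y, hy, ?_⟩
    have h := isPPart_qmul hp hq hqp (x := x⁻¹) (s := x * s) (y := y)
      ((Commute.refl x).inv_left.mul_right hc.inv_left) (by obtain ⟨k, hk⟩ := hx; exact ⟨k, by rw [orderOf_inv, hk]⟩) hg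
    rwa [inv_mul_cancel_left] at h
  · rintro ⟨y, hy, hg⟩
    exact ⟨y, hy, isPPart_qmul hp hq hqp hc hx hg⟩

theorem central_linear {D : Subgroup G} (hDZ : D ≤ Subgroup.center G) (χ : IrrCharacter G) :
    ∃ ζ : IrrCharacter D, ∀ y : D, (χ : G → ℂ) y = (χ : G → ℂ) 1 * (ζ : D → ℂ) y := by
  have hG : D ⊔ Subgroup.centralizer (D : Set G) = ⊤ := by
    rw [eq_top_iff]
    refine le_trans ?_ le_sup_right
    intro g _
    rw [Subgroup.mem_centralizer_iff]
    intro y hy
    exact (Subgroup.mem_center_iff.mp (hDZ hy) g).symm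
  obtain ⟨ζ, hζ⟩ := pc_restrict hG χ.2
  refine ⟨ζ, fun y => ?_⟩
  obtain ⟨lam, hlam⟩ := irr_of_comm (G := D) (fun a b => Subtype.ext (by
    have := Subgroup.mem_center_iff.mp (hDZ b.2) (a : G)
    exact this)) ζ.2
  have h1 : (ζ : D → ℂ) 1 = 1 := by rw [hlam]; simp
  rw [hζ y, h1, div_one]

theorem central_sum {D : Subgroup G} [Fintype D] (ζ ζ' : IrrCharacter D) (h : ∀ y y' : D, y * y' = y' * y) :
    (∑ y : D, (ζ : D → ℂ) y * conj ((ζ' : D → ℂ) y) = (Nat.card D : ℂ) ∧ ζ = ζ') ∨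
    ∑ y : D, (ζ : D → ℂ) y * conj ((ζ' : D → ℂ) y) = 0 := by
  classical
  have h1 := classInner_irr ζ ζ'
  rw [classInner_def] at h1
  have hG0 : (Nat.card D : ℂ) ≠ 0 := Nat.cast_ne_zero.mpr Nat.card_pos.ne'
  by_cases hz : ζ = ζ'
  · left
    rw [if_pos hz] at h1
    refine ⟨?_, hz⟩
    field_simp at h1
    exact h1
  · right
    rw [if_neg hz] at h1
    exact (mul_eq_zero.mp h1).resolve_left (inv_ne_zero hG0)

/-- The inner product of the truncation to `D`-sections. -/
theorem secS_inner (hM : IsPModular p M) {D : Subgroup G} (hD : IsPGroup p D) (hDZ : D ≤ Subgroup.center G)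
    (χ ψ : IrrCharacter G) :
    classInner (sInd (secS p D) * (χ : G → ℂ)) (ψ : G → ℂ) = (Nat.card D : ℂ) * rin p (χ : G → ℂ) (ψ : G → ℂ) ∨
    classInner (sInd (secS p D) * (χ : G → ℂ)) (ψ : G → ℂ) = 0 := by
  classical
  haveI : Fintype D := Fintype.ofFinite _
  obtain ⟨ζ, hζ⟩ := central_linear hDZ χ
  obtain ⟨ζ', hζ'⟩ := central_linear hDZ ψ
  have hcomm : ∀ y : D, ∀ g : G, Commute (y : G) g := fun y g => (Subgroup.mem_center_iff.mp (hDZ y.2) g).symm
  have hreg : ∀ x : G, ¬ p ∣ orderOf x → x ∈ Subgroup.centralizer (D : Set G) := by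
    intro x _
    rw [Subgroup.mem_centralizer_iff]
    intro y hy
    exact (hcomm ⟨y, hy⟩ x).eq
  have hχ1 := IsIrr.one_ne_zero χ.2
  have hψ1 := IsIrr.one_ne_zero ψ.2
  have key : classInner (sInd (secS p D) * (χ : G → ℂ)) (ψ : G → ℂ) =
      (∑ y : D, (ζ : D → ℂ) y * conj ((ζ' : D → ℂ) y)) * rin p (χ : G → ℂ) (ψ : G → ℂ) := by
    rw [classInner_def, rin_def]
    have h1 : ∑ g : G, (sInd (secS p D) * (χ : G → ℂ)) g * conj ((ψ : G → ℂ) g) =
        ∑ g : G, (if ∃ y ∈ D, IsPPart p g y then (χ : G → ℂ) g * conj ((ψ : G → ℂ) g) else 0) := by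
      refine Finset.sum_congr rfl fun g _ => ?_
      by_cases h : ∃ y ∈ D, IsPPart p g y
      · rw [if_pos h, Pi.mul_apply, sInd_mem (show g ∈ secS p D from h), one_mul]
      · rw [if_neg h, Pi.mul_apply, sInd_not_mem (show g ∉ secS p D from h), zero_mul, zero_mul]
    rw [h1, pc_sum hM.1 hD hreg (fun g => (χ : G → ℂ) g * conj ((ψ : G → ℂ) g)), mul_left_comm]
    congr 1
    rw [Finset.sum_mul_sum]
    refine Finset.sum_congr rfl fun y _ => Finset.sum_congr rfl fun x _ => ?_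
    by_cases hx : p ∣ orderOf x
    · rw [if_pos hx, pRegularPart_sing hx, zero_mul, mul_zero]
    · rw [if_neg hx, pRegularPart_reg hx, central_mul (hcomm y) χ x, central_mul (hcomm y) ψ x, hζ y, hζ' y,
        mul_div_assoc, mul_div_assoc]
      have e1 : (χ : G → ℂ) 1 * ((ζ : D → ℂ) y / (χ : G → ℂ) 1) = (ζ : D → ℂ) y := by field_simp
      have e2 : (ψ : G → ℂ) 1 * ((ζ' : D → ℂ) y / (ψ : G → ℂ) 1) = (ζ' : D → ℂ) y := by field_simp
      rw [e1, e2, map_mul]
      ring
  have hDc : ∀ y y' : D, y * y' = y' * y := fun y y' => Subtype.ext (hcomm y y').eq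
  rcases central_sum ζ ζ' hDc with ⟨h, -⟩ | h
  · left; rw [key, h]
  · right; rw [key, h, zero_mul]

theorem secS_inner_self (hM : IsPModular p M) {D : Subgroup G} (hD : IsPGroup p D) (hDZ : D ≤ Subgroup.center G)
    (χ : IrrCharacter G) :
    classInner (sInd (secS p D) * (χ : G → ℂ)) (χ : G → ℂ) = (Nat.card D : ℂ) * rin p (χ : G → ℂ) (χ : G → ℂ) := by
  classical
  rcases secS_inner hM hD hDZ χ χ with h | h
  · exact h
  · exfalso
    rw [classInner_def] at h
    have hG0 : (Nat.card G : ℂ) ≠ 0 := Nat.cast_ne_zero.mpr Nat.card_pos.ne'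
    have h1 := (mul_eq_zero.mp h).resolve_left (inv_ne_zero hG0)
    have h2 : ∑ g : G, (sInd (secS p D) * (χ : G → ℂ)) g * conj ((χ : G → ℂ) g) =
        ((∑ g : G, (if g ∈ secS p D then ‖(χ : G → ℂ) g‖ ^ 2 else 0) : ℝ) : ℂ) := by
      push_cast
      refine Finset.sum_congr rfl fun g _ => ?_
      by_cases hg : g ∈ secS p D
      · rw [Pi.mul_apply, sInd_mem hg, one_mul, if_pos hg, Complex.mul_conj']; push_cast; rfl
      · rw [Pi.mul_apply, sInd_not_mem hg, zero_mul, zero_mul, if_neg hg]; simp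
    rw [h2] at h1
    have h3 : ∑ g : G, (if g ∈ secS p D then ‖(χ : G → ℂ) g‖ ^ 2 else 0) = 0 := by exact_mod_cast h1
    have h4 := (Finset.sum_eq_zero_iff_of_nonneg (fun g _ => by split_ifs <;> positivity)).mp h3 1 (Finset.mem_univ _)
    have h5 : (1 : G) ∈ secS p D := ⟨1, D.one_mem, 1, by simp, Commute.refl _, ⟨0, by simp⟩, not_dvd_orderOf_one hM.1⟩
    rw [if_pos h5] at h4
    exact IsIrr.one_ne_zero χ.2 (norm_eq_zero.mp (pow_eq_zero_iff (two_ne_zero)|>.mp h4))

/-- Relative defect zero. -/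
theorem rel_defect_zero (hM : IsPModular p M) {D : Subgroup G} (hD : IsPGroup p D) (hDZ : D ≤ Subgroup.center G)
    (χ : IrrCharacter G) (hdeg : (charDegree (χ : G → ℂ)).factorization p = D.index.factorization p) :
    (Nat.card D : ℂ) * rin p (χ : G → ℂ) (χ : G → ℂ) = 1 ∧ ∀ g, g ∉ secS p D → (χ : G → ℂ) g = 0 := by
  classical
  haveI hDn : D.Normal := normal_of_le_center' hDZ
  have hD0 : (Nat.card D) ≠ 0 := Nat.card_pos.ne'
  have hfac : (Nat.card D * charDegree (χ : G → ℂ)).factorization p = (Nat.card G).factorization p := by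
    rw [Nat.factorization_mul hD0 (charDegree_pos χ.2).ne', ← Subgroup.card_mul_index D,
      Nat.factorization_mul hD0 Subgroup.index_ne_zero_of_finite, Finsupp.add_apply, Finsupp.add_apply, hdeg]
  -- integrality of `|D| rin`
  have hint : ∃ n : ℤ, classInner (sInd (secS p D) * (χ : G → ℂ)) (χ : G → ℂ) = (n : ℂ) := by
    have h0 : IsIntegral ℤ ((1 : ℂ) * classInner (sInd (secS p D) * (χ : G → ℂ)) (χ : G → ℂ)) := by
      apply integral_inner_section hM.1 (S := secS p D) secS_conj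
        (fun q hq hqp x s hc hx hs => secS_q hM.1 q hq hqp x s hc hx hs) (irr_isCharacter χ) χ isIntegral_one
      intro M' hM'
      haveI := isPrime_of_isPModular hM'
      rw [one_mul, secS_inner_self hM' hD hDZ χ, scaled_rin_eq]
      apply memLocR_mul _ (omega_areg_memLocR χ χ)
      apply natdiv_memLocR hM'
      · exact mul_ne_zero hD0 (charDegree_pos χ.2).ne'
      · exact Nat.card_pos.ne'
      · rw [hfac]
    rw [one_mul] at h0
    obtain ⟨q, hq⟩ := rin_rational (p := p) χ χ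
    apply int_of_isIntegral_rat h0 (q := (Nat.card D : ℚ) * q)
    rw [secS_inner_self hM hD hDZ χ, hq]; push_cast; rfl
  obtain ⟨n, hn⟩ := hint
  have hG0 : (0 : ℝ) < (Nat.card G : ℝ) := by exact_mod_cast (Nat.card_pos : 0 < Nat.card G)
  have hS : classInner (sInd (secS p D) * (χ : G → ℂ)) (χ : G → ℂ) =
      (((Nat.card G : ℝ)⁻¹ * ∑ g : G, (if g ∈ secS p D then ‖(χ : G → ℂ) g‖ ^ 2 else 0) : ℝ) : ℂ) := by
    rw [classInner_def]
    push_cast
    congr 1
    refine Finset.sum_congr rfl fun g _ => ?_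
    by_cases hg : g ∈ secS p D
    · rw [Pi.mul_apply, sInd_mem hg, one_mul, if_pos hg, Complex.mul_conj']; push_cast; rfl
    · rw [Pi.mul_apply, sInd_not_mem hg, zero_mul, zero_mul, if_neg hg]; simp
  have hT : (1 : ℝ) = (Nat.card G : ℝ)⁻¹ * ∑ g : G, ‖(χ : G → ℂ) g‖ ^ 2 := by
    have h := classInner_self_re (χ : G → ℂ)
    rw [classInner_irr_self χ] at h
    exact_mod_cast h
  have hnr : (n : ℝ) = (Nat.card G : ℝ)⁻¹ * ∑ g : G, (if g ∈ secS p D then ‖(χ : G → ℂ) g‖ ^ 2 else 0) := by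
    rw [hS] at hn
    exact_mod_cast hn.symm
  have h1s : (1 : G) ∈ secS p D := ⟨1, D.one_mem, 1, by simp, Commute.refl _, ⟨0, by simp⟩, not_dvd_orderOf_one hM.1⟩
  have hnpos : (0 : ℝ) < n := by
    rw [hnr]
    apply mul_pos (inv_pos.mpr hG0)
    apply Finset.sum_pos'
    · intro g _; split_ifs <;> positivity
    · refine ⟨1, Finset.mem_univ _, ?_⟩
      rw [if_pos h1s]
      have : ‖(χ : G → ℂ) 1‖ ≠ 0 := norm_ne_zero_iff.mpr (IsIrr.one_ne_zero χ.2)
      positivity
  have hle : ∑ g : G, (if g ∈ secS p D then ‖(χ : G → ℂ) g‖ ^ 2 else 0) ≤ ∑ g : G, ‖(χ : G → ℂ) g‖ ^ 2 := by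
    apply Finset.sum_le_sum
    intro g _
    split_ifs
    · exact le_rfl
    · positivity
  have hnle : (n : ℝ) ≤ 1 := by
    rw [hnr, hT]
    exact mul_le_mul_of_nonneg_left hle (inv_nonneg.mpr hG0.le)
  have hn1 : n = 1 := by
    have a : (0 : ℤ) < n := by exact_mod_cast hnpos
    have b : n ≤ 1 := by exact_mod_cast hnle
    omega
  refine ⟨?_, ?_⟩
  · rw [← secS_inner_self hM hD hDZ χ, hn, hn1]; simp
  · intro g hg
    have h2 : ∑ g : G, (‖(χ : G → ℂ) g‖ ^ 2 - (if g ∈ secS p D then ‖(χ : G → ℂ) g‖ ^ 2 else 0)) = 0 := by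
      rw [Finset.sum_sub_distrib]
      rw [hn1] at hnr
      have h3 : (Nat.card G : ℝ)⁻¹ * (∑ g : G, ‖(χ : G → ℂ) g‖ ^ 2 - ∑ g : G, (if g ∈ secS p D then ‖(χ : G → ℂ) g‖ ^ 2 else 0)) = 0 := by
        rw [mul_sub, ← hT, ← hnr]; simp
      exact (mul_eq_zero.mp h3).resolve_left (inv_ne_zero hG0.ne')
    have h4 := (Finset.sum_eq_zero_iff_of_nonneg (fun g _ => by
      split_ifs
      · simp
      · rw [sub_zero]; positivity)).mp h2 g (Finset.mem_univ _)
    rw [if_neg hg, sub_zero] at h4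
    exact norm_eq_zero.mp (pow_eq_zero_iff (two_ne_zero) |>.mp h4)

theorem rel_defect_zero_df (hM : IsPModular p M) {D : Subgroup G} (hD : IsPGroup p D) (hDZ : D ≤ Subgroup.center G)
    (χ : IrrCharacter G) (hdeg : (charDegree (χ : G → ℂ)).factorization p = D.index.factorization p)
    {B : Set (IrrCharacter G)} (hB : IsPBlock M B) (hχ : χ ∈ B) : IsDefectGroup p M B D := by
  classical
  haveI := isPrime_of_isPModular hM
  haveI : Fact p.Prime := ⟨hM.1⟩
  haveI hDn : D.Normal := normal_of_le_center' hDZ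
  have hD0 : (Nat.card D) ≠ 0 := Nat.card_pos.ne'
  have hfac : (Nat.card D * charDegree (χ : G → ℂ)).factorization p = (Nat.card G).factorization p := by
    rw [Nat.factorization_mul hD0 (charDegree_pos χ.2).ne', ← Subgroup.card_mul_index D,
      Nat.factorization_mul hD0 Subgroup.index_ne_zero_of_finite, Finsupp.add_apply, Finsupp.add_apply, hdeg]
  have h1 := (rel_defect_zero hM hD hDZ χ hdeg).1
  have hG0 : (Nat.card G : ℂ) ≠ 0 := Nat.cast_ne_zero.mpr Nat.card_pos.ne'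
  have hDc : (Nat.card D : ℂ) ≠ 0 := Nat.cast_ne_zero.mpr hD0
  have hdc : (charDegree (χ : G → ℂ) : ℂ) ≠ 0 := Nat.cast_ne_zero.mpr (charDegree_pos χ.2).ne'
  have h2 : omega (χ : G → ℂ) (areg p (χ : G → ℂ)) = (Nat.card G : ℂ) / ((Nat.card D * charDegree (χ : G → ℂ) : ℕ) : ℂ) := by
    rw [rin_eq_omega, IsCharacter.one_eq_charDegree (irr_isCharacter χ)] at h1
    push_cast
    field_simp at h1 ⊢
    linear_combination h1
  have h0 : blockHeight p B (χ : G → ℂ) = 0 := by
    rw [← omega_areg_not_memLocI_iff hM hB hχ hχ, h2]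
    intro h3
    rcases div_memLocI hM (mul_ne_zero hD0 (charDegree_pos χ.2).ne') h3 with h4 | h4
    · exact Nat.card_pos.ne' h4
    · rw [hfac] at h4; exact lt_irrefl _ h4
  have h3 := blockHeight_add (p := p) hχ
  have h4 := blockDefect_add (p := p) B ⟨χ, hχ⟩
  obtain ⟨E, hE⟩ := exists_defectGroup hM hB
  have hEdf := (isDefectGroup_iff_df hM hB).mp hE
  have hle : D ≤ E := Df.normal_le hM hEdf (isBl_top hB) hD le_top (by
    rw [Subgroup.normalizer_eq_top_iff.mpr hDn])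
  have hcE := df_card hM hB hEdf
  obtain ⟨k, hk⟩ := IsPGroup.iff_card.mp hD
  have h5 : D.index.factorization p + k = (Nat.card G).factorization p := by
    rw [← Subgroup.card_mul_index D, Nat.factorization_mul hD0 Subgroup.index_ne_zero_of_finite, Finsupp.add_apply,
      hk, hM.1.factorization_pow, Finsupp.single_eq_same, add_comm]
  have h6 : Nat.card E = Nat.card D := by
    rw [hcE, hk]
    congr 1
    omega
  have h7 : D = E := Subgroup.eq_of_le_of_card_ge hle h6.le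
  rw [h7]; exact hE

end Cfsg.Agent.H5
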