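import Cfsg.Agent.H5.W14
import Cfsg.Agent.H5.W1
import Cfsg.Agent.H4.ExtApp

set_option autoImplicit false
set_option linter.style.haveILetI false
set_option linter.unusedVariables false
set_option linter.unusedSectionVars false
set_option linter.unusedSimpArgs false

/-! Weights. -/

namespace Cfsg.Agent.H5

open Cfsg
open scoped ComplexConjugate

universe u v w

theorem sum_surj {H K : Type u} [Group H] [Group K] [Fintype H] [Fintype K] (f : H →* K) (hf : Function.Surjective f)
    (F : K → ℂ) : (Nat.card K : ℂ) * ∑ h : H, F (f h) = (Nat.card H : ℂ) * ∑ k : K, F k := by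
  classical
  obtain ⟨c, hc⟩ : ∃ c : ℕ, ∀ k : K, (Finset.univ.filter (fun h : H => f h = k)).card = c := by
    refine ⟨(Finset.univ.filter (fun h : H => f h = 1)).card, fun k => ?_⟩
    exact MonoidHom.card_fiber_eq_of_mem_range f (hf k) ⟨1, map_one f⟩
  have h1 : ∀ F : K → ℂ, ∑ h : H, F (f h) = (c : ℂ) * ∑ k : K, F k := by
    intro F
    rw [← Finset.sum_fiberwise Finset.univ f, Finset.mul_sum]
    refine Finset.sum_congr rfl fun k _ => ?_
    rw [Finset.sum_congr rfl (fun h hh => by rw [(Finset.mem_filter.mp hh).2]), Finset.sum_const, hc k, nsmul_eq_mul]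
  have h2 := h1 (fun _ => 1)
  simp only [Finset.sum_const, Finset.card_univ, ← Nat.card_eq_fintype_card, nsmul_eq_mul, mul_one] at h2
  rw [h1 F, h2]; ring

theorem classInner_surj {H K : Type u} [Group H] [Group K] [Fintype H] [Fintype K] (f : H →* K) (hf : Function.Surjective f)
    (α β : K → ℂ) : classInner (α ∘ f) (β ∘ f) = classInner α β := by
  have h := sum_surj f hf (fun k => α k * conj (β k))
  have hH : (Nat.card H : ℂ) ≠ 0 := Nat.cast_ne_zero.mpr Nat.card_pos.ne'
  have hK : (Nat.card K : ℂ) ≠ 0 := Nat.cast_ne_zero.mpr Nat.card_pos.ne'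
  rw [classInner_def, classInner_def]
  have h2 : ∑ g : H, (α ∘ f) g * conj ((β ∘ f) g) = ∑ h : H, (fun k => α k * conj (β k)) (f h) := rfl
  rw [h2]
  field_simp
  linear_combination h

variable {G : Type u} [Group G] [Fintype G] {p : ℕ} {M : Ideal AlgInt}

/-- Constituents of a relative defect zero character. -/
theorem exists_quot_constituent (hp : p.Prime) {N Q : Subgroup G} [hN : N.Normal] [hQ : Q.Normal] [Fintype N] {χ : IrrCharacter G}
    (hχQ : ∀ q ∈ Q, (χ : G → ℂ) q = (χ : G → ℂ) 1)
    (hdeg : (charDegree (χ : G → ℂ)).factorization p + (Nat.card Q).factorization p = (Nat.card G).factorization p) :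
    ∃ ψ : IrrCharacter N, classInner (fun n : N => (χ : G → ℂ) n) (ψ : N → ℂ) ≠ 0 ∧
      (∀ z : N, (z : G) ∈ Q → (ψ : N → ℂ) z = (ψ : N → ℂ) 1) ∧
      (charDegree (ψ : N → ℂ)).factorization p = ((Q ⊓ N).subgroupOf N).index.factorization p := by
  classical
  haveI : Fintype (G ⧸ Q) := Fintype.ofFinite _
  obtain ⟨χb, hχb⟩ := irr_deflate χ.2 hχQ
  obtain ⟨Nb, hNb⟩ : ∃ Nb : Subgroup (G ⧸ Q), Nb = N.map (QuotientGroup.mk' Q) := ⟨_, rfl⟩
  haveI hNbn : Nb.Normal := by rw [hNb]; exact hN.map _ (QuotientGroup.mk'_surjective Q)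
  haveI : Fintype Nb := Fintype.ofFinite _
  obtain ⟨η, hη⟩ := exists_under (N := Nb) χb
  obtain ⟨e, he, hedvd⟩ := H4.ratio_dvd_index hNbn (χb : G ⧸ Q → ℂ) χb.2 (η : Nb → ℂ) η.2 hη
  subst hNb
  obtain ⟨f, hf⟩ : ∃ f : N →* (N.map (QuotientGroup.mk' Q)), f = (QuotientGroup.mk' Q).subgroupMap N := ⟨_, rfl⟩
  have hfs : Function.Surjective f := by rw [hf]; exact MonoidHom.subgroupMap_surjective _ _
  have hfc : ∀ n : N, ((f n : (N.map (QuotientGroup.mk' Q))) : G ⧸ Q) = QuotientGroup.mk (n : G) := by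
    intro n; rw [hf]; rfl
  have hirr : IsIrrCharacter N ((η : (N.map (QuotientGroup.mk' Q)) → ℂ) ∘ f) := isIrrCharacter_comp_surjective f hfs η.2
  have hdegχ : charDegree (χ : G → ℂ) = charDegree (χb : G ⧸ Q → ℂ) := by
    unfold charDegree; rw [hχb]; rfl
  have hdegη : charDegree ((η : (N.map (QuotientGroup.mk' Q)) → ℂ) ∘ f) = charDegree (η : (N.map (QuotientGroup.mk' Q)) → ℂ) := by
    unfold charDegree
    rw [Function.comp_apply, map_one]
  refine ⟨⟨_, hirr⟩, ?_, ?_, ?_⟩
  · have h1 : (fun n : N => (χ : G → ℂ) n) = (fun n : (N.map (QuotientGroup.mk' Q)) => (χb : G ⧸ Q → ℂ) n) ∘ f := by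
      funext n
      rw [hχb, Function.comp_apply, Function.comp_apply, hfc]
    show classInner _ ((η : (N.map (QuotientGroup.mk' Q)) → ℂ) ∘ f) ≠ 0
    rw [h1, classInner_surj f hfs]
    exact hη
  · intro z hz
    have : f z = 1 := by
      apply Subtype.ext
      rw [hfc]
      exact (QuotientGroup.eq_one_iff _).mpr hz
    show (η : (N.map (QuotientGroup.mk' Q)) → ℂ) (f z) = (η : (N.map (QuotientGroup.mk' Q)) → ℂ) (f 1)
    rw [this, map_one]
  · -- degrees
    have hker : f.ker = (Q ⊓ N).subgroupOf N := by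
      ext n
      rw [MonoidHom.mem_ker, Subgroup.mem_subgroupOf, Subgroup.mem_inf]
      constructor
      · intro h
        have h2 := congrArg Subtype.val h
        rw [hfc] at h2
        exact ⟨(QuotientGroup.eq_one_iff _).mp h2, n.2⟩
      · rintro ⟨h, -⟩
        apply Subtype.ext
        rw [hfc]
        exact (QuotientGroup.eq_one_iff _).mpr h
    have hcN : ((Q ⊓ N).subgroupOf N).index = Nat.card (N.map (QuotientGroup.mk' Q)) := by
      rw [← hker, Subgroup.index_ker]
      have : f.range = ⊤ := MonoidHom.range_eq_top.mpr hfs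
      rw [this]
      exact Nat.card_congr Subgroup.topEquiv.toEquiv
    have h1 : charDegree (χb : G ⧸ Q → ℂ) = e * charDegree (η : (N.map (QuotientGroup.mk' Q)) → ℂ) := by
      rw [IsCharacter.one_eq_charDegree (irr_isCharacter χb), IsCharacter.one_eq_charDegree (irr_isCharacter η)] at he
      exact_mod_cast he
    have hη0 := (charDegree_pos η.2).ne'
    have he0 : e ≠ 0 := by
      rintro rfl
      rw [zero_mul] at h1
      exact (charDegree_pos χb.2).ne' h1
    have hi0 : (N.map (QuotientGroup.mk' Q)).index ≠ 0 := Subgroup.index_ne_zero_of_finite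
    have h2 : e.factorization p ≤ (N.map (QuotientGroup.mk' Q)).index.factorization p :=
      (Nat.factorization_le_iff_dvd he0 hi0).mpr hedvd p
    have h3 : (Nat.card (G ⧸ Q)).factorization p = (Nat.card (N.map (QuotientGroup.mk' Q))).factorization p +
        (N.map (QuotientGroup.mk' Q)).index.factorization p := by
      rw [← Subgroup.card_mul_index (N.map (QuotientGroup.mk' Q)), Nat.factorization_mul Nat.card_pos.ne' hi0]; rfl
    have h4 : (Nat.card G).factorization p = (Nat.card (G ⧸ Q)).factorization p + (Nat.card Q).factorization p := by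
      rw [Subgroup.card_eq_card_quotient_mul_card_subgroup Q, Nat.factorization_mul Nat.card_pos.ne' Nat.card_pos.ne']; rfl
    have h5 : (charDegree (χb : G ⧸ Q → ℂ)).factorization p = e.factorization p +
        (charDegree (η : (N.map (QuotientGroup.mk' Q)) → ℂ)).factorization p := by
      rw [h1, Nat.factorization_mul he0 hη0]; rfl
    have h6 : (charDegree (η : (N.map (QuotientGroup.mk' Q)) → ℂ)).factorization p ≤
        (Nat.card (N.map (QuotientGroup.mk' Q))).factorization p :=
      (Nat.factorization_le_iff_dvd hη0 Nat.card_pos.ne').mpr (charDegree_dvd_card η.2) p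
    show (charDegree ((η : (N.map (QuotientGroup.mk' Q)) → ℂ) ∘ f)).factorization p = _
    rw [hdegη, hcN]
    rw [hdegχ] at hdeg
    omega

/-- A character of defect zero modulo `Q` forces `O_p ≤ Q`. -/
theorem core_le_of_quot_defect_zero (hM : IsPModular p M) {Q : Subgroup G} [hQ : Q.Normal] {χ : IrrCharacter G}
    (hχQ : ∀ q ∈ Q, (χ : G → ℂ) q = (χ : G → ℂ) 1)
    (hdeg : (charDegree (χ : G → ℂ)).factorization p + (Nat.card Q).factorization p = (Nat.card G).factorization p)
    {R : Subgroup G} [hR : R.Normal] (hRp : IsPGroup p R) : R ≤ Q := by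
  classical
  haveI := isPrime_of_isPModular hM
  haveI : Fact p.Prime := ⟨hM.1⟩
  haveI : Fintype (G ⧸ Q) := Fintype.ofFinite _
  obtain ⟨χb, hχb⟩ := irr_deflate χ.2 hχQ
  have hdegχ : charDegree (χ : G → ℂ) = charDegree (χb : G ⧸ Q → ℂ) := by
    unfold charDegree; rw [hχb]; rfl
  have h4 : (Nat.card G).factorization p = (Nat.card (G ⧸ Q)).factorization p + (Nat.card Q).factorization p := by
    rw [Subgroup.card_eq_card_quotient_mul_card_subgroup Q, Nat.factorization_mul Nat.card_pos.ne' Nat.card_pos.ne']; rfl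
  have h1 := rel_defect_zero_df hM (D := (⊥ : Subgroup (G ⧸ Q))) IsPGroup.of_bot bot_le χb (by
    rw [Subgroup.index_bot]
    rw [hdegχ] at hdeg
    omega) (isPBlock_blockOf χb) (mem_blockOf_self χb)
  have h2 := (isDefectGroup_iff_df hM (isPBlock_blockOf χb)).mp h1
  haveI hRb : (R.map (QuotientGroup.mk' Q)).Normal := hR.map _ (QuotientGroup.mk'_surjective Q)
  have h3 : R.map (QuotientGroup.mk' Q) ≤ ⊥ := Df.normal_le hM h2 (isBl_top (isPBlock_blockOf χb))
    (hRp.map _) le_top (by rw [Subgroup.normalizer_eq_top_iff.mpr hRb])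
  intro r hr
  have h5 : (QuotientGroup.mk' Q) r ∈ (⊥ : Subgroup (G ⧸ Q)) := h3 ⟨r, hr, rfl⟩
  rw [Subgroup.mem_bot] at h5
  exact (QuotientGroup.eq_one_iff _).mp h5

end Cfsg.Agent.H5
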