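import Cfsg.Agent.H5.W15
import Cfsg.Agent.H5.K15
import Cfsg.Agent.H5.K9

set_option autoImplicit false
set_option linter.style.haveILetI false
set_option linter.unusedVariables false
set_option linter.unusedSectionVars false
set_option linter.unusedSimpArgs false

/-! Weights and maximal pairs. -/

namespace Cfsg.Agent.H5

open Cfsg
open scoped ComplexConjugate

universe u v w

variable {G : Type u} [Group G] [Fintype G] {p : ℕ} {M : Ideal AlgInt} [hM' : M.IsPrime]

theorem inf_centralizer_center (Q : Subgroup G) :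
    (Q ⊓ Subgroup.centralizer (Q : Set G)).subgroupOf (Subgroup.centralizer (Q : Set G)) ≤
      Subgroup.center (Subgroup.centralizer (Q : Set G)) := by
  intro z hz
  rw [Subgroup.mem_subgroupOf, Subgroup.mem_inf] at hz
  rw [Subgroup.mem_center_iff]
  intro c
  apply Subtype.ext
  exact (Subgroup.mem_centralizer_iff.mp c.2 z hz.1).symm

theorem isPGroup_inf_sub {Q : Subgroup G} (hQ : IsPGroup p Q) :
    IsPGroup p ((Q ⊓ Subgroup.centralizer (Q : Set G)).subgroupOf (Subgroup.centralizer (Q : Set G))) :=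
  IsPGroup.comap_subtype (IsPGroup.to_le hQ inf_le_left)

/-- A member of `e` coming from a weight. -/
theorem weight_df (hM : IsPModular p M) {Q T : Subgroup G} (hQ : IsPGroup p Q)
    {e : Set (IrrCharacter (Subgroup.centralizer (Q : Set G)))} (he : IsPBlock M e)
    (hT : T = stb Q (be M (Subgroup.centralizer (Q : Set G)) e)) {F : Set (IrrCharacter T)} (hF : IsPBlock M F)
    (hFe : be M T F = be M (Subgroup.centralizer (Q : Set G)) e) {χ : IrrCharacter T} (hχ : χ ∈ F)
    (hχQ : ∀ q ∈ Q.subgroupOf T, (χ : T → ℂ) q = (χ : T → ℂ) 1)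
    (hdeg : (charDegree (χ : T → ℂ)).factorization p + (Nat.card Q).factorization p = (Nat.card T).factorization p) :
    IsDefectGroup p M e ((Q ⊓ Subgroup.centralizer (Q : Set G)).subgroupOf (Subgroup.centralizer (Q : Set G))) ∧
      ∀ R : Subgroup G, R ≤ T → IsPGroup p R → T ≤ Subgroup.normalizer (R : Set G) → R ≤ Q := by
  classical
  haveI : Fact p.Prime := ⟨hM.1⟩
  haveI : Fintype T := Fintype.ofFinite _
  haveI : Fintype (Subgroup.centralizer (Q : Set G)) := Fintype.ofFinite _
  have hbl := isBl_be (M := M) he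
  have hQT : Q ≤ T := by rw [hT]; exact le_stb hbl.sup
  have hCT : Subgroup.centralizer (Q : Set G) ≤ T := by rw [hT]; exact centralizer_le_stb hbl
  have hTN : T ≤ Subgroup.normalizer (Q : Set G) := by rw [hT]; exact stb_le Q _
  haveI hQn : (Q.subgroupOf T).Normal := Subgroup.normal_subgroupOf_of_le_normalizer hTN
  haveI hCn : ((Subgroup.centralizer (Q : Set G)).subgroupOf T).Normal :=
    Subgroup.normal_subgroupOf_of_le_normalizer (le_trans hTN (normalizer_le_normalizer_centralizer Q))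
  haveI : Fintype ((Subgroup.centralizer (Q : Set G)).subgroupOf T) := Fintype.ofFinite _
  have hcardQ : Nat.card (Q.subgroupOf T) = Nat.card Q := Nat.card_congr (Subgroup.subgroupOfEquivOfLe hQT).toEquiv
  have hdeg' : (charDegree (χ : T → ℂ)).factorization p + (Nat.card (Q.subgroupOf T)).factorization p =
      (Nat.card T).factorization p := by rw [hcardQ]; exact hdeg
  constructor
  · obtain ⟨ψ, hψ1, hψ2, hψ3⟩ := exists_quot_constituent hM.1 (N := (Subgroup.centralizer (Q : Set G)).subgroupOf T)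
      (Q := Q.subgroupOf T) hχQ hdeg'
    -- `ψ` lies in the copy of `e`
    have he' : IsPBlock M (irrE (subE hCT) '' e) := (isPBlock_equiv (subE hCT) e).mpr he
    have hblk : blk M F = be M ((Subgroup.centralizer (Q : Set G)).subgroupOf T) (irrE (subE hCT) '' e) := by
      apply emk_injective T
      rw [be_subE hCT e, ← hFe, be_def]
    have hcov : Cov ((Subgroup.centralizer (Q : Set G)).subgroupOf T) F (blockOf M (ψ : ((Subgroup.centralizer (Q : Set G)).subgroupOf T) → ℂ)) :=
      cov_of hχ (mem_blockOf_self ψ) hψ1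
    rw [cov_iff' hF (isPBlock_blockOf ψ), hblk] at hcov
    have hψe : ψ ∈ irrE (subE hCT) '' e := by
      rcases (isBl_be (M := M) (isPBlock_blockOf (M := M) ψ)).eq_or (isBl_be he') with h | h
      · rw [← be_injective (isPBlock_blockOf ψ) he' h]; exact mem_blockOf_self ψ
      · exact absurd h hcov
    obtain ⟨ψ', hψ'e, hψ'⟩ := hψe
    apply rel_defect_zero_df hM (isPGroup_inf_sub hQ) (inf_centralizer_center Q) ψ' _ he hψ'e
    rw [← charDegree_equiv (subE hCT) ψ', hψ', hψ3]
    have h1 : ((Q.subgroupOf T ⊓ (Subgroup.centralizer (Q : Set G)).subgroupOf T).subgroupOf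
        ((Subgroup.centralizer (Q : Set G)).subgroupOf T)).index =
        ((Q ⊓ Subgroup.centralizer (Q : Set G)).subgroupOf (Subgroup.centralizer (Q : Set G))).index :=
      Subgroup.relIndex_subgroupOf (H := Q ⊓ Subgroup.centralizer (Q : Set G)) hCT
    rw [h1]
  · intro R hRT hR hRN
    haveI hRn : (R.subgroupOf T).Normal := Subgroup.normal_subgroupOf_of_le_normalizer hRN
    have h := core_le_of_quot_defect_zero hM hχQ hdeg' (R := R.subgroupOf T) (IsPGroup.comap_subtype hR)
    intro r hr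
    exact h (show (⟨r, hRT hr⟩ : T) ∈ R.subgroupOf T from hr)

theorem pelem_mem_of_relIndex {C T : Subgroup G} (hp : p.Prime) (hTC : T ≤ Subgroup.normalizer (C : Set G)) (hCT : C ≤ T)
    (h : ¬ p ∣ C.relIndex T) {g : G} (hg : g ∈ T) (hgp : ∃ k : ℕ, orderOf g = p ^ k) : g ∈ C := by
  haveI : Fact p.Prime := ⟨hp⟩
  haveI hn : (C.subgroupOf T).Normal := Subgroup.normal_subgroupOf_of_le_normalizer hTC
  obtain ⟨k, hk⟩ := hgp
  have h1 : orderOf (QuotientGroup.mk (⟨g, hg⟩ : T) : T ⧸ C.subgroupOf T) ∣ p ^ k := by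
    have := orderOf_map_dvd (QuotientGroup.mk' (C.subgroupOf T)) (⟨g, hg⟩ : T)
    rw [← hk, ← Subgroup.orderOf_mk g hg]
    exact this
  have h2 : orderOf (QuotientGroup.mk (⟨g, hg⟩ : T) : T ⧸ C.subgroupOf T) ∣ C.relIndex T := by
    have := orderOf_dvd_natCard (QuotientGroup.mk (⟨g, hg⟩ : T) : T ⧸ C.subgroupOf T)
    exact this
  have hcop : Nat.Coprime (p ^ k) (C.relIndex T) := ((Nat.Prime.coprime_iff_not_dvd hp).mpr h).pow_left k
  have h3 := Nat.eq_one_of_dvd_coprimes hcop h1 h2
  rw [orderOf_eq_one_iff, QuotientGroup.eq_one_iff] at h3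
  exact h3

theorem cj_sup' (x : G) (P Q : Subgroup G) : cj x (P ⊔ Q) = cj x P ⊔ cj x Q := Subgroup.map_sup _ _ _

/-- Characterization of maximal pairs. -/
theorem maxP_iff (hM : IsPModular p M) {Q : Subgroup G} (hQ : IsPGroup p Q) {e : MonoidAlgebra (KK M) G}
    (he : IsBl M (Subgroup.centralizer (Q : Set G)) e) :
    (∃ b, IsBl M (⊤ : Subgroup G) b ∧ MaxP p M b (Q, e)) ↔
      Df p M (Subgroup.centralizer (Q : Set G)) e (Q ⊓ Subgroup.centralizer (Q : Set G)) ∧
      ∀ g ∈ stb Q e, (∃ k : ℕ, orderOf g = p ^ k) → g ∈ Q ⊔ Subgroup.centralizer (Q : Set G) := by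
  classical
  haveI : Fact p.Prime := ⟨hM.1⟩
  have hbT : IsBl M (stb Q e) e := isBl_stb hM hQ he
  have hQT : Q ≤ stb Q e := le_stb he.sup
  have hCT : Subgroup.centralizer (Q : Set G) ≤ stb Q e := centralizer_le_stb he
  have hTN : stb Q e ≤ Subgroup.normalizer (Q : Set G) := stb_le Q e
  have hTC : stb Q e ≤ Subgroup.normalizer ((Subgroup.centralizer (Q : Set G) : Subgroup G) : Set G) :=
    hTN.trans (normalizer_le_normalizer_centralizer Q)
  have hee : e * e ≠ 0 := by rw [he.idem]; exact he.ne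
  constructor
  · rintro ⟨b, hb, hmax⟩
    have hdf := hmax.df_stb hM hb
    constructor
    · obtain ⟨Q', hQ'⟩ := exists_df hM he
      obtain ⟨P, hP, hPQ⟩ := knorr_rel' hM hCT hTC hbT he hee hQ'
      obtain ⟨x, hx, hx2⟩ := hdf.conj_eq hP
      have : P = Q := by rw [hx2]; exact cj_of_normalizer (hTN hx)
      rw [this] at hPQ
      rw [hPQ]; exact hQ'
    · intro g hg hgp
      have h1 := fn_index hM he hdf
      refine pelem_mem_of_relIndex hM.1 ?_ (sup_le hQT hCT) h1 hg hgp
      intro t ht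
      rw [mem_normalizer_iff_cj, cj_sup']
      rw [cj_of_normalizer (hTN ht), cj_of_normalizer (hTC ht)]
  · rintro ⟨h1, h2⟩
    obtain ⟨P, hP, hPC⟩ := knorr_rel' hM hCT hTC hbT he hee h1
    have hQP : Q ≤ P := Df.normal_le hM hP hbT hQ hQT hTN
    have hPQ : P = Q := by
      apply le_antisymm _ hQP
      intro x hx
      have h3 := h2 x (hP.2.1 hx) (exists_orderOf_pow hM.1 hP.1 hx)
      obtain ⟨d, hd, c, hc, rfl⟩ := exists_mul_of_mem_sup (le_trans Subgroup.le_normalizer (normalizer_le_normalizer_centralizer Q)) h3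
      have h4 : c ∈ P := by
        have := P.mul_mem (P.inv_mem (hQP hd)) hx
        rwa [inv_mul_cancel_left] at this
      have h5 : c ∈ P ⊓ Subgroup.centralizer (Q : Set G) := ⟨h4, hc⟩
      rw [hPC] at h5
      exact Q.mul_mem hd h5.1
    rw [hPQ] at hP
    have h6 := Df.osum_of_stb hM he hP
    have h7 := isBl_osum hM hQ Subgroup.le_normalizer (Subgroup.centralizer_le_normalizer _) le_rfl he
    obtain ⟨b, hb, hbD, hbe⟩ := fm2 hM h7 h6
    refine ⟨b, hb, maxP_of_df hM hb ⟨hQ, he, ?_⟩ hbD⟩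
    show ktr (Subgroup.centralizer (Q : Set G)) b * e = e
    rw [hbe]
    exact osum_mul_mem (self_mem_orb he)

theorem central_block_char (hM : IsPModular p M) {C : Subgroup G} [Fintype C] {Z : Subgroup C} (hZ : IsPGroup p Z)
    (hZC : Z ≤ Subgroup.center C) {e : Set (IrrCharacter C)} (he : IsPBlock M e) :
    IsDefectGroup p M e Z ↔ ∃ θ ∈ e, (∀ z ∈ Z, (θ : C → ℂ) z = (θ : C → ℂ) 1) ∧
      (charDegree (θ : C → ℂ)).factorization p = Z.index.factorization p := by
  constructor
  · intro h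
    have hG : Z ⊔ Subgroup.centralizer (Z : Set C) = ⊤ := by
      rw [eq_top_iff]
      refine le_trans ?_ le_sup_right
      intro g _
      rw [Subgroup.mem_centralizer_iff]
      intro y hy
      exact (Subgroup.mem_center_iff.mp (hZC hy) g).symm
    obtain ⟨θ, hθ, h1, h2, -⟩ := pc_exists_inflated hM hZ hG he h
    exact ⟨θ, hθ, h1, h2⟩
  · rintro ⟨θ, hθ, -, h2⟩
    exact rel_defect_zero_df hM hZ hZC θ h2 he hθ

end Cfsg.Agent.H5
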