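import Cfsg.Agent.H5.W24
import Cfsg.Prelude.Def_OddOrderLocal

set_option autoImplicit false
set_option linter.style.haveILetI false
set_option linter.unusedVariables false
set_option linter.unusedSectionVars false
set_option linter.unusedSimpArgs false

/-! `π'`-cores in kernels of pairs. -/

namespace Cfsg.Agent.H5

open Cfsg

universe u v w

section opp
variable {G : Type u} [Group G] [Fintype G]

/-- The `π'`-core of a subgroup. -/
def opp (π : Set ℕ) (K : Subgroup G) : Subgroup G := (piCore {q | q ∉ π} K).map K.subtype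

theorem opp_le (π : Set ℕ) (K : Subgroup G) : opp π K ≤ K := Subgroup.map_subtype_le _

theorem mem_opp {π : Set ℕ} {K : Subgroup G} (x : K) : (x : G) ∈ opp π K ↔ x ∈ piCore {q | q ∉ π} K := by
  unfold opp
  constructor
  · rintro ⟨y, hy, hyx⟩
    have : y = x := Subtype.ext hyx
    rwa [← this]
  · intro h
    exact ⟨x, h, rfl⟩

theorem piCore_prime (π : Set ℕ) (K : Type u) [Group K] [Finite K] {q : ℕ} (hq : q.Prime)
    (h : q ∣ Nat.card (piCore π K)) : q ∈ π := by
  have := (Cfsg.Agent.L0.sSup_normal_induction (fun A : Subgroup K => ∀ p : ℕ, p.Prime → p ∣ Nat.card A → p ∈ π) (by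
      intro p hp h
      rw [Subgroup.card_bot] at h
      exact absurd (Nat.dvd_one.mp h) hp.ne_one) (by
      intro A B hA hB h1 h2 p hp h
      have h3 := h.trans (Cfsg.Agent.L0.card_sup_dvd_of_normal_left A B)
      rcases (hp.dvd_mul).mp h3 with h4 | h4
      · exact h1 p hp h4
      · exact h2 p hp h4) {N : Subgroup K | N.Normal ∧ ∀ p : ℕ, p.Prime → p ∣ Nat.card N → p ∈ π} (fun A hA => hA)).1
  exact this q hq h

theorem opp_prime {π : Set ℕ} {K : Subgroup G} {q : ℕ} (hq : q.Prime) (h : q ∣ Nat.card (opp π K)) : q ∉ π := by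
  have h1 : Nat.card (opp π K) = Nat.card (piCore {q | q ∉ π} K) :=
    Cfsg.Agent.L0.card_map_subtype K _
  rw [h1] at h
  exact piCore_prime _ _ hq h

theorem le_opp {π : Set ℕ} {K Y : Subgroup G} (hYK : Y ≤ K) (hKY : K ≤ Subgroup.normalizer (Y : Set G))
    (hY : ∀ q : ℕ, q.Prime → q ∣ Nat.card Y → q ∉ π) : Y ≤ opp π K := by
  have h1 : (Y.subgroupOf K).Normal := by
    refine ⟨fun n hn g => ?_⟩
    rw [Subgroup.mem_subgroupOf] at hn ⊢
    push_cast
    exact (Subgroup.mem_normalizer_iff.mp (hKY g.2) _).mp hn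
  have h2 : Y.subgroupOf K ≤ piCore {q | q ∉ π} K := by
    apply le_sSup
    refine ⟨h1, ?_⟩
    intro q hq h
    exact hY q hq (h.trans (Cfsg.Agent.L0.card_subgroupOf_dvd Y K))
  intro y hy
  exact (mem_opp ⟨y, hYK hy⟩).mpr (h2 (show (⟨y, hYK hy⟩ : K) ∈ Y.subgroupOf K from hy))

theorem cj_norm {K Y : Subgroup G} (h : K ≤ Subgroup.normalizer (Y : Set G)) (x : G) :
    cj x K ≤ Subgroup.normalizer ((cj x Y : Subgroup G) : Set G) := by
  intro g hg
  have h1 := h (mem_cj.mp hg)
  rw [mem_normalizer_iff_cj] at h1 ⊢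
  rw [cj_cj]
  have h2 : g * x = x * (x⁻¹ * g * x) := by group
  rw [h2, ← cj_cj, h1]

theorem le_norm_opp (π : Set ℕ) (K : Subgroup G) : K ≤ Subgroup.normalizer ((opp π K : Subgroup G) : Set G) := by
  intro k hk
  rw [Subgroup.mem_normalizer_iff]
  have key : ∀ k ∈ K, ∀ g ∈ opp π K, k * g * k⁻¹ ∈ opp π K := by
    intro k hk g hg
    have hgK := opp_le π K hg
    have h1 := (mem_opp (⟨g, hgK⟩ : K)).mp hg
    have h2 := (piCore_normal {q | q ∉ π} K).conj_mem _ h1 ⟨k, hk⟩
    exact (mem_opp _).mpr h2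
  intro g
  constructor
  · exact key k hk g
  · intro h
    have := key k⁻¹ (K.inv_mem hk) _ h
    have e : k⁻¹ * (k * g * k⁻¹) * k⁻¹⁻¹ = g := by group
    rwa [e] at this

theorem opp_cj_le (π : Set ℕ) (x : G) (K : Subgroup G) : cj x (opp π K) ≤ opp π (cj x K) := by
  apply le_opp (cj_mono x (opp_le π K)) (cj_norm (le_norm_opp π K) x)
  intro q hq h
  rw [card_cj] at h
  exact opp_prime hq h

theorem opp_cj (π : Set ℕ) (x : G) (K : Subgroup G) : cj x (opp π K) = opp π (cj x K) := by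
  apply le_antisymm (opp_cj_le π x K)
  have h1 := opp_cj_le π x⁻¹ (cj x K)
  rw [cj_cj, inv_mul_cancel, cj_one] at h1
  have h2 := cj_mono x h1
  rwa [cj_cj, mul_inv_cancel, cj_one] at h2

theorem norm_opp {π : Set ℕ} {N K : Subgroup G} (h : N ≤ Subgroup.normalizer (K : Set G)) :
    N ≤ Subgroup.normalizer ((opp π K : Subgroup G) : Set G) := by
  intro x hx
  rw [mem_normalizer_iff_cj, opp_cj, cj_of_normalizer (h hx)]

theorem opp_mono_normal {π : Set ℕ} {K L : Subgroup G} (hKL : K ≤ L) (hLK : L ≤ Subgroup.normalizer (K : Set G)) :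
    opp π K ≤ opp π L :=
  le_opp (le_trans (opp_le π K) hKL) (norm_opp hLK) fun _ hq h => opp_prime hq h

theorem inf_opp_le {π : Set ℕ} {K L : Subgroup G} (hLK : L ≤ K) : opp π K ⊓ L ≤ opp π L := by
  apply le_opp inf_le_right
  · intro x hx
    rw [Subgroup.mem_normalizer_iff]
    intro g
    have h1 := (Subgroup.mem_normalizer_iff.mp (le_norm_opp π K (hLK hx))) g
    constructor
    · intro h
      exact ⟨h1.mp h.1, L.mul_mem (L.mul_mem hx h.2) (L.inv_mem hx)⟩
    · intro h
      refine ⟨h1.mpr h.1, ?_⟩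
      have := L.mul_mem (L.mul_mem (L.inv_mem hx) h.2) hx
      have e : x⁻¹ * (x * g * x⁻¹) * x = g := by group
      rwa [e] at this
  · intro q hq h
    exact opp_prime (K := K) hq (h.trans (Subgroup.card_dvd_of_le inf_le_left))

theorem not_dvd_opp {p : ℕ} (hp : p.Prime) {π : Set ℕ} (hpπ : p ∈ π) (K : Subgroup G) : ¬ p ∣ Nat.card (opp π K) :=
  fun h => opp_prime hp h hpπ

theorem cj_normalizer' (x : G) (Q : Subgroup G) : cj x (Subgroup.normalizer (Q : Set G)) =
    Subgroup.normalizer ((cj x Q : Subgroup G) : Set G) := by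
  ext g
  rw [mem_cj, mem_normalizer_iff_cj, mem_normalizer_iff_cj, cj_cj]
  constructor
  · intro h
    have h2 : g * x = x * (x⁻¹ * g * x) := by group
    rw [h2, ← cj_cj, h]
  · intro h
    have h3 : cj x⁻¹ (cj (g * x) Q) = cj x⁻¹ (cj x Q) := by rw [h]
    rw [cj_cj, cj_cj, inv_mul_cancel, cj_one] at h3
    have h2 : x⁻¹ * (g * x) = x⁻¹ * g * x := by group
    rwa [h2] at h3

theorem opp_centralizes {p : ℕ} (hp : p.Prime) {π : Set ℕ} (hpπ : p ∈ π) {P : Subgroup G} (hP : IsPGroup p P) :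
    opp π (Subgroup.normalizer (P : Set G)) ≤ Subgroup.centralizer (P : Set G) := by
  intro x hx
  rw [Subgroup.mem_centralizer_iff]
  intro u hu
  have hxN := opp_le π _ hx
  -- commutator in both
  have h1 : x * u * x⁻¹ * u⁻¹ ∈ P := P.mul_mem ((Subgroup.mem_normalizer_iff.mp hxN u).mp hu) (P.inv_mem hu)
  have h2 : x * u * x⁻¹ * u⁻¹ ∈ opp π (Subgroup.normalizer (P : Set G)) := by
    have h3 : u * x⁻¹ * u⁻¹ ∈ opp π (Subgroup.normalizer (P : Set G)) := by
      have h4 := le_norm_opp π (Subgroup.normalizer (P : Set G)) (Subgroup.le_normalizer hu)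
      exact (Subgroup.mem_normalizer_iff.mp h4 x⁻¹).mp ((opp π (Subgroup.normalizer (P : Set G))).inv_mem hx)
    have e : x * u * x⁻¹ * u⁻¹ = x * (u * x⁻¹ * u⁻¹) := by group
    rw [e]
    exact (opp π (Subgroup.normalizer (P : Set G))).mul_mem hx h3
  obtain ⟨k, hk⟩ := hP ⟨_, h1⟩
  have hk' : (x * u * x⁻¹ * u⁻¹) ^ p ^ k = 1 := congrArg Subtype.val hk
  have h5 : orderOf (x * u * x⁻¹ * u⁻¹) ∣ Nat.card (opp π (Subgroup.normalizer (P : Set G))) := by
    have := orderOf_dvd_natCard (⟨_, h2⟩ : opp π (Subgroup.normalizer (P : Set G)))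
    rwa [← Subgroup.orderOf_coe] at this
  have h6 : (p ^ k).Coprime (Nat.card (opp π (Subgroup.normalizer (P : Set G)))) :=
    Nat.Coprime.pow_left k ((Nat.Prime.coprime_iff_not_dvd hp).mpr (not_dvd_opp hp hpπ _))
  have h7 := orderOf_eq_one_iff.mp (Nat.eq_one_of_dvd_coprimes h6 (orderOf_dvd_of_pow_eq_one hk') h5)
  have h8 : x * u = u * x := by
    have h9 : x * u * x⁻¹ = u := by
      have := mul_inv_eq_one.mp h7
      exact this
    calc x * u = (x * u * x⁻¹) * x := by group
      _ = u * x := by rw [h9]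
  exact h8.symm

end opp

section pairs
variable {G : Type u} [Group G] [Fintype G] {p : ℕ} {M : Ideal AlgInt} [hM' : M.IsPrime]

theorem kconj_ktr_df {b : MonoidAlgebra (KK M) G} (hb : IsBl M (⊤ : Subgroup G) b) (x : G) (D : Subgroup G) :
    kconj x (ktr (Subgroup.centralizer (D : Set G)) b) = ktr (Subgroup.centralizer ((cj x D : Subgroup G) : Set G)) b := by
  rw [kconj_ktr, map_conj_centralizer, mem_KFix.mp hb.fix x (Subgroup.mem_top x)]

/-- Kernel of the normalizer block gives kernels of all pairs. -/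
theorem ker_all (hM : IsPModular p M) {π : Set ℕ} (hpπ : p ∈ π) {b : MonoidAlgebra (KK M) G}
    (hb : IsBl M (⊤ : Subgroup G) b) {D : Subgroup G} (hD : Df p M (⊤ : Subgroup G) b D)
    (hker : sx M (opp π (Subgroup.normalizer (D : Set G))) * ktr (Subgroup.centralizer (D : Set G)) b =
      ktr (Subgroup.centralizer (D : Set G)) b) {a : Subgroup G × MonoidAlgebra (KK M) G} (ha : BP p M b a) :
    sx M (opp π (Subgroup.centralizer (a.1 : Set G))) * a.2 = a.2 := by
  obtain ⟨c, hmax, hle⟩ := exists_maxP hM ha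
  have hdf := MaxP.df hM hb hmax
  obtain ⟨x, -, hx⟩ := hD.conj_eq hdf
  have hkerP : sx M (opp π (Subgroup.normalizer (c.1 : Set G))) * ktr (Subgroup.centralizer (c.1 : Set G)) b =
      ktr (Subgroup.centralizer (c.1 : Set G)) b := by
    have h1 := congrArg (kconj x) hker
    rw [kconj_mul, sx_cj, opp_cj, cj_normalizer', kconj_ktr_df hb, ← hx] at h1
    exact h1
  have hmul : ∀ K : Subgroup G, ¬ p ∣ Nat.card (opp π K) := not_dvd_opp hM.1 hpπ
  have hc : sx M (opp π (Subgroup.centralizer (c.1 : Set G))) * c.2 = c.2 := by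
    obtain ⟨-, hc2, hbc⟩ := hmax.1
    have h1 : sx M (opp π (Subgroup.normalizer (c.1 : Set G))) * c.2 = c.2 := by
      conv_lhs => rw [← hbc]
      rw [← mul_assoc, hkerP, hbc]
    have h2 := sx_mul_le (M := M) hM (hmul (Subgroup.normalizer (c.1 : Set G)))
      (opp_mono_normal (π := π) (centralizer_le_normalizer c.1) (normalizer_le_normalizer_centralizer c.1))
    conv_lhs => rw [← h1]
    rw [← mul_assoc, h2, h1]
  clear hmax hdf hx hkerP ha
  induction hle using Relation.ReflTransGen.head_induction_on with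
  | refl => exact hc
  | head h1 hrest ih =>
    rename_i a' c'
    have hpC : c'.1 ≤ Subgroup.normalizer ((opp π (Subgroup.centralizer (a'.1 : Set G)) : Subgroup G) : Set G) :=
      norm_opp (le_trans h1.2.2.2.2.1 (normalizer_le_normalizer_centralizer a'.1))
    apply ker_down hM h1 (hmul _) (opp_le π _) (le_norm_opp π _) hpC
    have h2 := sx_mul_le (M := M) hM (hmul (Subgroup.centralizer (c'.1 : Set G)))
      (inf_opp_le (π := π) (centralizer_anti h1.2.2.2.1))
    conv_lhs => rw [← ih]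
    rw [← mul_assoc, h2, ih]

/-- Kernels going up. -/
theorem ker_all_up (hM : IsPModular p M) {π : Set ℕ} (hpπ : p ∈ π) {a c : Subgroup G × MonoidAlgebra (KK M) G}
    (hle : LEr p M a c)
    (h0 : (∀ x ∈ Subgroup.centralizer (a.1 : Set G), (∀ q : ℕ, q.Prime → q ∣ orderOf x → q ∉ π) →
      x ∈ opp π (Subgroup.centralizer (a.1 : Set G))) ∧ sx M (opp π (Subgroup.centralizer (a.1 : Set G))) * a.2 = a.2) :
    (∀ x ∈ Subgroup.centralizer (c.1 : Set G), (∀ q : ℕ, q.Prime → q ∣ orderOf x → q ∉ π) →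
      x ∈ opp π (Subgroup.centralizer (c.1 : Set G))) ∧ sx M (opp π (Subgroup.centralizer (c.1 : Set G))) * c.2 = c.2 := by
  have hmul : ∀ K : Subgroup G, ¬ p ∣ Nat.card (opp π K) := not_dvd_opp hM.1 hpπ
  induction hle with
  | refl => exact h0
  | tail hrest h1 ih =>
    rename_i a' c'
    obtain ⟨ih1, ih2⟩ := ih
    have hanti := centralizer_anti h1.2.2.2.1
    have hpC : c'.1 ≤ Subgroup.normalizer ((opp π (Subgroup.centralizer (a'.1 : Set G)) : Subgroup G) : Set G) :=
      norm_opp (le_trans h1.2.2.2.2.1 (normalizer_le_normalizer_centralizer a'.1))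
    have h2 := ker_up hM h1 (hmul _) hpC ih2
    have hle1 : opp π (Subgroup.centralizer (c'.1 : Set G)) ≤
        opp π (Subgroup.centralizer (a'.1 : Set G)) ⊓ Subgroup.centralizer (c'.1 : Set G) := by
      intro x hx
      refine ⟨ih1 x (hanti (opp_le π _ hx)) ?_, opp_le π _ hx⟩
      intro q hq hqx
      have h5 : orderOf x ∣ Nat.card (opp π (Subgroup.centralizer (c'.1 : Set G))) := by
        have := orderOf_dvd_natCard (⟨_, hx⟩ : opp π (Subgroup.centralizer (c'.1 : Set G)))
        rwa [← Subgroup.orderOf_coe] at this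
      exact opp_prime hq (hqx.trans h5)
    constructor
    · intro x hx hxo
      exact inf_opp_le (π := π) hanti ⟨ih1 x (hanti hx) hxo, hx⟩
    · have hinf : ¬ p ∣ Nat.card (opp π (Subgroup.centralizer (a'.1 : Set G)) ⊓ Subgroup.centralizer (c'.1 : Set G) : Subgroup G) :=
        fun h => hmul _ (h.trans (Subgroup.card_dvd_of_le inf_le_left))
      have h3 := sx_mul_le (M := M) hM hinf hle1
      conv_lhs => rw [← h2]
      rw [← mul_assoc, h3, h2]

end pairs

end Cfsg.Agent.H5
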