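import Cfsg.Agent.H5.W25
import Cfsg.Agent.H5.Sect4

set_option autoImplicit false
set_option linter.style.haveILetI false
set_option linter.unusedVariables false
set_option linter.unusedSectionVars false
set_option linter.unusedSimpArgs false

/-! `π'`-cores in kernels of blocks. -/

namespace Cfsg.Agent.H5

open Cfsg

universe u v w

section pairs
variable {G : Type u} [Group G] [Fintype G] {p : ℕ} {M : Ideal AlgInt} [hM' : M.IsPrime]

theorem eq_of_omb {H : Subgroup G} {e b β : MonoidAlgebra (KK M) G} (hb : IsBl M (⊤ : Subgroup G) b)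
    (hβ : IsBl M (⊤ : Subgroup G) β) (h : ∀ a ∈ KFix (KK M) (⊤ : Subgroup G), omb e (ktr H a) = omb b a)
    (h' : ∀ a ∈ KFix (KK M) (⊤ : Subgroup G), omb e (ktr H a) = omb β a) : b = β := by
  rcases hb.eq_or hβ with h3 | h3
  · exact h3
  · exfalso
    have h4 := h _ hb.fix
    rw [h' _ hb.fix, omb_self hb.idem hb.ne] at h4
    have h5 : omb β b = 0 := by
      apply omb_eq hβ.idem hβ.ne (commute_of_fix_sup hb.fix (KSup_top _))
      rw [zero_smul, sub_zero, h3]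
      exact IsNilpotent.zero
    rw [h5] at h4
    exact zero_ne_one h4

theorem ker_of_induced (hM : IsPModular p M) {π : Set ℕ} (hpπ : p ∈ π) {b : MonoidAlgebra (KK M) G}
    (hb : IsBl M (⊤ : Subgroup G) b)
    (hall : ∀ a : Subgroup G × MonoidAlgebra (KK M) G, BP p M b a →
      sx M (opp π (Subgroup.centralizer (a.1 : Set G))) * a.2 = a.2)
    {G₀ : Subgroup G} {e : MonoidAlgebra (KK M) G} (he : IsBl M G₀ e)
    (hrel : ∀ a ∈ KFix (KK M) (⊤ : Subgroup G), omb e (ktr G₀ a) = omb b a)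
    {D₀ : Subgroup G} (hD₀ : Df p M G₀ e D₀) (hC : Subgroup.centralizer (D₀ : Set G) ≤ G₀) :
    sx M (opp π G₀) * e = e := by
  haveI : Fact p.Prime := ⟨hM.1⟩
  haveI := charP_KK hM
  have hmul : ∀ K : Subgroup G, ¬ p ∣ Nat.card (opp π K) := not_dvd_opp hM.1 hpπ
  obtain ⟨β, hβ, hβe, hβrel⟩ := ind_of_df hM he hD₀ hC
  have hbβ : b = β := eq_of_omb hb hβ hrel hβrel
  subst hbβ
  obtain ⟨hf, -⟩ := fm1_rel hM he hD₀
  have hCL : Subgroup.centralizer (D₀ : Set G) ≤ Subgroup.normalizer (D₀ : Set G) ⊓ G₀ := le_inf (centralizer_le_normalizer D₀) hC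
  obtain ⟨e₀, he₀, hfe₀⟩ := exists_Bl_of_idem (ktr_mem_KSup (Subgroup.centralizer (D₀ : Set G)) e) (KFix_mono hCL hf.fix)
    hf.idem hf.ne
  have hBP : BP p M b (D₀, e₀) := by
    refine ⟨hD₀.1, he₀, ?_⟩
    show ktr (Subgroup.centralizer (D₀ : Set G)) b * e₀ = e₀
    conv_lhs => rw [← hfe₀]
    rw [← mul_assoc, hβe, hfe₀]
  have h1 : sx M (opp π (Subgroup.centralizer (D₀ : Set G))) * e₀ = e₀ := by
    have h7 := hall (D₀, e₀) hBP
    simp only at h7
    exact h7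
  have h2 : sx M (opp π G₀ ⊓ Subgroup.centralizer (D₀ : Set G)) * e₀ = e₀ := by
    have h3 := sx_mul_le (M := M) hM (hmul (Subgroup.centralizer (D₀ : Set G))) (inf_opp_le (π := π) hC)
    conv_lhs => rw [← h1]
    rw [← mul_assoc, h3, h1]
  rcases he.prim (sx M (opp π G₀)) (sx_sup (opp_le π G₀)) (sx_fix (le_norm_opp π G₀)) (sx_idem hM (hmul G₀)) with h4 | h4
  · exact h4
  · exfalso
    have h5 := ktr_mul hD₀.1 (sx_fix (M := M) (le_trans hD₀.2.1 (le_norm_opp π G₀))) (KFix_mono hD₀.2.1 he.fix)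
    rw [h4, ktr_zero, sx_ktr hM (hmul G₀) hD₀.1 (le_trans hD₀.2.1 (le_norm_opp π G₀))] at h5
    have h6 : sx M (opp π G₀ ⊓ Subgroup.centralizer (D₀ : Set G)) * e₀ = 0 := by
      conv_lhs => rw [← hfe₀]
      rw [← mul_assoc, ← h5, zero_mul]
    rw [h2] at h6
    exact he₀.ne h6

theorem be_first_main (hM : IsPModular p M) {B : Set (IrrCharacter G)} (hB : IsPBlock M B) {D : Subgroup G}
    (hBD : IsDefectGroup p M B D) {B₁ : Set (IrrCharacter (Subgroup.normalizer (D : Set G)))}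
    (hB₁ : IsInducedBlock M (Subgroup.normalizer (D : Set G)) B₁ B) :
    be M (Subgroup.normalizer (D : Set G)) B₁ = ktr (Subgroup.centralizer (D : Set G)) (blk M B) := by
  have hdf := df_of_isDefectGroup hM hB hBD
  have hb := isBl_top (M := M) hB
  have h1 := (fm1 hM hb hdf).1
  have h2 := isBl_be (M := M) hB₁.1
  have h3 := (isInduced_iff hM hdf.1 Subgroup.le_normalizer (centralizer_le_normalizer D) le_rfl hB₁.1 hB).mp hB₁
  rcases h1.eq_or h2 with h4 | h4
  · exact h4.symm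
  · rw [h3] at h4
    exact absurd h4 h2.ne

theorem ker_normalizer (hM : IsPModular p M) {π : Set ℕ} (hpπ : p ∈ π) {D : Subgroup G}
    {B₁ : Set (IrrCharacter (Subgroup.normalizer (D : Set G)))} (hB₁ : IsPBlock M B₁) :
    (∀ n : ↥(Subgroup.normalizer (D : Set G)), n ∈ piCore {q | q ∉ π} ↥(Subgroup.normalizer (D : Set G)) → n ∈ blockKer B₁) ↔
    sx M (opp π (Subgroup.normalizer (D : Set G))) * be M (Subgroup.normalizer (D : Set G)) B₁ =
      be M (Subgroup.normalizer (D : Set G)) B₁ := by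
  rw [sx_ker_iff hM (opp_le π _) (le_norm_opp π _) (not_dvd_opp hM.1 hpπ _) hB₁]
  constructor
  · intro h x hx
    exact h _ ((mem_opp (⟨x, opp_le π _ hx⟩ : Subgroup.normalizer (D : Set G))).mp hx)
  · intro h n hn
    exact h n ((mem_opp n).mpr hn)

theorem ker_sub (hM : IsPModular p M) {π : Set ℕ} (hpπ : p ∈ π) {K : Subgroup G}
    {B₁ : Set (IrrCharacter K)} (hB₁ : IsPBlock M B₁) :
    (∀ n : K, n ∈ piCore {q | q ∉ π} K → n ∈ blockKer B₁) ↔
    sx M (opp π K) * be M K B₁ = be M K B₁ := by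
  rw [sx_ker_iff hM (opp_le π _) (le_norm_opp π _) (not_dvd_opp hM.1 hpπ _) hB₁]
  constructor
  · intro h x hx
    exact h _ ((mem_opp (⟨x, opp_le π _ hx⟩ : K)).mp hx)
  · intro h n hn
    exact h n ((mem_opp n).mpr hn)

theorem ker_all' (hM : IsPModular p M) {π : Set ℕ} (hpπ : p ∈ π) {B : Set (IrrCharacter G)} (hB : IsPBlock M B)
    {D : Subgroup G} (hBD : IsDefectGroup p M B D) {B₁ : Set (IrrCharacter (Subgroup.normalizer (D : Set G)))}
    (hB₁ : IsInducedBlock M (Subgroup.normalizer (D : Set G)) B₁ B)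
    (hker : ∀ n : ↥(Subgroup.normalizer (D : Set G)), n ∈ piCore {q | q ∉ π} ↥(Subgroup.normalizer (D : Set G)) → n ∈ blockKer B₁) :
    ∀ a : Subgroup G × MonoidAlgebra (KK M) G, BP p M (blk M B) a →
      sx M (opp π (Subgroup.centralizer (a.1 : Set G))) * a.2 = a.2 := by
  intro a ha
  rw [ker_normalizer hM hpπ hB₁.1, be_first_main hM hB hBD hB₁] at hker
  exact ker_all hM hpπ (isBl_top hB) (df_of_isDefectGroup hM hB hBD) hker ha

/-- S4734. -/
theorem ker_general (hM : IsPModular p M) {π : Set ℕ} (hpπ : p ∈ π) {B : Set (IrrCharacter G)} (hB : IsPBlock M B)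
    {D : Subgroup G} (hBD : IsDefectGroup p M B D) {B₁ : Set (IrrCharacter (Subgroup.normalizer (D : Set G)))}
    (hB₁ : IsInducedBlock M (Subgroup.normalizer (D : Set G)) B₁ B)
    (hker : ∀ n : ↥(Subgroup.normalizer (D : Set G)), n ∈ piCore {q | q ∉ π} ↥(Subgroup.normalizer (D : Set G)) → n ∈ blockKer B₁)
    {G₀ : Subgroup G} {B₀ : Set (IrrCharacter G₀)} (hB₀ : IsInducedBlock M G₀ B₀ B) {D₀ : Subgroup G₀}
    (hD₀ : IsDefectGroup p M B₀ D₀) (hC : Subgroup.centralizer ((D₀.map G₀.subtype : Subgroup G) : Set G) ≤ G₀) :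
    ∀ x : G₀, x ∈ piCore {q | q ∉ π} G₀ → x ∈ blockKer B₀ := by
  rw [ker_sub hM hpπ hB₀.1]
  exact ker_of_induced hM hpπ (isBl_top hB) (ker_all' hM hpπ hB hBD hB₁ hker) (isBl_be hB₀.1)
    ((isInduced_iff_omb hB₀.1 hB).mp hB₀) ((isDefectGroup_sub_iff hM hB₀.1).mp hD₀) hC

/-- S4727. -/
theorem value_section (hM : IsPModular p M) {π : Set ℕ} (hpπ : p ∈ π) {B : Set (IrrCharacter G)} (hB : IsPBlock M B)
    {D : Subgroup G} (hBD : IsDefectGroup p M B D) {B₁ : Set (IrrCharacter (Subgroup.normalizer (D : Set G)))}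
    (hB₁ : IsInducedBlock M (Subgroup.normalizer (D : Set G)) B₁ B)
    (hker : ∀ n : ↥(Subgroup.normalizer (D : Set G)), n ∈ piCore {q | q ∉ π} ↥(Subgroup.normalizer (D : Set G)) → n ∈ blockKer B₁)
    {y : G} (hy : ∃ k : ℕ, orderOf y = p ^ k) {C : Subgroup G} (hCdef : C = Subgroup.centralizer ({y} : Set G))
    (hC : ∀ x : C, (∀ q : ℕ, q.Prime → q ∣ orderOf x → q ∉ π) → x ∈ piCore {q | q ∉ π} C)
    {χ : IrrCharacter G} (hχ : χ ∈ B) (x : C) (hx : ∀ q : ℕ, q.Prime → q ∣ orderOf x → q ∉ π) :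
    (χ : G → ℂ) (y * x) = (χ : G → ℂ) y := by
  haveI : Fintype C := Fintype.ofFinite _
  have hBR := blockCoeff_memLocR (M := M) (G := G) hB
  have hx1 : ¬ p ∣ orderOf x := fun h => hx p hM.1 h hpπ
  have h1 := sec_expand hM hBR hy hCdef hχ hx1
  have h2 := sec_expand hM hBR hy hCdef hχ (y := (1 : C)) (by rw [orderOf_one]; exact hM.1.one_lt.ne' ∘ Nat.dvd_one.mp)
  rw [h1]
  have h3 : (χ : G → ℂ) y = (χ : G → ℂ) (y * ((1 : C) : G)) := by simp
  rw [h3, h2]
  refine Finset.sum_congr rfl fun η hη => ?_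
  congr 1
  have h4 := (mem_locA_iff hM hB hy hCdef η).mp (mem_bF.mp hη)
  obtain ⟨E, hE⟩ := exists_defectGroup hM h4.1
  have hyC : y ∈ C := by
    rw [hCdef, Subgroup.mem_centralizer_singleton_iff]
  have hn : (Subgroup.zpowers (⟨y, hyC⟩ : C)).Normal := by
    refine ⟨fun n hn g => ?_⟩
    obtain ⟨k, rfl⟩ := hn
    have hg : ∀ w ∈ C, w * y = y * w := by
      intro w hw
      rw [hCdef, Subgroup.mem_centralizer_singleton_iff] at hw
      exact hw
    have hg := hg _ g.2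
    have hcomm : Commute g (⟨y, hyC⟩ : C) := Subtype.ext hg
    have h5 : g * (⟨y, hyC⟩ : C) ^ k * g⁻¹ = (⟨y, hyC⟩ : C) ^ k := by
      rw [(hcomm.zpow_right k).eq, mul_inv_cancel_right]
    show g * (⟨y, hyC⟩ : C) ^ k * g⁻¹ ∈ _
    rw [h5]
    exact ⟨k, rfl⟩
  have hzp : IsPGroup p (Subgroup.zpowers (⟨y, hyC⟩ : C)) := by
    apply isPGroup_zpowers
    obtain ⟨k, hk⟩ := hy
    exact ⟨k, by rw [← hk, ← Subgroup.orderOf_coe]⟩
  have hle := normal_p_le_defect hM hzp h4.1 hE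
  have hCE : Subgroup.centralizer ((E.map C.subtype : Subgroup G) : Set G) ≤ C := by
    intro g hg
    rw [hCdef, Subgroup.mem_centralizer_singleton_iff]
    exact ((Subgroup.mem_centralizer_iff.mp hg) y ⟨⟨y, hyC⟩, hle (Subgroup.mem_zpowers _), rfl⟩).symm
  have h6 := ker_general hM hpπ hB hBD hB₁ hker h4 hE hCE x (hC x hx) η (mem_blockOf_self η)
  exact h6

theorem isBl_centralizer_of_sup2 (hM : IsPModular p M) {D₀ H₀ : Subgroup G} (hD₀ : IsPGroup p D₀)
    (hH₀ : H₀ = D₀ ⊔ Subgroup.centralizer (D₀ : Set G)) {e : MonoidAlgebra (KK M) G} (he : IsBl M H₀ e) :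
    IsBl M (Subgroup.centralizer (D₀ : Set G)) e := by
  have h1 : D₀ ≤ H₀ := by rw [hH₀]; exact le_sup_left
  have h2 : Subgroup.centralizer (D₀ : Set G) ≤ H₀ := by rw [hH₀]; exact le_sup_right
  have h3 : H₀ ≤ Subgroup.normalizer (D₀ : Set G) := by
    rw [hH₀]; exact sup_le Subgroup.le_normalizer (centralizer_le_normalizer D₀)
  refine ⟨idem_sup_centralizer hM hD₀ h1 h3 he.sup he.fix he.idem, KFix_mono h2 he.fix, he.idem, he.ne, ?_⟩
  intro f hf1 hf2 hf3
  apply he.prim f (KSup_mono h2 hf1) _ hf3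
  rw [hH₀]
  exact KFix_sup (KSup_centralizer_fix hf1) hf2

/-- S4728. -/
theorem ker_converse (hM : IsPModular p M) {π : Set ℕ} (hpπ : p ∈ π) {B : Set (IrrCharacter G)} (hB : IsPBlock M B)
    {D : Subgroup G} (hBD : IsDefectGroup p M B D) {B₁ : Set (IrrCharacter (Subgroup.normalizer (D : Set G)))}
    (hB₁ : IsInducedBlock M (Subgroup.normalizer (D : Set G)) B₁ B)
    {D₀ : Subgroup G} (hD₀ : IsPGroup p D₀) {H₀ : Subgroup G} (hH₀ : H₀ = D₀ ⊔ Subgroup.centralizer (D₀ : Set G))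
    {b : Set (IrrCharacter H₀)} (hb : IsInducedBlock M H₀ b B)
    (hcompl : ∀ x : ↥(Subgroup.centralizer (D₀ : Set G)), (∀ q : ℕ, q.Prime → q ∣ orderOf x → q ∉ π) →
      x ∈ piCore {q | q ∉ π} ↥(Subgroup.centralizer (D₀ : Set G)))
    (hkerb : ∀ x : ↥(Subgroup.centralizer (D₀ : Set G)), x ∈ piCore {q | q ∉ π} ↥(Subgroup.centralizer (D₀ : Set G)) →
      ∀ θ ∈ b, ∀ h : H₀, (h : G) = (x : G) → (θ : H₀ → ℂ) h = (θ : H₀ → ℂ) 1) :
    ∀ n : ↥(Subgroup.normalizer (D : Set G)), n ∈ piCore {q | q ∉ π} ↥(Subgroup.normalizer (D : Set G)) → n ∈ blockKer B₁ := by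
  have hmul : ∀ K : Subgroup G, ¬ p ∣ Nat.card (opp π K) := not_dvd_opp hM.1 hpπ
  have h1 : D₀ ≤ H₀ := by rw [hH₀]; exact le_sup_left
  have h2 : Subgroup.centralizer (D₀ : Set G) ≤ H₀ := by rw [hH₀]; exact le_sup_right
  have h3 : H₀ ≤ Subgroup.normalizer (D₀ : Set G) := by
    rw [hH₀]; exact sup_le Subgroup.le_normalizer (centralizer_le_normalizer D₀)
  have hbl := isBl_be (M := M) hb.1
  have hblC := isBl_centralizer_of_sup2 hM hD₀ hH₀ hbl
  have hBP : BP p M (blk M B) (D₀, be M H₀ b) := by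
    refine ⟨hD₀, hblC, ?_⟩
    exact (isInduced_iff hM hD₀ h1 h2 h3 hb.1 hB).mp hb
  have hXH : opp π (Subgroup.centralizer (D₀ : Set G)) ≤ H₀ := le_trans (opp_le π _) h2
  have hHX : H₀ ≤ Subgroup.normalizer ((opp π (Subgroup.centralizer (D₀ : Set G)) : Subgroup G) : Set G) :=
    norm_opp (le_trans h3 (normalizer_le_normalizer_centralizer D₀))
  have hk0 : sx M (opp π (Subgroup.centralizer (D₀ : Set G))) * be M H₀ b = be M H₀ b := by
    rw [sx_ker_iff hM hXH hHX (hmul _) hb.1]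
    intro x hx θ hθ
    exact hkerb ⟨x, opp_le π _ hx⟩ ((mem_opp (⟨x, opp_le π _ hx⟩ : Subgroup.centralizer (D₀ : Set G))).mp hx) θ hθ _ rfl
  have hc0 : ∀ x ∈ Subgroup.centralizer (D₀ : Set G), (∀ q : ℕ, q.Prime → q ∣ orderOf x → q ∉ π) →
      x ∈ opp π (Subgroup.centralizer (D₀ : Set G)) := by
    intro x hx hxo
    refine (mem_opp (⟨x, hx⟩ : Subgroup.centralizer (D₀ : Set G))).mpr (hcompl _ ?_)
    intro q hq h
    apply hxo q hq
    rwa [← Subgroup.orderOf_coe] at h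
  obtain ⟨⟨P, e₁⟩, hmax, hle⟩ := exists_maxP hM hBP
  have hup := ker_all_up hM hpπ hle ⟨hc0, hk0⟩
  simp only at hup
  have hdf := MaxP.df hM (isBl_top hB) hmax
  simp only at hdf
  have hdfD := df_of_isDefectGroup hM hB hBD
  obtain ⟨x, -, hx⟩ := hdf.conj_eq hdfD
  -- kernel for the normalizer block at P
  have hN := (fm1 hM (isBl_top hB) hdf).1
  have hbe : ktr (Subgroup.centralizer (P : Set G)) (blk M B) * e₁ = e₁ := hmax.1.2.2
  have he₁ : IsBl M (Subgroup.centralizer (P : Set G)) e₁ := hmax.1.2.1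
  have h5 : sx M (opp π (Subgroup.centralizer (P : Set G))) * ktr (Subgroup.centralizer (P : Set G)) (blk M B) =
      ktr (Subgroup.centralizer (P : Set G)) (blk M B) := by
    rcases hN.prim (sx M (opp π (Subgroup.centralizer (P : Set G))))
      (sx_sup (le_trans (opp_le π _) (centralizer_le_normalizer P)))
      (sx_fix (norm_opp (normalizer_le_normalizer_centralizer P))) (sx_idem hM (hmul _)) with h6 | h6
    · exact h6
    · exfalso
      have h7 : sx M (opp π (Subgroup.centralizer (P : Set G))) * e₁ = 0 := by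
        conv_lhs => rw [← hbe]
        rw [← mul_assoc, h6, zero_mul]
      rw [hup.2] at h7
      exact he₁.ne h7
  have h6 : opp π (Subgroup.normalizer (P : Set G)) ≤ opp π (Subgroup.centralizer (P : Set G)) :=
    le_opp (opp_centralizes hM.1 hpπ hdf.1) (le_trans (centralizer_le_normalizer P) (le_norm_opp π _))
      fun q hq h => opp_prime hq h
  have h7 : sx M (opp π (Subgroup.normalizer (P : Set G))) * ktr (Subgroup.centralizer (P : Set G)) (blk M B) =
      ktr (Subgroup.centralizer (P : Set G)) (blk M B) := by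
    conv_lhs => rw [← h5]
    rw [← mul_assoc, sx_mul_le (M := M) hM (hmul _) h6, h5]
  have h8 := congrArg (kconj x) h7
  rw [kconj_mul, sx_cj, opp_cj, cj_normalizer', kconj_ktr_df (isBl_top hB), ← hx] at h8
  rw [ker_normalizer hM hpπ hB₁.1, be_first_main hM hB hBD hB₁]
  exact h8

end pairs

end Cfsg.Agent.H5
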