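import Cfsg.Agent.H5.W12
import Cfsg.Agent.H5.W26
import Cfsg.Agent.H5.Prin1
import Cfsg.Agent.H5.Sect3
import Cfsg.Agent.H5.Klein2

set_option autoImplicit false
set_option linter.style.haveILetI false
set_option linter.unusedVariables false
set_option linter.unusedSectionVars false
set_option linter.unusedSimpArgs false

/-! Blocks of defect one for the prime two, Klein four defect groups. -/

namespace Cfsg.Agent.H5

open Cfsg
open scoped ComplexConjugate

universe u v w

variable {G : Type u} [Group G] [Fintype G] {p : ℕ} {M : Ideal AlgInt}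

theorem induced_normalizer (hM : IsPModular p M) {B : Set (IrrCharacter G)} (hB : IsPBlock M B) {D : Subgroup G}
    (hBD : IsDefectGroup p M B D) {H : Subgroup G} (hH : H = Subgroup.normalizer (D : Set G)) {b : Set (IrrCharacter H)}
    (hb : IsInducedBlock M H b B) :
    IsDefectGroup p M b (D.subgroupOf H) ∧ ∀ b' : Set (IrrCharacter H), IsInducedBlock M H b' B → b' = b := by
  subst hH
  have hprime := isPrime_of_isPModular hM
  have hfN : Fintype (Subgroup.normalizer (D : Set G)) := Fintype.ofFinite _
  have huniq : ∀ b' : Set (IrrCharacter (Subgroup.normalizer (D : Set G))), IsInducedBlock M (Subgroup.normalizer (D : Set G)) b' B → b' = b := by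
    intro b' hb'
    apply be_injective hb'.1 hb.1
    rw [be_first_main hM hB hBD hb', be_first_main hM hB hBD hb]
  obtain ⟨b0, hb0, hb0D, hind0⟩ := first_main_exists hM hB hBD
  rw [huniq b0 hind0] at hb0D
  exact ⟨hb0D, huniq⟩

/-- For an involution, the normalizer and the centralizer agree. -/
theorem normalizer_zpowers_two {x : G} (hx : orderOf x = 2) :
    Subgroup.centralizer ({x} : Set G) = Subgroup.normalizer ((Subgroup.zpowers x : Subgroup G) : Set G) := by
  apply le_antisymm (centralizer_le_norm x)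
  intro g hg
  rw [Subgroup.mem_centralizer_singleton_iff]
  have h1 : g * x * g⁻¹ ∈ Subgroup.zpowers x := (Subgroup.mem_normalizer_iff.mp hg x).mp (Subgroup.mem_zpowers x)
  obtain ⟨k, hk⟩ := h1
  simp only at hk
  have hxx : x ^ (2 : ℤ) = 1 := by
    have := pow_orderOf_eq_one x
    rw [hx] at this
    exact_mod_cast this
  have hx1 : x ≠ 1 := by
    intro h; rw [h, orderOf_one] at hx; omega
  rcases Int.even_or_odd k with ⟨m, hm⟩ | ⟨m, hm⟩
  · exfalso
    rw [hm, ← two_mul, zpow_mul, hxx, one_zpow] at hk
    apply hx1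
    have : x = g⁻¹ * (g * x * g⁻¹) * g := by group
    rw [this, ← hk]; group
  · rw [hm, zpow_add, zpow_mul, hxx, one_zpow, one_mul, zpow_one] at hk
    calc g * x = (g * x * g⁻¹) * g := by group
      _ = x * g := by rw [← hk]

/-- Section values when the Brauer correspondent has a single Brauer character. -/
theorem sec_form (hM : IsPModular p M) {B : Set (IrrCharacter G)} (hB : IsPBlock M B) {x : G} (hx : ∃ k : ℕ, orderOf x = p ^ k)
    {C : Subgroup G} (hC : C = Subgroup.centralizer ({x} : Set G)) [Fintype C] {b : Set (IrrCharacter C)} (hloc : locA M B C = b)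
    {θ : C → ℂ} {a : IrrCharacter C → ℂ} (ha : ∀ η ∈ b, ∀ y : C, ¬ p ∣ orderOf y → (η : C → ℂ) y = a η * θ y)
    {χ : IrrCharacter G} (hχ : χ ∈ B) {y : C} (hy : ¬ p ∣ orderOf y) :
    (χ : G → ℂ) (x * y) = (∑ η ∈ bF b, classInner (xr x (χ : G → ℂ) : C → ℂ) (η : C → ℂ) * a η) * θ y := by
  have hprime := isPrime_of_isPModular hM
  rw [sec_expand hM (fun g => blockCoeff_memLocR hB g) hx hC hχ hy, hloc, Finset.sum_mul]
  refine Finset.sum_congr rfl fun η hη => ?_
  rw [ha η (mem_bF.mp hη) y hy]
  ring

theorem locA_eq (hM : IsPModular p M) {B : Set (IrrCharacter G)} (hB : IsPBlock M B) {x : G} (hx : ∃ k : ℕ, orderOf x = p ^ k)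
    {C : Subgroup G} (hC : C = Subgroup.centralizer ({x} : Set G)) [Fintype C] {b : Set (IrrCharacter C)}
    (hb : IsInducedBlock M C b B) (huniq : ∀ b' : Set (IrrCharacter C), IsInducedBlock M C b' B → b' = b) :
    locA M B C = b := by
  have hprime := isPrime_of_isPModular hM
  ext ξ
  rw [mem_locA_iff hM hB hx hC]
  constructor
  · intro h
    rw [← huniq _ h]
    exact mem_blockOf_self ξ
  · intro h
    have : blockOf M (ξ : C → ℂ) = b := IsPBlock.eq_of_mem ⟨ξ, rfl⟩ hb.1 (mem_blockOf_self ξ) h
    rw [this]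
    exact hb

end Cfsg.Agent.H5
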