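import Cfsg.Agent.H5.W31
import Cfsg.Agent.H5.W18
import Cfsg.Agent.H5.Prin3
import Cfsg.Agent.H5.K14

set_option autoImplicit false
set_option linter.style.haveILetI false
set_option linter.unusedVariables false
set_option linter.unusedSectionVars false
set_option linter.unusedSimpArgs false

/-! Klein four defect groups. -/

namespace Cfsg.Agent.H5

open Cfsg
open scoped ComplexConjugate

universe u v w

variable {G : Type u} [Group G] [Fintype G] {p : ℕ} {M : Ideal AlgInt}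

theorem charDegree_pos' (χ : IrrCharacter G) : 0 < charDegree (χ : G → ℂ) := by
  rcases Nat.eq_zero_or_pos (charDegree (χ : G → ℂ)) with h | h
  · exfalso
    have := IsCharacter.one_eq_charDegree (irr_isCharacter χ)
    rw [h, Nat.cast_zero] at this
    exact IsIrr.one_ne_zero χ.2 this
  · exact h

theorem klein_card (hM : IsPModular 2 M) {B : Set (IrrCharacter G)} (hB : IsPBlock M B) {D : Subgroup G}
    (hD : IsDefectGroup 2 M B D) (hc : Nat.card D = 4) : Nat.card B = 4 := by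
  classical
  have hprime := isPrime_of_isPModular hM
  have hfact : Fact (Nat.Prime 2) := ⟨Nat.prime_two⟩
  have hd : blockDefect 2 B = 2 := by
    have h1 := card_defectGroup hM hB hD
    rw [hc, show (4 : ℕ) = 2 ^ 2 by norm_num] at h1
    exact (Nat.pow_right_injective (le_refl 2) h1).symm
  have hsum := sum_heights_le hM hB
  rw [hd] at hsum
  norm_num at hsum
  have hsq := sum_sq_fac hM hB
  -- exponents
  obtain ⟨m, hm⟩ : ∃ m, m = minExp 2 B := ⟨_, rfl⟩
  have ha : (Nat.card G).factorization 2 = m + 2 := by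
    rw [blockDefect_eq] at hd
    omega
  rw [ha, ← hm] at hsq
  have hdeg : ∀ χ ∈ bF B, ∃ n : ℕ, ¬ 2 ∣ n ∧ charDegree (χ : G → ℂ) = 2 ^ m * (2 ^ blockHeight 2 B (χ : G → ℂ) * n) := by
    intro χ hχ
    refine ⟨charDegree (χ : G → ℂ) / 2 ^ (charDegree (χ : G → ℂ)).factorization 2, Nat.not_dvd_ordCompl Nat.prime_two (charDegree_pos' χ).ne', ?_⟩
    rw [← mul_assoc, ← pow_add]
    have h1 : m + blockHeight 2 B (χ : G → ℂ) = (charDegree (χ : G → ℂ)).factorization 2 := by
      rw [blockHeight_eq, ← hm]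
      have := minExp_le (p := 2) (mem_bF.mp hχ)
      omega
    rw [h1]
    exact (Nat.ordProj_mul_ordCompl_eq_self _ 2).symm
  choose! n hn hdn using hdeg
  have hQ : ∑ χ ∈ bF B, charDegree (χ : G → ℂ) ^ 2 = 2 ^ (2 * m) * ∑ χ ∈ bF B, 4 ^ blockHeight 2 B (χ : G → ℂ) * n χ ^ 2 := by
    rw [Finset.mul_sum]
    refine Finset.sum_congr rfl fun χ hχ => ?_
    rw [hdn χ hχ, show (4 : ℕ) = 2 ^ 2 by norm_num, ← pow_mul, mul_pow, mul_pow, ← pow_mul, ← pow_mul]
    ring
  have hQpos : 0 < ∑ χ ∈ bF B, 4 ^ blockHeight 2 B (χ : G → ℂ) * n χ ^ 2 := by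
    obtain ⟨χ, hχ⟩ := IsPBlock.nonempty' hB
    refine Finset.sum_pos (fun ψ hψ => ?_) ⟨χ, mem_bF.mpr hχ⟩
    have : n ψ ≠ 0 := by
      intro h; exact hn ψ hψ (h ▸ dvd_zero 2)
    positivity
  rw [hQ, Nat.factorization_mul (by positivity) hQpos.ne'] at hsq
  have hsq2 : (∑ χ ∈ bF B, 4 ^ blockHeight 2 B (χ : G → ℂ) * n χ ^ 2).factorization 2 = 2 := by
    rw [Finsupp.add_apply, Nat.Prime.factorization_pow Nat.prime_two, Finsupp.single_eq_same] at hsq
    omega
  have h4 : 4 ∣ ∑ χ ∈ bF B, 4 ^ blockHeight 2 B (χ : G → ℂ) * n χ ^ 2 := by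
    have := Nat.ordProj_dvd (∑ χ ∈ bF B, 4 ^ blockHeight 2 B (χ : G → ℂ) * n χ ^ 2) 2
    rw [hsq2] at this
    exact this
  obtain ⟨χ₀, hχ₀, hh0⟩ := exists_height_zero hM hB
  -- all heights zero
  have hn1 : ∀ χ ∈ bF B, n χ ^ 2 % 8 = 1 := by
    intro χ hχ
    have h1 := hn χ hχ
    have h2 : n χ % 8 = 1 ∨ n χ % 8 = 3 ∨ n χ % 8 = 5 ∨ n χ % 8 = 7 := by omega
    rcases h2 with h | h | h | h <;> rw [Nat.pow_mod, h]
  have hall : ∀ χ ∈ bF B, blockHeight 2 B (χ : G → ℂ) = 0 := by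
    by_contra hcon
    push Not at hcon
    obtain ⟨χ₁, hχ₁, hh1⟩ := hcon
    have hne : χ₀ ≠ χ₁ := by
      rintro rfl; exact hh1 hh0
    have hsub : {χ₀, χ₁} ⊆ bF B := by
      intro χ hχ
      rw [Finset.mem_insert, Finset.mem_singleton] at hχ
      rcases hχ with rfl | rfl
      · exact mem_bF.mpr hχ₀
      · exact hχ₁
    have h5 : ∑ ψ ∈ ({χ₀, χ₁} : Finset (IrrCharacter G)), 2 ^ (2 * blockHeight 2 B (ψ : G → ℂ)) ≤ 5 :=
      le_trans (Finset.sum_le_sum_of_subset hsub) hsum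
    rw [Finset.sum_pair hne, hh0] at h5
    have hh2 : blockHeight 2 B (χ₁ : G → ℂ) = 1 := by
      by_contra h
      have h6 : 2 ≤ blockHeight 2 B (χ₁ : G → ℂ) := by omega
      have h7 : 2 ^ (2 * 2) ≤ 2 ^ (2 * blockHeight 2 B (χ₁ : G → ℂ)) := Nat.pow_le_pow_right (by norm_num) (by omega)
      norm_num at h5 h7
      omega
    -- no other characters
    have hBF : bF B = {χ₀, χ₁} := by
      apply Finset.Subset.antisymm _ hsub
      intro ψ hψ
      by_contra hψ'
      have hsub2 : insert ψ {χ₀, χ₁} ⊆ bF B := by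
        intro χ hχ
        rw [Finset.mem_insert] at hχ
        rcases hχ with rfl | h
        · exact hψ
        · exact hsub h
      have h6 := le_trans (Finset.sum_le_sum_of_subset (f := fun ψ : IrrCharacter G => 2 ^ (2 * blockHeight 2 B (ψ : G → ℂ))) hsub2) hsum
      rw [Finset.sum_insert hψ', Finset.sum_pair hne, hh0, hh2] at h6
      have h7 : 1 ≤ 2 ^ (2 * blockHeight 2 B (ψ : G → ℂ)) := Nat.one_le_two_pow
      norm_num at h6
    rw [hBF, Finset.sum_pair hne, hh0, hh2] at h4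
    have e1 := hn1 χ₀ (mem_bF.mpr hχ₀)
    norm_num at h4
    omega
  -- count
  have h6 : ∑ χ ∈ bF B, 4 ^ blockHeight 2 B (χ : G → ℂ) * n χ ^ 2 = ∑ χ ∈ bF B, n χ ^ 2 := by
    refine Finset.sum_congr rfl fun χ hχ => ?_
    rw [hall χ hχ]; ring
  have h7 : (∑ χ ∈ bF B, n χ ^ 2) % 8 = (bF B).card % 8 := by
    rw [Finset.sum_nat_mod, Finset.sum_congr rfl hn1]
    simp
  have h8 : (bF B).card ≤ 5 := by
    rw [Finset.card_eq_sum_ones]
    refine le_trans (Finset.sum_le_sum fun χ _ => Nat.one_le_two_pow) hsum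
  have h9 : 0 < (bF B).card := Finset.card_pos.mpr ⟨χ₀, mem_bF.mpr hχ₀⟩
  rw [h6] at h4
  rw [← card_bF]
  omega


theorem isSec_one_iff (hp : p.Prime) (g : G) : IsSec p 1 g ↔ ¬ p ∣ orderOf g := by
  constructor
  · rintro ⟨z, ⟨y, hy, -, -, hyr⟩, hc⟩
    have hz : z = 1 := by
      obtain ⟨c, hc⟩ := _root_.isConj_iff.mp hc
      rw [← hc]; group
    rw [hz, one_mul] at hy
    rw [← hy]; exact hyr
  · intro h
    exact ⟨1, ⟨g, one_mul g, Commute.one_left g, ⟨0, by rw [orderOf_one, pow_zero]⟩, h⟩, IsConj.refl 1⟩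

/-- The section term. -/
theorem sec_term (hM : IsPModular p M) {B : Set (IrrCharacter G)} (hB : IsPBlock M B) {x : G} (hx : ∃ k : ℕ, orderOf x = p ^ k) :
    ∑ᶠ b ∈ {b : Set (IrrCharacter (Subgroup.centralizer ({x} : Set G))) |
      IsInducedBlock M (Subgroup.centralizer ({x} : Set G)) b B}, (blockRank p b : ℂ) =
    ∑ b ∈ (Set.toFinite {b : Set (IrrCharacter (Subgroup.centralizer ({x} : Set G))) |
      IsInducedBlock M (Subgroup.centralizer ({x} : Set G)) b B}).toFinset, (blockRank p b : ℂ) := by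
  exact finsum_mem_eq_finite_toFinset_sum _ _

open Classical in
theorem sec_term' (hM : IsPModular p M) {B : Set (IrrCharacter G)} (hB : IsPBlock M B) {x : G} (hx : ∃ k : ℕ, orderOf x = p ^ k) :
    ∑ᶠ b ∈ {b : Set (IrrCharacter (Subgroup.centralizer ({x} : Set G))) |
      IsInducedBlock M (Subgroup.centralizer ({x} : Set G)) b B}, (blockRank p b : ℂ) =
      ∑ χ ∈ bF B, (Nat.card G : ℂ)⁻¹ * ∑ g : G, (if IsSec p x g then (χ : G → ℂ) g * conj ((χ : G → ℂ) g) else 0) := by
  haveI := isPrime_of_isPModular hM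
  have hBR := blockCoeff_memLocR (M := M) hB
  rw [sum_section_block hM hBR hx rfl, sum_locA_blocks hM (fun ξ hξ ξ' h => locA_closed hM hBR hξ h)]
  apply finsum_mem_congr _ (fun _ _ => rfl)
  ext b
  constructor
  · intro h
    refine ⟨h.1, fun ξ hξ => ?_⟩
    rw [mem_locA_iff hM hB hx rfl ξ, ← IsPBlock.eq_blockOf h.1 hξ]
    exact h
  · rintro ⟨hb, hbA⟩
    obtain ⟨ξ, hξ⟩ := IsPBlock.nonempty' hb
    have := (mem_locA_iff hM hB hx rfl ξ).mp (hbA hξ)
    rwa [← IsPBlock.eq_blockOf hb hξ] at this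

theorem sec_term_one (hM : IsPModular p M) {B : Set (IrrCharacter G)} (hB : IsPBlock M B) :
    ∑ᶠ b ∈ {b : Set (IrrCharacter (Subgroup.centralizer ({(1 : G)} : Set G))) |
      IsInducedBlock M (Subgroup.centralizer ({(1 : G)} : Set G)) b B}, (blockRank p b : ℂ) = (blockRank p B : ℂ) := by
  classical
  rw [sec_term' hM hB ⟨0, by rw [orderOf_one, pow_zero]⟩, blockRank_eq_sum hM hB]
  refine Finset.sum_congr rfl fun χ _ => ?_
  rw [rin_def]
  congr 1
  refine Finset.sum_congr rfl fun g _ => ?_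
  by_cases h : p ∣ orderOf g
  · rw [if_neg (by rw [isSec_one_iff hM.1]; exact not_not_intro h), pRegularPart_sing h, zero_mul]
  · rw [if_pos ((isSec_one_iff hM.1 g).mpr h), pRegularPart_reg h]

open Classical in
/-- `k(B) = l(B) + Σ_{x≠1} Σ_b l(b)`. -/
theorem k_eq (hM : IsPModular p M) {B : Set (IrrCharacter G)} (hB : IsPBlock M B)
    (X : Finset G) (hX : ∀ x ∈ X, ∃ k : ℕ, orderOf x = p ^ k)
    (hXrep : ∀ g : G, (∃ k : ℕ, orderOf g = p ^ k) → ∃! x, x ∈ X ∧ IsConj g x) :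
    Nat.card B = blockRank p B + ∑ x ∈ X.erase 1, ∑ b ∈ (Set.toFinite {b : Set (IrrCharacter (Subgroup.centralizer ({x} : Set G))) |
      IsInducedBlock M (Subgroup.centralizer ({x} : Set G)) b B}).toFinset, blockRank p b := by
  have h1X : (1 : G) ∈ X := by
    obtain ⟨x, ⟨hx, hc⟩, -⟩ := hXrep 1 ⟨0, by rw [orderOf_one, pow_zero]⟩
    obtain ⟨c, hc⟩ := _root_.isConj_iff.mp hc
    have : x = 1 := by rw [← hc]; group
    rwa [this] at hx
  have h := card_block_eq_sum hM hB X hX hXrep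
  rw [← Finset.add_sum_erase X _ h1X, sec_term_one hM hB] at h
  have h2 : ∀ x ∈ X.erase 1, ∑ᶠ b ∈ {b : Set (IrrCharacter (Subgroup.centralizer ({x} : Set G))) |
      IsInducedBlock M (Subgroup.centralizer ({x} : Set G)) b B}, (blockRank p b : ℂ) =
    ((∑ b ∈ (Set.toFinite {b : Set (IrrCharacter (Subgroup.centralizer ({x} : Set G))) |
      IsInducedBlock M (Subgroup.centralizer ({x} : Set G)) b B}).toFinset, blockRank p b : ℕ) : ℂ) := by
    intro x hx
    rw [sec_term hM hB (hX x (Finset.mem_of_mem_erase hx))]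
    push_cast; rfl
  rw [Finset.sum_congr rfl h2] at h
  exact_mod_cast h

theorem exists_rep_set (p : ℕ) (u₀ : G) (hu₀ : ∃ k : ℕ, orderOf u₀ = p ^ k) :
    ∃ X : Finset G, u₀ ∈ X ∧ (∀ x ∈ X, ∃ k : ℕ, orderOf x = p ^ k) ∧
      (∀ g : G, (∃ k : ℕ, orderOf g = p ^ k) → ∃! x, x ∈ X ∧ IsConj g x) := by
  classical
  let r : G → G := fun g => if IsConj g u₀ then u₀ else Quotient.out (ConjClasses.mk g)
  have hr : ∀ g, IsConj g (r g) := by
    intro g
    by_cases h : IsConj g u₀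
    · simp only [r, if_pos h]; exact h
    · simp only [r, if_neg h]
      have : ConjClasses.mk (Quotient.out (ConjClasses.mk g)) = ConjClasses.mk g := Quotient.out_eq _
      exact (ConjClasses.mk_eq_mk_iff_isConj.mp this).symm
  have hr2 : ∀ g g', IsConj g g' → r g = r g' := by
    intro g g' h
    by_cases h1 : IsConj g u₀
    · have h2 : IsConj g' u₀ := h.symm.trans h1
      simp only [r, if_pos h1, if_pos h2]
    · have h2 : ¬ IsConj g' u₀ := fun h3 => h1 (h.trans h3)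
      simp only [r, if_neg h1, if_neg h2]
      rw [ConjClasses.mk_eq_mk_iff_isConj.mpr h]
  have hord : ∀ g g' : G, IsConj g g' → orderOf g = orderOf g' := by
    intro g g' h
    obtain ⟨c, rfl⟩ := _root_.isConj_iff.mp h
    exact (MulAut.conj c).orderOf_eq g |>.symm
  refine ⟨(Finset.univ.filter (fun g : G => ∃ k : ℕ, orderOf g = p ^ k)).image r, ?_, ?_, ?_⟩
  · rw [Finset.mem_image]
    exact ⟨u₀, by simp [hu₀], by simp only [r, if_pos (IsConj.refl u₀)]⟩
  · intro x hx
    rw [Finset.mem_image] at hx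
    obtain ⟨g, hg, rfl⟩ := hx
    rw [Finset.mem_filter] at hg
    rw [← hord g _ (hr g)]
    exact hg.2
  · intro g hg
    refine ⟨r g, ⟨Finset.mem_image.mpr ⟨g, by simp [hg], rfl⟩, hr g⟩, ?_⟩
    rintro x ⟨hx, hgx⟩
    rw [Finset.mem_image] at hx
    obtain ⟨g', -, rfl⟩ := hx
    exact (hr2 g g' (hgx.trans (hr g').symm)).symm


section ctrl

variable [hM' : M.IsPrime]

theorem ab_df (hM : IsPModular p M) {b : MonoidAlgebra (KK M) G} (hb : IsBl M (⊤ : Subgroup G) b)
    {P : Subgroup G} {e : MonoidAlgebra (KK M) G} (hmax : MaxP p M b (P, e)) (hab : P ≤ Subgroup.centralizer (P : Set G))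
    {Q : Subgroup G} {f : MonoidAlgebra (KK M) G} (h : LEr p M (Q, f) (P, e)) :
    IsBl M (Subgroup.centralizer (Q : Set G)) f ∧ BP p M f (P, e) ∧ Df p M (Subgroup.centralizer (Q : Set G)) f P := by
  have hP := hmax.1.1
  have he := hmax.1.2.1
  simp only at hP he
  have hQP : Q ≤ P := LEr.le h
  have hPC : P ≤ Subgroup.centralizer (Q : Set G) := le_trans hab (centralizer_anti hQP)
  have hf : IsBl M (Subgroup.centralizer (Q : Set G)) f := LEr.bl_left trivial h he
  obtain ⟨g, hg, hgP⟩ := h.npr_of_normal hM hP he hQP le_rfl (le_trans hPC (centralizer_le_normalizer Q))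
  have hge : (P, g) = (P, e) := LEr.eq_of_eq hM hgP rfl
  rw [hge] at hg
  have hBf : BP p M f (P, e) := ⟨hP, he, hg.2.2.2.2.2.2⟩
  refine ⟨hf, hBf, ?_⟩
  obtain ⟨z, hz1, hz2⟩ := pair_centralizer hM hb hmax h
  have h3 := hz2.conj_all z⁻¹
  rw [← cj_centralizer', cj_cj, inv_mul_cancel, cj_one, kconj_inv_kconj, cj_centralizer'] at h3
  apply h3.of_card hP hPC (ktr_ne_of_mul hg.2.2.2.2.2.2 he.ne)
  rw [card_cj]
  exact Subgroup.card_le_of_le inf_le_left

/-- Fusion in an abelian defect group is controlled by the inertial group. -/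
theorem abelian_control' (hM : IsPModular p M) {b : MonoidAlgebra (KK M) G} (hb : IsBl M (⊤ : Subgroup G) b)
    {P : Subgroup G} {e : MonoidAlgebra (KK M) G} (hmax : MaxP p M b (P, e)) (hab : P ≤ Subgroup.centralizer (P : Set G))
    {Q : Subgroup G} {f : MonoidAlgebra (KK M) G} (h : LEr p M (Q, f) (P, e)) {x : G} (hx : LEr p M (cjp x (Q, f)) (P, e)) :
    ∃ y ∈ stb P e, ∃ c ∈ Subgroup.centralizer (Q : Set G), x = y * c := by
  have hP := hmax.1.1
  have he := hmax.1.2.1
  simp only at hP he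
  have hQP : Q ≤ P := LEr.le h
  obtain ⟨-, hBf0, -⟩ := ab_df hM hb hmax hab h
  obtain ⟨hf, hBf, hdf⟩ := ab_df hM hb hmax hab hx
  have hQ'P : cj x Q ≤ P := LEr.le hx
  have hBx : BP p M (kconj x f) (cj x P, kconj x e) := by
    refine ⟨isPGroup_cj hP, isBl_cj_centralizer he x, ?_⟩
    show ktr (Subgroup.centralizer ((cj x P : Subgroup G) : Set G)) (kconj x f) * kconj x e = kconj x e
    rw [← map_conj_centralizer, ← kconj_ktr, ← kconj_mul]
    congr 1
    exact hBf0.2.2
  have hPC : P ≤ Subgroup.centralizer (Q : Set G) := le_trans hab (centralizer_anti hQP)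
  have hxC : cj x P ≤ Subgroup.centralizer ((cj x Q : Subgroup G) : Set G) := by
    have := cj_mono x hPC
    rwa [cj_centralizer'] at this
  have hCx : Subgroup.centralizer ((cj x P : Subgroup G) : Set G) ≤ Subgroup.centralizer ((cj x Q : Subgroup G) : Set G) := by
    have := cj_mono x (centralizer_anti hQP)
    rw [cj_centralizer', cj_centralizer' x Q] at this
    exact this
  obtain ⟨c, hc, hcle⟩ := rel_conj hM hf (centralizer_anti hQ'P) hCx hxC hdf hBf hBx
  have h1 : cjp c (cj x P, kconj x e) = cjp (c * x) (P, e) := cjp_cjp c x (P, e)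
  rw [h1] at hcle
  have h2 := cjp_eq_of_le hM hcle
  rw [← mem_stb_iff_cjp] at h2
  have hcN : cj (c * x) Q = cj x Q := by
    rw [← cj_cj]
    exact cj_of_normalizer (centralizer_le_normalizer _ hc)
  refine ⟨c * x, h2, (c * x)⁻¹ * c⁻¹ * (c * x), ?_, ?_⟩
  · exact centr_move hcN (Subgroup.inv_mem _ hc)
  · group

theorem zc (x : G) : Subgroup.centralizer ((Subgroup.zpowers x : Subgroup G) : Set G) = Subgroup.centralizer ({x} : Set G) := by
  rw [Subgroup.zpowers_eq_closure, Subgroup.centralizer_closure]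

theorem cj_zpowers (g x : G) : cj g (Subgroup.zpowers x) = Subgroup.zpowers (g * x * g⁻¹) := by
  ext w
  rw [mem_cj]
  constructor
  · rintro ⟨k, hk⟩
    refine ⟨k, ?_⟩
    simp only at hk ⊢
    rw [conj_zpow, hk]; group
  · rintro ⟨k, hk⟩
    refine ⟨k, ?_⟩
    simp only at hk ⊢
    rw [← hk, conj_zpow]; group

theorem induced_iff_bp (hM : IsPModular p M) {B : Set (IrrCharacter G)} (hB : IsPBlock M B) {x : G} (hx : ∃ k : ℕ, orderOf x = p ^ k)
    {b : Set (IrrCharacter (Subgroup.centralizer ({x} : Set G)))} (hb : IsPBlock M b) :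
    IsInducedBlock M (Subgroup.centralizer ({x} : Set G)) b B ↔ BP p M (blk M B) (Subgroup.zpowers x, be M (Subgroup.centralizer ({x} : Set G)) b) := by
  have hz := zc x
  haveI : Fact p.Prime := ⟨hM.1⟩
  have hP := isPGroup_zpowers hx
  rw [isInduced_iff hM hP (P := Subgroup.zpowers x) (by
    rw [Subgroup.zpowers_le, Subgroup.mem_centralizer_singleton_iff]) (le_of_eq hz) (centralizer_le_norm x) hb hB]
  constructor
  · intro h
    refine ⟨hP, ?_, h⟩
    simp only
    rw [hz]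
    exact isBl_be hb
  · intro h
    exact h.2.2

theorem exists_sub (hM : IsPModular p M) {P : Subgroup G} (hP : IsPGroup p P) {e : MonoidAlgebra (KK M) G}
    (he : IsBl M (Subgroup.centralizer (P : Set G)) e) {u : G} (hu : u ∈ P) :
    ∃ f, IsBl M (Subgroup.centralizer ((Subgroup.zpowers u : Subgroup G) : Set G)) f ∧ LEr p M (Subgroup.zpowers u, f) (P, e) :=
  LEr.exists_below hM hP he (by rw [Subgroup.zpowers_le]; exact hu)

end ctrl

end Cfsg.Agent.H5
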