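import Cfsg.Agent.H5.Sect4
import Cfsg.Agent.H5.W32

set_option autoImplicit false
set_option linter.style.haveILetI false
set_option linter.unusedVariables false
set_option linter.unusedSectionVars false
set_option linter.unusedSimpArgs false

/-! Contributions and central characters. -/

namespace Cfsg.Agent.H5

open Cfsg
open scoped ComplexConjugate

universe u v w

variable {G : Type u} [Group G] [Fintype G] {p : ℕ} {M : Ideal AlgInt}

open Classical in
/-- A class function on the `p`-section of `x` with prescribed values. -/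
theorem exists_section_fun [hM' : M.IsPrime] (hp : p.Prime) {x : G} (hx : ∃ k : ℕ, orderOf x = p ^ k)
    [Fintype (Subgroup.centralizer ({x} : Set G))] {F : Subgroup.centralizer ({x} : Set G) → ℂ}
    (hF : IsClassFunction (Subgroup.centralizer ({x} : Set G)) F) (hFR : ∀ y, MemLocalRing M (F y)) :
    ∃ W : G → ℂ, IsClassFunction G W ∧ (∀ g, MemLocalRing M (W g)) ∧ ∀ χ : G → ℂ, IsClassFunction G χ →
      (Nat.card (Subgroup.centralizer ({x} : Set G)) : ℂ) * ∑ g : G, χ g * W g =
      (Nat.card G : ℂ) * ∑ y : Subgroup.centralizer ({x} : Set G), (if p ∣ orderOf y then 0 else χ (x * y) * F y) := by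
  obtain ⟨C, hC⟩ : ∃ C, C = Subgroup.centralizer ({x} : Set G) := ⟨_, rfl⟩
  obtain ⟨F', hF'⟩ : ∃ F' : G → ℂ, F' = fun k => if h : k ∈ Subgroup.centralizer ({x} : Set G) then F ⟨k, h⟩ else 0 := ⟨_, rfl⟩
  have hF'c : ∀ y : Subgroup.centralizer ({x} : Set G), F' y = F y := by
    intro y; rw [hF']; simp only [SetLike.coe_mem, dite_true]
  have hcC : (Nat.card (Subgroup.centralizer ({x} : Set G)) : ℂ) ≠ 0 := Nat.cast_ne_zero.mpr Nat.card_pos.ne'
  obtain ⟨W, hW⟩ : ∃ W : G → ℂ, W = fun g => (Nat.card (Subgroup.centralizer ({x} : Set G)) : ℂ)⁻¹ *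
    ∑ t : G, if IsPPart p g (t * x * t⁻¹) then F' (x⁻¹ * (t⁻¹ * g * t)) else 0 := ⟨_, rfl⟩
  have hconj : ∀ (t g : G), IsPPart p (t⁻¹ * g * t) x ↔ IsPPart p g (t * x * t⁻¹) := by
    intro t g
    constructor
    · intro h
      have := isPPart_conj h t
      have e4 : t * (t⁻¹ * g * t) * t⁻¹ = g := by group
      rwa [e4] at this
    · intro h
      have := isPPart_conj h t⁻¹
      have e4 : t⁻¹ * (t * x * t⁻¹) * t⁻¹⁻¹ = x := by group
      rw [e4, inv_inv] at this; exact this
  refine ⟨W, ?_, ?_, ?_⟩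
  · intro g h
    rw [hW]
    simp only
    congr 1
    rw [← Equiv.sum_comp (Equiv.mulLeft h)]
    refine Finset.sum_congr rfl fun t _ => ?_
    have e1 : (Equiv.mulLeft h) t = h * t := rfl
    rw [e1]
    have e2 : (h * t)⁻¹ * (h * g * h⁻¹) * (h * t) = t⁻¹ * g * t := by group
    rw [e2]
    have e3 : IsPPart p (h * g * h⁻¹) (h * t * x * (h * t)⁻¹) ↔ IsPPart p g (t * x * t⁻¹) := by
      rw [← hconj (h * t), e2, hconj]
    by_cases h' : IsPPart p g (t * x * t⁻¹)
    · rw [if_pos h', if_pos (e3.mpr h')]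
    · rw [if_neg h', if_neg (fun h'' => h' (e3.mp h''))]
  · intro g
    by_cases hg : ∃ t₀, IsPPart p g (t₀ * x * t₀⁻¹)
    · obtain ⟨t₀, ht₀⟩ := hg
      have h1 : ∀ t : G, (if IsPPart p g (t * x * t⁻¹) then F' (x⁻¹ * (t⁻¹ * g * t)) else 0) =
          if IsPPart p g (t * x * t⁻¹) then F' (x⁻¹ * (t₀⁻¹ * g * t₀)) else 0 := by
        intro t
        by_cases h : IsPPart p g (t * x * t⁻¹)
        · rw [if_pos h, if_pos h]
          have h2 := pPart_unique hp h ht₀
          have h3 : t₀⁻¹ * t ∈ Subgroup.centralizer ({x} : Set G) := by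
            rw [Subgroup.mem_centralizer_singleton_iff]
            have : t₀⁻¹ * t * x = t₀⁻¹ * (t * x * t⁻¹) * t := by group
            rw [this, h2]; group
          have h4 : x⁻¹ * (t₀⁻¹ * g * t₀) ∈ Subgroup.centralizer ({x} : Set G) := by
            rw [Subgroup.mem_centralizer_singleton_iff]
            obtain ⟨y, hy, hc, -, -⟩ := (hconj t₀ g).mpr ht₀
            rw [← hy]
            have e : x⁻¹ * (x * y) = y := by group
            rw [e]; exact hc.symm.eq
          have h5 : x⁻¹ * (t⁻¹ * g * t) ∈ Subgroup.centralizer ({x} : Set G) := by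
            rw [Subgroup.mem_centralizer_singleton_iff]
            obtain ⟨y, hy, hc, -, -⟩ := (hconj t g).mpr h
            rw [← hy]
            have e : x⁻¹ * (x * y) = y := by group
            rw [e]; exact hc.symm.eq
          have h6 := hF ⟨x⁻¹ * (t⁻¹ * g * t), h5⟩ ⟨t₀⁻¹ * t, h3⟩
          have h7 : (⟨t₀⁻¹ * t, h3⟩ * ⟨x⁻¹ * (t⁻¹ * g * t), h5⟩ * ⟨t₀⁻¹ * t, h3⟩⁻¹ : Subgroup.centralizer ({x} : Set G)) =
              ⟨x⁻¹ * (t₀⁻¹ * g * t₀), h4⟩ := by
            apply Subtype.ext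
            show t₀⁻¹ * t * (x⁻¹ * (t⁻¹ * g * t)) * (t₀⁻¹ * t)⁻¹ = x⁻¹ * (t₀⁻¹ * g * t₀)
            have h8 := Subgroup.mem_centralizer_singleton_iff.mp h3
            have h9 : t₀⁻¹ * t * x⁻¹ = x⁻¹ * (t₀⁻¹ * t) := by
              rw [mul_inv_eq_iff_eq_mul, mul_assoc x⁻¹, h8]; group
            rw [← mul_assoc (t₀⁻¹ * t), h9]; group
          rw [h7] at h6
          have h10 := hF'c ⟨_, h4⟩
          have h11 := hF'c ⟨_, h5⟩
          simp only at h10 h11
          rw [h10, h11, h6]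
        · rw [if_neg h, if_neg h]
      have h2 : W g = F' (x⁻¹ * (t₀⁻¹ * g * t₀)) := by
        rw [hW]
        simp only
        rw [Finset.sum_congr rfl (fun t _ => h1 t), ← Finset.sum_filter, Finset.sum_const, nsmul_eq_mul]
        have e5 : (Finset.univ.filter (fun t : G => IsPPart p g (t * x * t⁻¹))).card =
            Nat.card (Subgroup.centralizer ({x} : Set G)) := by
          have hcj : IsConj x (t₀ * x * t₀⁻¹) := _root_.isConj_iff.mpr ⟨t₀, rfl⟩
          rw [← card_isConj_fiber hcj, Nat.card_eq_fintype_card, Fintype.card_subtype]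
          congr 1
          ext t
          simp only [Finset.mem_filter, Finset.mem_univ, true_and]
          exact ⟨fun h => pPart_unique hp h ht₀, fun h => h ▸ ht₀⟩
        rw [e5, ← mul_assoc, inv_mul_cancel₀ hcC, one_mul]
      rw [h2, hF']
      simp only
      split_ifs
      · exact hFR _
      · exact memLocR_zero
    · have h2 : W g = 0 := by
        rw [hW]
        simp only
        rw [Finset.sum_eq_zero, mul_zero]
        intro t _
        rw [if_neg (fun h => hg ⟨t, h⟩)]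
      rw [h2]; exact memLocR_zero
  · intro χ hχ
    have h1 : ∀ t : G, ∑ g : G, χ g * (if IsPPart p g (t * x * t⁻¹) then F' (x⁻¹ * (t⁻¹ * g * t)) else 0) =
        ∑ y : Subgroup.centralizer ({x} : Set G), (if p ∣ orderOf y then 0 else χ (x * y) * F y) := by
      intro t
      have e0 : ∀ y : Subgroup.centralizer ({x} : Set G), (if p ∣ orderOf y then 0 else χ (x * y) * F y) =
          if p ∣ orderOf y then 0 else (fun g => χ g * F' (x⁻¹ * g)) (x * y) := by
        intro y
        simp only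
        rw [inv_mul_cancel_left, hF'c]
      rw [Finset.sum_congr rfl (fun y _ => e0 y), sum_ppart_eq hp x hx (fun g => χ g * F' (x⁻¹ * g))]
      symm
      rw [← (MulAut.conj t⁻¹).toEquiv.sum_comp]
      refine Finset.sum_congr rfl fun g _ => ?_
      have e : (MulAut.conj t⁻¹).toEquiv g = t⁻¹ * g * t := by
        simp [MulAut.conj_apply]
      rw [e]
      have e2 : χ (t⁻¹ * g * t) = χ g := by
        have := hχ g t⁻¹
        rw [inv_inv] at this; exact this
      by_cases h : IsPPart p g (t * x * t⁻¹)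
      · rw [if_pos h, if_pos ((hconj t g).mpr h), e2]
      · rw [if_neg h, if_neg (fun h' => h ((hconj t g).mp h')), mul_zero]
    rw [hW]
    simp only
    have h2 : ∀ g : G, χ g * ((Nat.card (Subgroup.centralizer ({x} : Set G)) : ℂ)⁻¹ *
        ∑ t : G, if IsPPart p g (t * x * t⁻¹) then F' (x⁻¹ * (t⁻¹ * g * t)) else 0) =
        (Nat.card (Subgroup.centralizer ({x} : Set G)) : ℂ)⁻¹ *
        ∑ t : G, χ g * (if IsPPart p g (t * x * t⁻¹) then F' (x⁻¹ * (t⁻¹ * g * t)) else 0) := by
      intro g; rw [Finset.mul_sum, Finset.mul_sum, Finset.mul_sum]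
      refine Finset.sum_congr rfl fun t _ => by ring
    rw [Finset.sum_congr rfl (fun g _ => h2 g), ← Finset.mul_sum, ← mul_assoc, mul_inv_cancel₀ hcC, one_mul,
      Finset.sum_comm, Finset.sum_congr rfl (fun t _ => h1 t), Finset.sum_const, Finset.card_univ, nsmul_eq_mul,
      Nat.card_eq_fintype_card]

/-- Contributions in terms of central characters. -/
theorem con_omega [hM' : M.IsPrime] (hM : IsPModular p M) {x : G} (hx : ∃ k : ℕ, orderOf x = p ^ k)
    {C : Subgroup G} (hC : C = Subgroup.centralizer ({x} : Set G)) [Fintype C]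
    {b : Set (IrrCharacter C)} (hb : IsPBlock M b) {ψ : G → ℂ} (hψ : IsCharacter G ψ) :
    ∃ W : G → ℂ, IsClassFunction G W ∧ (∀ g, MemLocalRing M (W g)) ∧ ∀ χ : IrrCharacter G,
      con p x b (χ : G → ℂ) ψ = (charDegree (χ : G → ℂ) : ℂ) / (Nat.card G : ℂ) * omega (χ : G → ℂ) W := by
  classical
  have hcomm := hcomm_of_eq hC
  have hxC : x ∈ C := mem_of_eq hC
  have hcomm' : ∀ h : C, Commute (⟨x, hxC⟩ : C) h := fun h => Subtype.ext (hcomm h).eq
  subst hC
  obtain ⟨F, hF⟩ : ∃ F : Subgroup.centralizer ({x} : Set G) → ℂ,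
    F = fun y => ∑ ξ ∈ bF b, conj (classInner (xr x ψ : Subgroup.centralizer ({x} : Set G) → ℂ)
      (ξ : Subgroup.centralizer ({x} : Set G) → ℂ)) * conj ((ξ : Subgroup.centralizer ({x} : Set G) → ℂ) y) := ⟨_, rfl⟩
  have hFc : IsClassFunction _ F := by
    intro g h
    rw [hF]
    simp only
    refine Finset.sum_congr rfl fun ξ _ => ?_
    rw [irr_classFun ξ g h]
  have hFR : ∀ y, MemLocalRing M (F y) := by
    intro y
    rw [hF]
    simp only
    apply memLocR_sum
    intro ξ _
    apply memLocR_of_isIntegral hM'.ne_top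
    apply IsIntegral.mul
    · rw [xr_inner hxC hcomm', map_mul]
      obtain ⟨n, hn⟩ := IsCharacter.inner_nat (isCharacter_restrict (Subgroup.centralizer ({x} : Set G)) hψ) ξ
      rw [hn, map_natCast]
      have h3 := cv_inv hcomm' ξ
      have h2 : conj (cv (⟨x, hxC⟩ : Subgroup.centralizer ({x} : Set G)) (ξ : Subgroup.centralizer ({x} : Set G) → ℂ)) =
          cv (⟨x, hxC⟩ : Subgroup.centralizer ({x} : Set G))⁻¹ (ξ : Subgroup.centralizer ({x} : Set G) → ℂ) := by
        rw [← h3, Complex.conj_conj]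
      rw [h2]
      refine IsIntegral.mul (cv_integral (fun h => (hcomm' h).inv_left) ξ) ?_
      exact (isIntegral_algebraMap (R := ℤ) (x := (n : ℤ)) |> fun h => by simpa using h)
    · have h1 := IsCharacter.isIntegral (irr_isCharacter ξ) y
      exact h1.map (Complex.conjAe.toAlgHom.restrictScalars ℤ)
  obtain ⟨W, hW1, hW2, hW3⟩ := exists_section_fun (M := M) hM.1 hx hFc hFR
  refine ⟨W, hW1, hW2, ?_⟩
  intro χ
  have hcC : (Nat.card (Subgroup.centralizer ({x} : Set G)) : ℂ) ≠ 0 := Nat.cast_ne_zero.mpr Nat.card_pos.ne'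
  have hcG : (Nat.card G : ℂ) ≠ 0 := Nat.cast_ne_zero.mpr Nat.card_pos.ne'
  have h1 : con p x b (χ : G → ℂ) ψ = ∑ ξ ∈ bF b, conj (classInner (xr x ψ : Subgroup.centralizer ({x} : Set G) → ℂ)
      (ξ : Subgroup.centralizer ({x} : Set G) → ℂ)) * ar p x (χ : G → ℂ) (ξ : Subgroup.centralizer ({x} : Set G) → ℂ) := by
    rw [con_eq_sum hM hcomm (irr_classFun χ) (IsCharacter.classFun hψ) hb, Finset.sum_comm]
    refine Finset.sum_congr rfl fun ξ hξ => ?_
    rw [ar_eq_sum hM hcomm (irr_classFun χ) hb (mem_bF.mp hξ), Finset.mul_sum]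
    refine Finset.sum_congr rfl fun η _ => ?_
    ring
  have h2 : con p x b (χ : G → ℂ) ψ = (Nat.card (Subgroup.centralizer ({x} : Set G)) : ℂ)⁻¹ *
      ∑ y : Subgroup.centralizer ({x} : Set G), (if p ∣ orderOf y then 0 else (χ : G → ℂ) (x * y) * F y) := by
    rw [h1]
    unfold ar
    simp only [rin_def]
    have h3 : ∀ ξ : IrrCharacter (Subgroup.centralizer ({x} : Set G)), conj (classInner (xr x ψ : Subgroup.centralizer ({x} : Set G) → ℂ)
        (ξ : Subgroup.centralizer ({x} : Set G) → ℂ)) * ((Nat.card (Subgroup.centralizer ({x} : Set G)) : ℂ)⁻¹ *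
        ∑ g : Subgroup.centralizer ({x} : Set G), pRegularPart p (xr x (χ : G → ℂ)) g * conj ((ξ : Subgroup.centralizer ({x} : Set G) → ℂ) g)) =
        (Nat.card (Subgroup.centralizer ({x} : Set G)) : ℂ)⁻¹ * ∑ g : Subgroup.centralizer ({x} : Set G),
        pRegularPart p (xr x (χ : G → ℂ)) g * (conj (classInner (xr x ψ : Subgroup.centralizer ({x} : Set G) → ℂ)
        (ξ : Subgroup.centralizer ({x} : Set G) → ℂ)) * conj ((ξ : Subgroup.centralizer ({x} : Set G) → ℂ) g)) := by
      intro ξ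
      rw [Finset.mul_sum, Finset.mul_sum, Finset.mul_sum]
      refine Finset.sum_congr rfl fun g _ => by ring
    rw [Finset.sum_congr rfl (fun ξ _ => h3 ξ), ← Finset.mul_sum, Finset.sum_comm]
    congr 1
    refine Finset.sum_congr rfl fun y _ => ?_
    rw [← Finset.mul_sum]
    have h4 : F y = ∑ ξ ∈ bF b, conj (classInner (xr x ψ : Subgroup.centralizer ({x} : Set G) → ℂ)
      (ξ : Subgroup.centralizer ({x} : Set G) → ℂ)) * conj ((ξ : Subgroup.centralizer ({x} : Set G) → ℂ) y) := by rw [hF]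
    rw [← h4]
    by_cases hy : p ∣ orderOf y
    · rw [if_pos hy, pRegularPart_sing hy, zero_mul]
    · rw [if_neg hy, pRegularPart_reg hy]; rfl
  have h5 := hW3 (χ : G → ℂ) (irr_classFun χ)
  have h6 : ∑ y : Subgroup.centralizer ({x} : Set G), (if p ∣ orderOf y then 0 else (χ : G → ℂ) (x * y) * F y) =
      (Nat.card G : ℂ)⁻¹ * ((Nat.card (Subgroup.centralizer ({x} : Set G)) : ℂ) * ∑ g : G, (χ : G → ℂ) g * W g) := by
    rw [h5, inv_mul_cancel_left₀ hcG]
  rw [h2, h6]
  unfold omega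
  have hdeg : (χ : G → ℂ) 1 = (charDegree (χ : G → ℂ) : ℂ) := IsCharacter.one_eq_charDegree (irr_isCharacter χ)
  have hd0 : (charDegree (χ : G → ℂ) : ℂ) ≠ 0 := Nat.cast_ne_zero.mpr (charDegree_pos χ.2).ne'
  rw [hdeg]
  have h7 : ∑ g : G, W g * (χ : G → ℂ) g = ∑ g : G, (χ : G → ℂ) g * W g := Finset.sum_congr rfl fun g _ => mul_comm _ _
  rw [h7]; field_simp

end Cfsg.Agent.H5
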