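import Cfsg.Agent.H5.W35

set_option autoImplicit false
set_option linter.style.haveILetI false
set_option linter.unusedVariables false
set_option linter.unusedSectionVars false
set_option linter.unusedSimpArgs false

/-! Contributions labelled by block idempotents. -/

namespace Cfsg.Agent.H5

open Cfsg
open scoped ComplexConjugate

universe u v w

variable {G : Type u} [Group G] [Fintype G] {p : ℕ} {M : Ideal AlgInt} [hM' : M.IsPrime]

variable (M) in
/-- The characters lying in the block with idempotent `f`. -/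
def lset (C : Subgroup G) (f : MonoidAlgebra (KK M) G) : Set (IrrCharacter C) :=
  {η | be M C (blockOf M (η : C → ℂ)) = f}

theorem mem_lset {C : Subgroup G} {f : MonoidAlgebra (KK M) G} {η : IrrCharacter C} :
    η ∈ lset M C f ↔ be M C (blockOf M (η : C → ℂ)) = f := Iff.rfl

theorem lset_be {C : Subgroup G} {b : Set (IrrCharacter C)} (hb : IsPBlock M b) : lset M C (be M C b) = b := by
  haveI := Fintype.ofFinite C
  ext η
  rw [mem_lset]
  constructor
  · intro h
    have h1 := be_injective (isPBlock_blockOf η) hb h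
    rw [← h1]; exact mem_blockOf_self η
  · intro h
    rw [← IsPBlock.eq_blockOf hb h]

variable (p M) in
/-- The contribution of the subsection `(x, f)` to `χ`. -/
noncomputable def cN (C : Subgroup G) [Fintype C] (x : G) (f : MonoidAlgebra (KK M) G) (χ : G → ℂ) : ℝ :=
  ∑ η ∈ bF (lset M C f), Complex.normSq (ar p x χ (η : C → ℂ))

theorem cN_nonneg (C : Subgroup G) [Fintype C] (x : G) (f : MonoidAlgebra (KK M) G) (χ : G → ℂ) : 0 ≤ cN p M C x f χ :=
  Finset.sum_nonneg fun _ _ => Complex.normSq_nonneg _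

theorem con_eq_cN (C : Subgroup G) [Fintype C] (x : G) (f : MonoidAlgebra (KK M) G) (χ : G → ℂ) :
    con p x (lset M C f) χ χ = ((cN p M C x f χ : ℝ) : ℂ) := by
  unfold con cN
  push_cast
  refine Finset.sum_congr rfl fun η _ => ?_
  rw [Complex.mul_conj]

theorem lset_conj {C C' : Subgroup G} {g : G} (hC : C' = C.map (MulAut.conj g).toMonoidHom) {f : MonoidAlgebra (KK M) G}
    {η : IrrCharacter C} : irrE (cjE hC) η ∈ lset M C' (kconj g f) ↔ η ∈ lset M C f := by
  haveI := Fintype.ofFinite C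
  haveI := Fintype.ofFinite C'
  rw [mem_lset, mem_lset]
  have h1 : blockOf M (irrE (cjE hC) η : C' → ℂ) = irrE (cjE hC) '' blockOf M (η : C → ℂ) := by
    symm
    exact IsPBlock.eq_blockOf ((isPBlock_equiv (cjE hC) _).mpr (isPBlock_blockOf η)) ⟨η, mem_blockOf_self η, rfl⟩
  rw [h1, ← cjB_eq hC, be_cjB hC]
  exact (kconj_injective g).eq_iff

theorem ar_conj {C C' : Subgroup G} [Fintype C] [Fintype C'] {g : G} (hC : C' = C.map (MulAut.conj g).toMonoidHom)
    (x : G) {χ : G → ℂ} (hχ : IsClassFunction G χ) (η : IrrCharacter C) :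
    ar p (g * x * g⁻¹) χ (irrE (cjE hC) η : C' → ℂ) = ar p x χ (η : C → ℂ) := by
  unfold ar
  rw [rin_def, rin_def, Nat.card_congr (cjE hC).toEquiv]
  congr 1
  symm
  apply Fintype.sum_equiv (cjE hC).toEquiv
  intro c
  show pRegularPart p (xr x χ : C → ℂ) c * conj ((η : C → ℂ) c) =
    pRegularPart p (xr (g * x * g⁻¹) χ : C' → ℂ) (cjE hC c) * conj ((irrE (cjE hC) η : C' → ℂ) (cjE hC c))
  rw [irrE_apply']
  have h1 : orderOf (cjE hC c) = orderOf c := (cjE hC).orderOf_eq c
  by_cases h : p ∣ orderOf c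
  · rw [pRegularPart_sing h, pRegularPart_sing (by rw [h1]; exact h)]
  · rw [pRegularPart_reg h, pRegularPart_reg (by rw [h1]; exact h)]
    congr 1
    unfold xr
    rw [cjE_coe]
    have h2 : g * x * g⁻¹ * (g * (c : G) * g⁻¹) = g * (x * (c : G)) * g⁻¹ := by group
    rw [h2, hχ]

theorem cN_conj {C C' : Subgroup G} [Fintype C] [Fintype C'] {g : G} (hC : C' = C.map (MulAut.conj g).toMonoidHom)
    (x : G) (f : MonoidAlgebra (KK M) G) {χ : G → ℂ} (hχ : IsClassFunction G χ) :
    cN p M C' (g * x * g⁻¹) (kconj g f) χ = cN p M C x f χ := by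
  classical
  unfold cN
  symm
  refine Finset.sum_bij (fun η _ => irrE (cjE hC) η) ?_ ?_ ?_ ?_
  · intro η hη
    rw [mem_bF] at hη ⊢
    exact (lset_conj hC).mpr hη
  · intro η _ η' _ h
    exact (irrE (cjE hC)).injective h
  · intro η' hη'
    obtain ⟨η, rfl⟩ := (irrE (cjE hC)).surjective η'
    rw [mem_bF] at hη'
    exact ⟨η, mem_bF.mpr ((lset_conj hC).mp hη'), rfl⟩
  · intro η _
    rw [ar_conj hC x hχ]

theorem sum_ar_all {C : Subgroup G} [Fintype C] {x : G} (hcomm : ∀ h : C, Commute x (h : G)) {χ : G → ℂ}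
    (hχ : IsClassFunction G χ) :
    ∑ η : IrrCharacter C, Complex.normSq (ar p x χ (η : C → ℂ)) =
      (Nat.card C : ℝ)⁻¹ * ∑ y : C, (if p ∣ orderOf y then 0 else ‖χ (x * y)‖ ^ 2) := by
  have h1 := classInner_eq_sum (g := pRegularPart p (xr x χ : C → ℂ)) (pRegularPart_classFun (p := p) (xr_classFun hcomm hχ))
  rw [classInner_self_re] at h1
  have h2 : ∑ η : IrrCharacter C, classInner (pRegularPart p (xr x χ : C → ℂ)) (η : C → ℂ) *
      conj (classInner (pRegularPart p (xr x χ : C → ℂ)) (η : C → ℂ)) =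
      ((∑ η : IrrCharacter C, Complex.normSq (ar p x χ (η : C → ℂ)) : ℝ) : ℂ) := by
    push_cast
    refine Finset.sum_congr rfl fun η _ => ?_
    rw [Complex.mul_conj]; rfl
  rw [h2] at h1
  have h3 : (Nat.card C : ℝ)⁻¹ * ∑ g : C, ‖pRegularPart p (xr x χ : C → ℂ) g‖ ^ 2 =
      ∑ η : IrrCharacter C, Complex.normSq (ar p x χ (η : C → ℂ)) := by exact_mod_cast h1
  rw [← h3]
  congr 1
  refine Finset.sum_congr rfl fun y _ => ?_
  by_cases h : p ∣ orderOf y
  · rw [if_pos h, pRegularPart_sing h]; simp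
  · rw [if_neg h, pRegularPart_reg h]; rfl

open Classical in
theorem sum_cN_le {C : Subgroup G} [Fintype C] {x : G} (hcomm : ∀ h : C, Commute x (h : G)) {χ : G → ℂ}
    (hχ : IsClassFunction G χ) (S : Finset (MonoidAlgebra (KK M) G)) :
    (Nat.card C : ℝ) * ∑ f ∈ S, cN p M C x f χ ≤ ∑ y : C, (if p ∣ orderOf y then 0 else ‖χ (x * y)‖ ^ 2) := by
  have hc : (0 : ℝ) < Nat.card C := by exact_mod_cast Nat.card_pos
  have h1 := sum_ar_all (p := p) hcomm hχ
  have h2 : ∑ y : C, (if p ∣ orderOf y then 0 else ‖χ (x * y)‖ ^ 2) =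
      (Nat.card C : ℝ) * ∑ η : IrrCharacter C, Complex.normSq (ar p x χ (η : C → ℂ)) := by
    rw [h1, ← mul_assoc, mul_inv_cancel₀ hc.ne', one_mul]
  rw [h2]
  apply mul_le_mul_of_nonneg_left _ hc.le
  have h3 : ∀ f : MonoidAlgebra (KK M) G, cN p M C x f χ =
      ∑ η : IrrCharacter C, if η ∈ lset M C f then Complex.normSq (ar p x χ (η : C → ℂ)) else 0 := by
    intro f
    unfold cN
    rw [← Finset.sum_filter]
    apply Finset.sum_congr _ (fun _ _ => rfl)
    ext η
    rw [mem_bF, Finset.mem_filter]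
    simp
  rw [Finset.sum_congr rfl (fun f _ => h3 f), Finset.sum_comm]
  apply Finset.sum_le_sum
  intro η _
  have h4 : ∑ f ∈ S, (if η ∈ lset M C f then Complex.normSq (ar p x χ (η : C → ℂ)) else 0) =
      if be M C (blockOf M (η : C → ℂ)) ∈ S then Complex.normSq (ar p x χ (η : C → ℂ)) else 0 := by
    have h5 : ∀ f, (if η ∈ lset M C f then Complex.normSq (ar p x χ (η : C → ℂ)) else 0) =
        if be M C (blockOf M (η : C → ℂ)) = f then Complex.normSq (ar p x χ (η : C → ℂ)) else 0 := by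
      intro f
      by_cases h : η ∈ lset M C f
      · rw [if_pos h, if_pos (mem_lset.mp h)]
      · rw [if_neg h, if_neg (fun h' => h (mem_lset.mpr h'))]
    rw [Finset.sum_congr rfl (fun f _ => h5 f), Finset.sum_ite_eq]
  rw [h4]
  split_ifs
  · exact le_rfl
  · exact Complex.normSq_nonneg _

end Cfsg.Agent.H5
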