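import Cfsg.Agent.H5.W36

set_option autoImplicit false
set_option linter.style.haveILetI false
set_option linter.unusedVariables false
set_option linter.unusedSectionVars false
set_option linter.unusedSimpArgs false

/-! Divisibility and Galois action for contributions. -/

namespace Cfsg.Agent.H5

open Cfsg
open scoped ComplexConjugate

universe u v w

theorem amgm_one {ι : Type*} (s : Finset ι) (a : ι → ℝ) (h : ∀ i ∈ s, 0 < a i) (h1 : 1 ≤ ∏ i ∈ s, a i) :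
    (s.card : ℝ) ≤ ∑ i ∈ s, a i := by
  have h2 : 0 ≤ ∑ i ∈ s, Real.log (a i) := by
    rw [← Real.log_prod (fun i hi => (h i hi).ne')]
    exact Real.log_nonneg h1
  have h3 : ∑ i ∈ s, Real.log (a i) ≤ ∑ i ∈ s, (a i - 1) :=
    Finset.sum_le_sum fun i hi => Real.log_le_sub_one_of_pos (h i hi)
  rw [Finset.sum_sub_distrib, Finset.sum_const, nsmul_eq_mul, mul_one] at h3
  linarith

section
variable {G : Type u} [Group G] [Fintype G] {p : ℕ} {M : Ideal AlgInt} [hM' : M.IsPrime]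

theorem mcon_wt (hM : IsPModular p M) {x : G} (hx : ∃ k : ℕ, orderOf x = p ^ k)
    {C : Subgroup G} (hC : C = Subgroup.centralizer ({x} : Set G)) [Fintype C] {B : Set (IrrCharacter G)}
    {b : Set (IrrCharacter C)} (hb : IsPBlock M b) (hbd : blockDefect p b = blockDefect p B) {ψ : G → ℂ} (hψ : IsCharacter G ψ) :
    ∃ W : G → ℂ, IsClassFunction G W ∧ (∀ g, MemLocalRing M (W g)) ∧ ∀ χ : IrrCharacter G,
      mcon p x b (χ : G → ℂ) ψ = wt p B χ * omega (χ : G → ℂ) W := by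
  obtain ⟨W, h1, h2, h3⟩ := con_omega hM hx hC hb hψ
  refine ⟨W, h1, h2, fun χ => ?_⟩
  unfold mcon wt
  rw [h3, hbd]
  push_cast
  ring

theorem mcon_locR (hM : IsPModular p M) {x : G} (hx : ∃ k : ℕ, orderOf x = p ^ k)
    {C : Subgroup G} (hC : C = Subgroup.centralizer ({x} : Set G)) [Fintype C] {B : Set (IrrCharacter G)}
    {b : Set (IrrCharacter C)} (hb : IsPBlock M b) (hbd : blockDefect p b = blockDefect p B) {ψ : G → ℂ} (hψ : IsCharacter G ψ)
    {χ : IrrCharacter G} (hχ : χ ∈ B) :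
    MemLocalRing M (mcon p x b (χ : G → ℂ) ψ / ((p ^ blockHeight p B (χ : G → ℂ) : ℕ) : ℂ)) := by
  obtain ⟨W, h1, h2, h3⟩ := mcon_wt hM hx hC hb hbd hψ
  rw [h3]
  have h4 : wt p B χ * omega (χ : G → ℂ) W / ((p ^ blockHeight p B (χ : G → ℂ) : ℕ) : ℂ) =
      ((p ^ blockDefect p B * charDegree (χ : G → ℂ) : ℕ) : ℂ) / ((Nat.card G * p ^ blockHeight p B (χ : G → ℂ) : ℕ) : ℂ) *
        omega (χ : G → ℂ) W := by
    unfold wt
    have hcG : (Nat.card G : ℂ) ≠ 0 := Nat.cast_ne_zero.mpr Nat.card_pos.ne'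
    have hp0 : (p : ℂ) ≠ 0 := Nat.cast_ne_zero.mpr hM.1.ne_zero
    push_cast
    field_simp
  rw [h4]
  refine memLocR_mul ?_ (omega_memLocR χ h1 h2)
  apply natdiv_memLocR hM
  · exact mul_ne_zero (pow_ne_zero _ hM.1.ne_zero) (charDegree_pos χ.2).ne'
  · exact mul_ne_zero Nat.card_pos.ne' (pow_ne_zero _ hM.1.ne_zero)
  · rw [fac_scaled hM.1 hχ, Nat.factorization_mul Nat.card_pos.ne' (pow_ne_zero _ hM.1.ne_zero)]
    simp only [Finsupp.coe_add, Pi.add_apply]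
    rw [hM.1.factorization_pow, Finsupp.single_eq_same]

theorem mcon_ne_zero (hM : IsPModular p M) {x : G} (hx : ∃ k : ℕ, orderOf x = p ^ k)
    {C : Subgroup G} (hC : C = Subgroup.centralizer ({x} : Set G)) [Fintype C] {B : Set (IrrCharacter G)}
    (hB : IsPBlock M B)
    {b : Set (IrrCharacter C)} (hb : IsInducedBlock M C b B) (hbd : blockDefect p b = blockDefect p B)
    {χ ψ : IrrCharacter G} (hχ : χ ∈ B) (hψ : ψ ∈ B) (hψ0 : blockHeight p B (ψ : G → ℂ) = 0) :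
    mcon p x b (χ : G → ℂ) (ψ : G → ℂ) ≠ 0 := by
  obtain ⟨W, h1, h2, h3⟩ := mcon_wt hM hx hC hb.1 hbd (irr_isCharacter ψ)
  have h4 := mcon_not_memLocI hM hx (mem_of_eq hC) (hcomm_of_eq hC) hb hψ hψ hψ0 hψ0
  rw [h3] at h4
  have h5 : ¬ MemLocalIdeal M (omega (ψ : G → ℂ) W) := fun h => h4 (memLocI_mul_left (wt_memLocR hM hψ) h)
  have h6 := omega_congr h1 h2 (IsPBlock.sameBlock hB hψ hχ)
  have h7 : ¬ MemLocalIdeal M (omega (χ : G → ℂ) W) := fun h => h5 (memLocI_of_sub h6 h)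
  rw [h3]
  apply mul_ne_zero
  · unfold wt
    apply div_ne_zero
    · exact Nat.cast_ne_zero.mpr (mul_ne_zero (pow_ne_zero _ hM.1.ne_zero) (charDegree_pos χ.2).ne')
    · exact Nat.cast_ne_zero.mpr Nat.card_pos.ne'
  · intro h
    apply h7
    rw [h]; exact memLocI_zero

theorem cN_pos (hM : IsPModular p M) {x : G} (hx : ∃ k : ℕ, orderOf x = p ^ k)
    {C : Subgroup G} (hC : C = Subgroup.centralizer ({x} : Set G)) [Fintype C] {B : Set (IrrCharacter G)}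
    (hB : IsPBlock M B) {f : MonoidAlgebra (KK M) G} (hb : IsInducedBlock M C (lset M C f) B)
    (hbd : blockDefect p (lset M C f) = blockDefect p B) {χ : IrrCharacter G} (hχ : χ ∈ B) :
    0 < cN p M C x f (χ : G → ℂ) := by
  obtain ⟨ψ, hψ, hψ0⟩ := exists_height_zero hM hB
  rcases (cN_nonneg (p := p) C x f (χ : G → ℂ)).lt_or_eq with h | h
  · exact h
  exfalso
  have h1 := con_eq_cN (p := p) C x f (χ : G → ℂ)
  rw [← h] at h1
  have h2 := con_sq hM hB hx hC hb χ χ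
  rw [h1] at h2
  have h3 : ∑ ψ ∈ bF B, con p x (lset M C f) (χ : G → ℂ) (ψ : G → ℂ) * con p x (lset M C f) (ψ : G → ℂ) (χ : G → ℂ) =
      ((∑ ψ ∈ bF B, Complex.normSq (con p x (lset M C f) (χ : G → ℂ) (ψ : G → ℂ)) : ℝ) : ℂ) := by
    push_cast
    refine Finset.sum_congr rfl fun ψ _ => ?_
    rw [← conj_con x (lset M C f) (χ : G → ℂ) (ψ : G → ℂ), Complex.mul_conj]
  rw [h3] at h2
  have h4 : ∑ ψ ∈ bF B, Complex.normSq (con p x (lset M C f) (χ : G → ℂ) (ψ : G → ℂ)) = 0 := by exact_mod_cast h2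
  rw [Finset.sum_eq_zero_iff_of_nonneg (fun _ _ => Complex.normSq_nonneg _)] at h4
  have h5 := h4 ψ (mem_bF.mpr hψ)
  rw [Complex.normSq_eq_zero] at h5
  apply mcon_ne_zero hM hx hC hB hb hbd hχ hψ hψ0
  unfold mcon
  rw [h5, mul_zero]

theorem mcon_aut (hM : IsPModular p M) {x : G} {C : Subgroup G} [Fintype C] (hxC : x ∈ C)
    (hcomm : ∀ h : C, Commute x (h : G)) {χ : G → ℂ} (hχ : IsCharacter G χ) {b : Set (IrrCharacter C)} (hb : IsPBlock M b)
    {τ : ℂ ≃+* ℂ} {k : ℕ} (hτ : ∀ w : ℂ, w ^ Nat.card G = 1 → τ w = w ^ k) :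
    τ (mcon p x b χ χ) = mcon p (x ^ k) b χ χ := by
  have hcomm' : ∀ h : C, Commute (⟨x, hxC⟩ : C) h := fun h => Subtype.ext (hcomm h).eq
  have hxkC : x ^ k ∈ C := C.pow_mem hxC k
  have hcommk : ∀ h : C, Commute (x ^ k) (h : G) := fun h => (hcomm h).pow_left k
  rw [mcon_eq_sum hM hxC hcomm (IsCharacter.classFun hχ) (IsCharacter.classFun hχ) hb,
    mcon_eq_sum hM hxkC hcommk (IsCharacter.classFun hχ) (IsCharacter.classFun hχ) hb, map_sum]
  refine Finset.sum_congr rfl fun η _ => ?_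
  rw [map_sum]
  refine Finset.sum_congr rfl fun ξ _ => ?_
  obtain ⟨n, hn⟩ := IsCharacter.inner_nat (isCharacter_restrict C hχ) η
  obtain ⟨m, hm⟩ := IsCharacter.inner_nat (isCharacter_restrict C hχ) ξ
  rw [hn, hm, Complex.conj_natCast, map_mul, map_mul, map_mul, map_mul, map_natCast, map_natCast, map_intCast]
  have hx1 : (⟨x, hxC⟩ : C) ^ Nat.card G = 1 := Subtype.ext (pow_card_eq_one' (x := x))
  have hpow : ∀ ζ : IrrCharacter C, cv (⟨x ^ k, hxkC⟩ : C) (ζ : C → ℂ) = cv (⟨x, hxC⟩ : C) (ζ : C → ℂ) ^ k := by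
    intro ζ
    have h1 := cv_pow hcomm' ζ k
    have h2 : (⟨x, hxC⟩ : C) ^ k = ⟨x ^ k, hxkC⟩ := rfl
    rw [h2] at h1
    have h3 : (ζ : C → ℂ) 1 ≠ 0 := IsIrr.one_ne_zero ζ.2
    unfold cv at h1 ⊢
    rw [h1]; field_simp
  have h4 := cv_pow_eq_one hcomm' η hx1
  have h5 := cv_pow_eq_one hcomm' ξ hx1
  have h6 : (conj (cv (⟨x, hxC⟩ : C) (ξ : C → ℂ))) ^ Nat.card G = 1 := by rw [← map_pow, h5, map_one]
  rw [hτ _ h4, hτ _ h6, hpow, hpow, map_pow]

end

end Cfsg.Agent.H5
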