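import Cfsg.Agent.H5.W46
import Cfsg.Agent.H5.Prin3

set_option autoImplicit false
set_option linter.style.haveILetI false
set_option linter.unusedVariables false
set_option linter.unusedSectionVars false
set_option linter.unusedSimpArgs false

/-! Galois permutations of prime power order. -/

namespace Cfsg.Agent.H5

open Cfsg
open scoped ComplexConjugate

universe u v w

variable {G : Type u} [Group G] [Fintype G] {p : ℕ} {M : Ideal AlgInt}

theorem exists_gperm {k e : ℕ} (hp : 0 < p) (hk : k.Coprime (Nat.card G)) (hke : k ^ (p ^ e) ≡ 1 [MOD Nat.card G]) :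
    ∃ π : Equiv.Perm (IrrCharacter G), (∀ χ g, (π χ : G → ℂ) g = (χ : G → ℂ) (g ^ k)) ∧ IsPGroup p (Subgroup.zpowers π) := by
  classical
  obtain ⟨sg, hsg⟩ : ∃ sg : IrrCharacter G → IrrCharacter G, ∀ χ g, (sg χ : G → ℂ) g = (χ : G → ℂ) (g ^ k) :=
    ⟨fun χ => ⟨fun g => (χ : G → ℂ) (g ^ k), isIrr_pow hk χ.2⟩, fun _ _ => rfl⟩
  have hit : ∀ (j : ℕ) (χ : IrrCharacter G) (g : G), ((sg^[j] χ : IrrCharacter G) : G → ℂ) g = (χ : G → ℂ) (g ^ (k ^ j)) := by
    intro j
    induction j with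
    | zero => intro χ g; simp
    | succ j ih =>
      intro χ g
      rw [Function.iterate_succ_apply, ih, hsg, ← pow_mul, pow_succ]
  have hper : ∀ χ, sg^[p ^ e] χ = χ := by
    intro χ
    apply Subtype.ext
    funext g
    rw [hit]
    have h1 : k ^ p ^ e ≡ 1 [MOD orderOf g] := hke.of_dvd (orderOf_dvd_natCard g)
    have h2 := pow_eq_pow_iff_modEq.mpr h1
    rw [h2, pow_one]
  have hinj : Function.Injective sg := by
    intro a b hab
    have h1 := hper a
    have h2 := hper b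
    have h3 : p ^ e = (p ^ e - 1) + 1 := (Nat.sub_add_cancel (Nat.one_le_pow _ _ hp)).symm
    rw [h3, Function.iterate_succ_apply] at h1 h2
    rw [← h1, ← h2, hab]
  obtain ⟨π, hπ⟩ : ∃ π : Equiv.Perm (IrrCharacter G), ∀ χ, π χ = sg χ :=
    ⟨Equiv.ofBijective sg (Finite.injective_iff_bijective.mp hinj), fun _ => rfl⟩
  have hπpow : ∀ (j : ℕ) χ, (π ^ j) χ = sg^[j] χ := by
    intro j
    induction j with
    | zero => intro χ; rfl
    | succ j ih =>
      intro χ
      rw [pow_succ, Equiv.Perm.mul_apply, ih, hπ, Function.iterate_succ_apply]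
  have hπ1 : π ^ (p ^ e) = 1 := by
    ext1 χ
    rw [hπpow, hper]
    rfl
  refine ⟨π, fun χ g => by rw [hπ, hsg], ?_⟩
  rintro ⟨x, hx⟩
  refine ⟨e, ?_⟩
  obtain ⟨i, rfl⟩ := Subgroup.mem_zpowers_iff.mp hx
  apply Subtype.ext
  show (π ^ i) ^ (p ^ e) = 1
  rw [← zpow_natCast, zpow_comm, zpow_natCast, hπ1, one_zpow]

theorem zpowers_inv {α β : Type*} {π : Equiv.Perm α} {f : α → β} (h : ∀ χ, f (π χ) = f χ) (x : Subgroup.zpowers π) (χ : α) :
    f (x • χ) = f χ := by
  obtain ⟨x, hx⟩ := x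
  let H : Subgroup (Equiv.Perm α) :=
    { carrier := {y | ∀ χ, f (y χ) = f χ}
      one_mem' := fun χ => rfl
      mul_mem' := fun {a b} ha hb χ => by rw [Equiv.Perm.mul_apply, ha, hb]
      inv_mem' := fun {a} ha χ => by
        have := ha (a⁻¹ χ)
        rw [← Equiv.Perm.mul_apply, mul_inv_cancel, Equiv.Perm.one_apply] at this
        exact this.symm }
  have h1 : Subgroup.zpowers π ≤ H := by
    rw [Subgroup.zpowers_le]
    exact h
  exact h1 hx χ

theorem zpowers_fixed {α : Type*} {π : Equiv.Perm α} {χ : α} : χ ∈ MulAction.fixedPoints (Subgroup.zpowers π) α ↔ π χ = χ := by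
  constructor
  · intro h
    exact h ⟨π, Subgroup.mem_zpowers π⟩
  · intro h x
    have h3 : Subgroup.zpowers π ≤ MulAction.stabilizer (Equiv.Perm α) χ := by
      rw [Subgroup.zpowers_le, MulAction.mem_stabilizer_iff]
      exact h
    exact MulAction.mem_stabilizer_iff.mp (h3 x.2)

/-- A `p`-element of the Galois group fixing a character fixes its constituents on a normal subgroup of `p'`-index. -/
theorem sig_down {N : Subgroup G} [hN : N.Normal] [Fintype N] [hp : Fact p.Prime] (hidx : ¬ p ∣ N.index) {k e : ℕ}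
    (hk : k.Coprime (Nat.card G)) (hke : k ^ (p ^ e) ≡ 1 [MOD Nat.card G]) {χ : IrrCharacter G}
    (hχ : ∀ g : G, (χ : G → ℂ) (g ^ k) = (χ : G → ℂ) g) {θ : IrrCharacter N}
    (hθ : classInner (fun n : N => (χ : G → ℂ) n) (θ : N → ℂ) ≠ 0) (n : N) : (θ : N → ℂ) (n ^ k) = (θ : N → ℂ) n := by
  classical
  obtain ⟨M, hM⟩ := exists_isPModular hp.out
  have hprime := isPrime_of_isPModular hM
  have hkN : k.Coprime (Nat.card N) := Nat.Coprime.coprime_dvd_right (Subgroup.card_subgroup_dvd_card N) hk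
  have hkeN : k ^ (p ^ e) ≡ 1 [MOD Nat.card N] := hke.of_dvd (Subgroup.card_subgroup_dvd_card N)
  obtain ⟨π, hπ, hπp⟩ := exists_gperm (G := N) hp.out.pos hkN hkeN
  have hres := isCharacter_restrict N (irr_isCharacter χ)
  have hinner : ∀ ψ : IrrCharacter N, classInner (fun n : N => (χ : G → ℂ) n) (π ψ : N → ℂ) =
      classInner (fun n : N => (χ : G → ℂ) n) (ψ : N → ℂ) := by
    intro ψ
    rw [classInner_def, classInner_def]
    congr 1
    rw [← (powCoprime_bijective' hkN).sum_comp (fun n : N => (χ : G → ℂ) n * conj ((ψ : N → ℂ) n))]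
    refine Finset.sum_congr rfl fun n _ => ?_
    rw [hπ, Subgroup.coe_pow, hχ]
  obtain ⟨f, hf⟩ : ∃ f : IrrCharacter N → ℂ, f = fun ψ : IrrCharacter N =>
    if classInner (fun n : N => (χ : G → ℂ) n) (ψ : N → ℂ) = 0 then 0 else 1 := ⟨_, rfl⟩
  have h1 := sum_congr_fixedPoints hM hπp f (zpowers_inv (fun ψ => by simp only [hf]; rw [hinner])) (fun ψ => by
    simp only [hf]
    split_ifs
    · exact memLocR_zero
    · exact memLocR_one)
  have h2 : ∑ ψ : IrrCharacter N, f ψ = ((H4.inertia hN (θ : N → ℂ)).index : ℂ) := by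
    have h3 := classFun_expansion_apply (IsCharacter.classFun hres) 1
    have h4 : (χ : G → ℂ) 1 = ∑ ψ : IrrCharacter N, f ψ * (classInner (fun n : N => (χ : G → ℂ) n) (θ : N → ℂ) * (θ : N → ℂ) 1) := by
      refine Eq.trans h3 (Finset.sum_congr rfl fun ψ _ => ?_)
      by_cases h0 : classInner (fun n : N => (χ : G → ℂ) n) (ψ : N → ℂ) = 0
      · have h0' : classInner (fun x : N => (χ : G → ℂ) x) (ψ : N → ℂ) = 0 := h0
        simp only [hf, h0', if_true, zero_mul]
      · obtain ⟨g, hg⟩ := conj_of_ovr θ hθ h0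
        have h5 : classInner (fun n : N => (χ : G → ℂ) n) (ψ : N → ℂ) = classInner (fun n : N => (χ : G → ℂ) n) (θ : N → ℂ) := by
          rw [hg, H4.inner_restrict_conjBy hN χ (irr_classFun χ)]
        have h6 : (ψ : N → ℂ) 1 = (θ : N → ℂ) 1 := by rw [hg, H4.conjBy_apply, map_one]
        simp only [hf, if_neg h0, one_mul]
        rw [h6]
        congr 1
    rw [← Finset.sum_mul, H4.clifford_degree hN χ χ.2 θ θ.2 hθ] at h4
    have h7 : classInner (fun n : N => (χ : G → ℂ) n) (θ : N → ℂ) * (θ : N → ℂ) 1 ≠ 0 := mul_ne_zero hθ (IsIrr.one_ne_zero θ.2)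
    apply mul_right_cancel₀ h7
    rw [← h4]
    ring
  have hTidx : ¬ p ∣ (H4.inertia hN (θ : N → ℂ)).index := by
    intro h
    apply hidx
    exact h.trans (Subgroup.index_dvd_of_le (H4.le_inertia hN (irr_classFun θ)))
  obtain ⟨ψ, hψ1, hψ2⟩ : ∃ ψ : IrrCharacter N, π ψ = ψ ∧ classInner (fun n : N => (χ : G → ℂ) n) (ψ : N → ℂ) ≠ 0 := by
    by_contra hcon
    push Not at hcon
    have h8 : (∑ ψ : IrrCharacter N, if ψ ∈ MulAction.fixedPoints (Subgroup.zpowers π) (IrrCharacter N) then f ψ else 0) = 0 := by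
      apply Finset.sum_eq_zero
      intro ψ _
      by_cases h9 : ψ ∈ MulAction.fixedPoints (Subgroup.zpowers π) (IrrCharacter N)
      · rw [if_pos h9]
        simp only [hf]
        rw [if_pos (hcon ψ (zpowers_fixed.mp h9))]
      · rw [if_neg h9]
    rw [h8, h2, sub_zero] at h1
    have h10 : MemLocalIdeal M ((((H4.inertia hN (θ : N → ℂ)).index : ℤ)) : ℂ) := by push_cast; exact h1
    rw [memLocI_intCast_iff hM] at h10
    exact hTidx (by exact_mod_cast h10)
  obtain ⟨g, hg⟩ := H4.clifford_conj hN χ χ.2 ψ θ ψ.2 θ.2 hψ2 hθ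
  rw [hg, H4.conjBy_apply, H4.conjBy_apply, map_pow, ← hπ, hψ1]

end Cfsg.Agent.H5
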