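import Cfsg.Agent.H5.W46
import Cfsg.Agent.H5.W9
import Cfsg.Agent.H5.Block3

set_option autoImplicit false
set_option linter.style.haveILetI false
set_option linter.unusedVariables false
set_option linter.unusedSectionVars false
set_option linter.unusedSimpArgs false

/-! Isomorphic principal blocks. -/

namespace Cfsg.Agent.H5

open Cfsg
open scoped ComplexConjugate

universe u v w

variable {G : Type u} [Group G] [Fintype G] {p : ℕ} {M : Ideal AlgInt}

/-- The sum of the coefficients. -/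
noncomputable def aug (a : MonoidAlgebra ℂ G) : ℂ := ∑ g : G, a.coeff g

theorem aug_mul (a b : MonoidAlgebra ℂ G) : aug (a * b) = aug a * aug b := by
  unfold aug
  simp only [ga_coeff_mul]
  rw [Finset.sum_comm, Finset.sum_mul]
  refine Finset.sum_congr rfl fun x _ => ?_
  rw [← Finset.mul_sum]
  congr 1
  exact Equiv.sum_comp (Equiv.mulLeft x⁻¹) (fun g => b.coeff g)

/-- `a` is supported on the coset `q`. -/
def SupQ {N : Subgroup G} (q : G ⧸ N) (a : MonoidAlgebra ℂ G) : Prop :=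
  ∀ x : G, (QuotientGroup.mk x : G ⧸ N) ≠ q → a.coeff x = 0

section nn
variable {N : Subgroup G} [hN : N.Normal]

theorem SupQ.mul {q q' : G ⧸ N} {a b : MonoidAlgebra ℂ G} (ha : SupQ q a) (hb : SupQ q' b) : SupQ (q * q') (a * b) := by
  intro x hx
  rw [ga_coeff_mul]
  apply Finset.sum_eq_zero
  intro y _
  by_cases h1 : (QuotientGroup.mk y : G ⧸ N) = q
  · have h2 : (QuotientGroup.mk (y⁻¹ * x) : G ⧸ N) ≠ q' := by
      intro h3
      apply hx
      rw [← h1, ← h3, ← QuotientGroup.mk_mul, mul_inv_cancel_left]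
    rw [hb _ h2, mul_zero]
  · rw [ha _ h1, zero_mul]

variable [Fintype N] [hM' : M.IsPrime]

theorem emb_gof_comm_of {a : MonoidAlgebra ℂ G} (ha : a ∈ fixR M N) (n : N) : gof (n : G) * a = a * gof (n : G) := by
  apply ga_ext
  intro g
  rw [ga_coeff_single_mul, ga_coeff_mul_single, one_mul, mul_one]
  have h1 := (mem_fixR.mp ha).2 (n : G) n.2 ((n : G)⁻¹ * g)
  rw [← h1]
  congr 1
  group

theorem comm_emb_of {a : MonoidAlgebra ℂ G} (ha : a ∈ fixR M N) (c : MonoidAlgebra ℂ N) : emb N c * a = a * emb N c := by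
  apply ga_ext
  intro g
  have h2 : ∀ x g : G, x ∈ N → a.coeff (x⁻¹ * g) = a.coeff (g * x⁻¹) := by
    intro x g hx
    have h1 := (mem_fixR.mp ha).2 x hx (x⁻¹ * g)
    rw [← h1]
    congr 1
    group
  rw [ga_coeff_mul, ga_coeff_mul']
  refine Finset.sum_congr rfl fun x _ => ?_
  by_cases hx : x ∈ N
  · rw [h2 x g hx, mul_comm]
  · rw [emb_coeff_not_mem N c hx, zero_mul, mul_zero]

theorem fB_single_mul {θ : IrrCharacter N} {z : N → ℂ} (hz : IsClassFunction N z) :
    ga z * fB {θ} = omega (θ : N → ℂ) z • fB {θ} := by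
  apply ga_ext
  intro n
  have h4 := cen_mul (fun χ : IrrCharacter N => omega (χ : N → ℂ) z) (ind1 {θ})
  rw [cen_omega hz] at h4
  have h5 : ga z * fB {θ} = ga (cen fun χ : IrrCharacter N => omega (χ : N → ℂ) z * ind1 {θ} χ) := h4.symm
  rw [h5]
  have h6 : (fun χ : IrrCharacter N => omega (χ : N → ℂ) z * ind1 {θ} χ) =
      fun χ => omega (θ : N → ℂ) z * ind1 {θ} χ := by
    funext χ
    by_cases hc : χ = θ
    · rw [hc]
    · rw [ind1_not_mem (show χ ∉ ({θ} : Set (IrrCharacter N)) from hc), mul_zero, mul_zero]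
  rw [h6]
  exact cen_smul _ _ n

/-- Central scalar of an element supported on `N`. -/
theorem exists_omega {θ : IrrCharacter N} (hθ : θ ∈ principalBlock M N) {a : MonoidAlgebra ℂ G} (ha : a ∈ fixR M N)
    (hs : SupQ (1 : G ⧸ N) a) : ∃ w : ℂ, MemLocalRing M w ∧ MemLocalIdeal M (w - aug a) ∧
      a * emb N (fB {θ}) = w • emb N (fB {θ}) := by
  obtain ⟨f, hf⟩ : ∃ f : N → ℂ, f = fun n : N => a.coeff (n : G) := ⟨_, rfl⟩
  have hfc : IsClassFunction N f := by
    intro n x
    rw [hf]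
    exact (mem_fixR.mp ha).2 (x : G) x.2 (n : G)
  have hfR : ∀ n, MemLocalRing M (f n) := by
    intro n
    rw [hf]
    exact (mem_fixR.mp ha).1 _
  have hoff : ∀ g : G, g ∉ N → a.coeff g = 0 := by
    intro g hg
    apply hs
    intro h
    exact hg ((QuotientGroup.eq_one_iff _).mp h)
  have he : a = emb N (ga f) := by
    apply ga_ext
    intro g
    by_cases hg : g ∈ N
    · have := emb_coeff_coe N (ga f) ⟨g, hg⟩
      have h1 : (emb N (ga f)).coeff g = (ga f).coeff ⟨g, hg⟩ := this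
      rw [h1, ga_coeff, hf]
    · rw [emb_coeff_not_mem N _ hg, hoff g hg]
  refine ⟨omega (θ : N → ℂ) f, omega_memLocR θ hfc hfR, ?_, ?_⟩
  · have h1 : SameBlock M (oneC N : N → ℂ) (θ : N → ℂ) := hθ
    have h2 := omega_congr hfc hfR h1
    have h3 : omega (oneC N : N → ℂ) f = aug a := by
      unfold aug
      rw [sum_subgroup N (fun g => a.coeff g) hoff]
      show (∑ n : N, f n * (oneC N : N → ℂ) n) / (oneC N : N → ℂ) 1 = _
      simp only [oneC_apply, mul_one, div_one, hf]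
    rw [h3] at h2
    exact memLocI_sub_comm.mp h2
  · rw [he, ← map_mul, fB_single_mul hfc]
    apply ga_ext
    intro g
    rw [ga_coeff_smul]
    by_cases hg : g ∈ N
    · have h1 := emb_coeff_coe N (omega (θ : N → ℂ) f • fB {θ}) ⟨g, hg⟩
      have h2 := emb_coeff_coe N (fB {θ}) ⟨g, hg⟩
      have h3 : (emb N (omega (θ : N → ℂ) f • fB {θ})).coeff g = (omega (θ : N → ℂ) f • fB {θ}).coeff ⟨g, hg⟩ := h1
      have h4 : (emb N (fB {θ})).coeff g = (fB {θ}).coeff ⟨g, hg⟩ := h2
      rw [h3, h4, ga_coeff_smul]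
    · rw [emb_coeff_not_mem N _ hg, emb_coeff_not_mem N _ hg, mul_zero]

/-- An element on a coset is a scalar multiple of the reference element. -/
theorem core_scalar {θ : IrrCharacter N} (hθ : θ ∈ principalBlock M N) {a k k' : MonoidAlgebra ℂ G} {q : G ⧸ N}
    (ha : a ∈ fixR M N) (hk : k ∈ fixR M N) (hk' : k' ∈ fixR M N) (hsa : SupQ q a) (hsk : SupQ q k)
    (hsk' : SupQ q⁻¹ k') (hak : aug k = 1) (hak' : aug k' = 1) :
    ∃ r : ℂ, MemLocalRing M r ∧ MemLocalIdeal M (r - aug a) ∧ a * emb N (fB {θ}) = r • (k * emb N (fB {θ})) := by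
  have hs1 : SupQ (1 : G ⧸ N) (a * k') := by
    have := hsa.mul hsk'
    rwa [mul_inv_cancel] at this
  have hs2 : SupQ (1 : G ⧸ N) (k' * k) := by
    have := hsk'.mul hsk
    rwa [inv_mul_cancel] at this
  obtain ⟨w1, hw1R, hw1, e1⟩ := exists_omega hθ ((fixR M N).mul_mem ha hk') hs1
  obtain ⟨w2, hw2R, hw2, e2⟩ := exists_omega hθ ((fixR M N).mul_mem hk' hk) hs2
  rw [aug_mul, hak', mul_one] at hw1
  rw [aug_mul, hak', hak, mul_one] at hw2
  have hw2n : ¬ MemLocalIdeal M w2 := by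
    intro h
    have h1 := memLocI_sub h hw2
    rw [sub_sub_cancel] at h1
    exact memLocI_one h1
  have hw20 : w2 ≠ 0 := by
    intro h0
    rw [h0] at hw2n
    exact hw2n memLocI_zero
  have hinvR : MemLocalRing M w2⁻¹ := memLocR_inv hw2R hw2n
  refine ⟨w2⁻¹ * w1, memLocR_mul hinvR hw1R, ?_, ?_⟩
  · have haR : MemLocalRing M (aug a) := memLocR_sum _ _ fun g _ => (mem_fixR.mp ha).1 g
    have e : w2⁻¹ * w1 - aug a = w2⁻¹ * ((w1 - aug a) - aug a * (w2 - 1)) := by
      field_simp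
      ring
    rw [e]
    exact memLocI_mul_left hinvR (memLocI_sub hw1 (memLocI_mul_left haR hw2))
  · have h1 : a * (k' * k) * emb N (fB {θ}) = w1 • (k * emb N (fB {θ})) := by
      rw [← mul_assoc, mul_assoc (a * k'), ← comm_emb_of hk, ← mul_assoc, e1, smul_mul_assoc, comm_emb_of hk]
    have h2 : a * (k' * k) * emb N (fB {θ}) = w2 • (a * emb N (fB {θ})) := by
      rw [mul_assoc, e2, mul_smul_comm]
    have h3 : w2 • (a * emb N (fB {θ})) = w1 • (k * emb N (fB {θ})) := by rw [← h2, h1]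
    rw [mul_smul, ← h3, smul_smul, inv_mul_cancel₀ hw20, one_smul]

end nn

end Cfsg.Agent.H5
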