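import Cfsg.Agent.H5.W48

set_option autoImplicit false
set_option linter.style.haveILetI false
set_option linter.unusedVariables false
set_option linter.unusedSectionVars false
set_option linter.unusedSimpArgs false

/-! Isomorphic principal blocks, part two. -/

namespace Cfsg.Agent.H5

open Cfsg
open scoped ComplexConjugate

universe u v w

variable {G : Type u} [Group G] [Fintype G] {p : ℕ} {M : Ideal AlgInt}

theorem aug_add (a b : MonoidAlgebra ℂ G) : aug (a + b) = aug a + aug b := by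
  unfold aug
  simp only [ga_coeff_add, Finset.sum_add_distrib]

theorem aug_smul (c : ℂ) (a : MonoidAlgebra ℂ G) : aug (c • a) = c * aug a := by
  unfold aug
  simp only [ga_coeff_smul, Finset.mul_sum]

theorem aug_sum {ι : Type*} (s : Finset ι) (f : ι → MonoidAlgebra ℂ G) : aug (∑ i ∈ s, f i) = ∑ i ∈ s, aug (f i) := by
  unfold aug
  simp only [ga_coeff_sum]
  rw [Finset.sum_comm]

theorem aug_gof (g : G) : aug (gof g : MonoidAlgebra ℂ G) = 1 := by
  classical
  unfold aug
  rw [Finset.sum_eq_single g]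
  · rw [gof, MonoidAlgebra.coeff_single, Finsupp.single_eq_same]
  · intro b _ hb
    rw [gof, MonoidAlgebra.coeff_single, Finsupp.single_eq_of_ne hb]
  · intro h; exact absurd (Finset.mem_univ _) h

section nn
variable {N : Subgroup G} [hN : N.Normal] [Fintype N]

/-- The sum of the `N`-conjugates. -/
noncomputable def sgm (N : Subgroup G) [Fintype N] (b : G) : MonoidAlgebra ℂ G := ∑ n : N, gof ((n : G) * b * (n : G)⁻¹)

theorem aug_sgm (b : G) : aug (sgm N b) = Nat.card N := by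
  unfold sgm
  rw [aug_sum]
  simp only [aug_gof]
  rw [Finset.sum_const, Finset.card_univ, nsmul_eq_mul, mul_one, Nat.card_eq_fintype_card]

theorem sgm_coeff (b x : G) : (sgm N b).coeff x = (Nat.card {n : N // (n : G) * b * (n : G)⁻¹ = x} : ℂ) := by
  classical
  unfold sgm
  rw [ga_coeff_sum]
  rw [Nat.card_eq_fintype_card, Fintype.card_subtype, Finset.card_filter]
  push_cast
  refine Finset.sum_congr rfl fun n _ => ?_
  rw [gof, MonoidAlgebra.coeff_single, Finsupp.single_apply]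

theorem sgm_inv (b : G) (m : G) (hm : m ∈ N) (x : G) : (sgm N b).coeff (m * x * m⁻¹) = (sgm N b).coeff x := by
  rw [sgm_coeff, sgm_coeff]
  congr 1
  apply Nat.card_congr
  refine ⟨fun n => ⟨(⟨m, hm⟩ : N)⁻¹ * n.1, ?_⟩, fun n => ⟨(⟨m, hm⟩ : N) * n.1, ?_⟩, ?_, ?_⟩
  · have h := n.2
    have e : (((⟨m, hm⟩ : N)⁻¹ * n.1 : N) : G) = m⁻¹ * (n.1 : G) := rfl
    rw [e]
    calc m⁻¹ * (n.1 : G) * b * (m⁻¹ * (n.1 : G))⁻¹ = m⁻¹ * ((n.1 : G) * b * (n.1 : G)⁻¹) * m := by group
      _ = x := by rw [h]; group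
  · have h := n.2
    have e : (((⟨m, hm⟩ : N) * n.1 : N) : G) = m * (n.1 : G) := rfl
    rw [e]
    calc m * (n.1 : G) * b * (m * (n.1 : G))⁻¹ = m * ((n.1 : G) * b * (n.1 : G)⁻¹) * m⁻¹ := by group
      _ = _ := by rw [h]
  · intro n; apply Subtype.ext; simp
  · intro n; apply Subtype.ext; simp

theorem sgm_sup (b : G) : SupQ (QuotientGroup.mk b : G ⧸ N) (sgm N b) := by
  intro x hx
  rw [sgm_coeff]
  have : IsEmpty {n : N // (n : G) * b * (n : G)⁻¹ = x} := by
    constructor
    rintro ⟨n, hn⟩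
    apply hx
    rw [← hn, QuotientGroup.mk_mul, QuotientGroup.mk_mul, QuotientGroup.mk_inv, (QuotientGroup.eq_one_iff _).mpr n.2]
    simp
  rw [Nat.card_of_isEmpty, Nat.cast_zero]

variable [hM' : M.IsPrime]

theorem sgm_mem (b : G) : sgm N b ∈ fixR M N := by
  rw [mem_fixR]
  refine ⟨fun g => ?_, fun x hx g => sgm_inv b x hx g⟩
  rw [sgm_coeff]
  exact memLocR_natCast _

/-- The normalized sum. -/
noncomputable def kkn (N : Subgroup G) [Fintype N] (b : G) : MonoidAlgebra ℂ G := (Nat.card N : ℂ)⁻¹ • sgm N b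

theorem aug_kkn (b : G) : aug (kkn N b) = 1 := by
  unfold kkn
  rw [aug_smul, aug_sgm, inv_mul_cancel₀]
  exact_mod_cast Nat.card_pos.ne'

theorem kkn_sup (b : G) : SupQ (QuotientGroup.mk b : G ⧸ N) (kkn N b) := by
  intro x hx
  unfold kkn
  rw [ga_coeff_smul, sgm_sup b x hx, mul_zero]

theorem kkn_mem (hM : IsPModular p M) (P : Sylow p G) {g : G} (hg : g ∈ Subgroup.centralizer ((P : Subgroup G) : Set G))
    (hPN : (P : Subgroup G) ≤ N) : kkn N g ∈ fixR M N := by
  classical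
  haveI : Fact p.Prime := ⟨hM.1⟩
  rw [mem_fixR]
  refine ⟨fun x => ?_, fun x hx y => ?_⟩
  · unfold kkn
    rw [ga_coeff_smul, sgm_coeff]
    by_cases hne : IsEmpty {n : N // (n : G) * g * (n : G)⁻¹ = x}
    · have hc0 : Nat.card {n : N // (n : G) * g * (n : G)⁻¹ = x} = 0 := Nat.card_of_isEmpty
      rw [hc0, Nat.cast_zero, mul_zero]
      exact memLocR_zero
    · rw [not_isEmpty_iff] at hne
      obtain ⟨⟨n0, hn0⟩⟩ := hne
      obtain ⟨C, hC⟩ : ∃ C : Subgroup N, C = (Subgroup.centralizer ({g} : Set G)).subgroupOf N := ⟨_, rfl⟩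
      have hcard : Nat.card {n : N // (n : G) * g * (n : G)⁻¹ = x} = Nat.card C := by
        apply Nat.card_congr
        have hmemC : ∀ c : N, c ∈ C ↔ (c : G) * g = g * c := by
          intro c
          rw [hC, Subgroup.mem_subgroupOf, Subgroup.mem_centralizer_singleton_iff]
        refine ⟨fun n => ⟨n0⁻¹ * n.1, ?_⟩, fun c => ⟨n0 * c.1, ?_⟩, ?_, ?_⟩
        · rw [hmemC]
          have h1 : (n.1 : G) * g * (n.1 : G)⁻¹ = (n0 : G) * g * (n0 : G)⁻¹ := by rw [n.2, hn0]
          have e : ((n0⁻¹ * n.1 : N) : G) = (n0 : G)⁻¹ * (n.1 : G) := rfl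
          rw [e]
          calc (n0 : G)⁻¹ * (n.1 : G) * g = (n0 : G)⁻¹ * ((n.1 : G) * g * (n.1 : G)⁻¹) * (n.1 : G) := by group
            _ = g * ((n0 : G)⁻¹ * (n.1 : G)) := by rw [h1]; group
        · have h1 := (hmemC c.1).mp c.2
          have e : ((n0 * c.1 : N) : G) = (n0 : G) * (c.1 : G) := rfl
          rw [e]
          calc (n0 : G) * (c.1 : G) * g * ((n0 : G) * (c.1 : G))⁻¹ = (n0 : G) * ((c.1 : G) * g) * (c.1 : G)⁻¹ * (n0 : G)⁻¹ := by group
            _ = (n0 : G) * g * (n0 : G)⁻¹ := by rw [h1]; group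
            _ = x := hn0
        · intro n; apply Subtype.ext; simp
        · intro n; apply Subtype.ext; simp
      rw [hcard]
      have h1 := C.card_mul_index
      have h2 : ¬ p ∣ C.index := by
        intro h
        apply Sylow.not_dvd_index P
        have h3 : (P : Subgroup G).subgroupOf N ≤ C := by
          intro y hy
          rw [hC, Subgroup.mem_subgroupOf, Subgroup.mem_centralizer_singleton_iff]
          exact (Subgroup.mem_centralizer_iff.mp hg) y (Subgroup.mem_subgroupOf.mp hy)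
        have h4 : C.index ∣ (P : Subgroup G).relIndex N := Subgroup.index_dvd_of_le h3
        exact (h.trans h4).trans ⟨_, (Subgroup.relIndex_mul_index hPN).symm⟩
      have h3 : (Nat.card N : ℂ)⁻¹ * (Nat.card C : ℂ) = (C.index : ℂ)⁻¹ := by
        have hC0 : (Nat.card C : ℂ) ≠ 0 := by exact_mod_cast Nat.card_pos.ne'
        have hi0 : (C.index : ℂ) ≠ 0 := by exact_mod_cast Subgroup.index_ne_zero_of_finite
        rw [← h1]
        push_cast
        field_simp
      rw [h3]
      apply memLocR_inv (memLocR_natCast _)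
      intro h5
      have h6 : MemLocalIdeal M (((C.index : ℤ)) : ℂ) := by push_cast; exact h5
      rw [memLocI_intCast_iff hM] at h6
      exact h2 (by exact_mod_cast h6)
  · unfold kkn
    rw [ga_coeff_smul, ga_coeff_smul, sgm_inv g x hx]

/-- Component in a coset. -/
noncomputable def cq (q : G ⧸ N) (a : MonoidAlgebra ℂ G) : MonoidAlgebra ℂ G := ga (cpt q (fun x => a.coeff x))

theorem cq_sup (q : G ⧸ N) (a : MonoidAlgebra ℂ G) : SupQ q (cq q a) := by
  intro x hx
  unfold cq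
  rw [ga_coeff, cpt_ne hx]

theorem cq_mem (q : G ⧸ N) {a : MonoidAlgebra ℂ G} (ha : a ∈ fixR M N) : cq q a ∈ fixR M N := by
  rw [mem_fixR] at ha ⊢
  unfold cq
  refine ⟨fun x => ?_, fun y hy x => ?_⟩
  · rw [ga_coeff]
    by_cases h : (QuotientGroup.mk x : G ⧸ N) = q
    · rw [cpt_eq h]; exact ha.1 x
    · rw [cpt_ne h]; exact memLocR_zero
  · have e : (QuotientGroup.mk (y * x * y⁻¹) : G ⧸ N) = QuotientGroup.mk x := by
      rw [QuotientGroup.mk_mul, QuotientGroup.mk_mul, QuotientGroup.mk_inv, (QuotientGroup.eq_one_iff _).mpr hy]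
      simp
    rw [ga_coeff, ga_coeff]
    by_cases h : (QuotientGroup.mk x : G ⧸ N) = q
    · rw [cpt_eq h, cpt_eq (e.trans h)]; exact ha.2 y hy x
    · rw [cpt_ne h, cpt_ne (by rw [e]; exact h)]

theorem sum_cq [Fintype (G ⧸ N)] (a : MonoidAlgebra ℂ G) : ∑ q : G ⧸ N, cq q a = a := by
  classical
  apply ga_ext
  intro x
  rw [ga_coeff_sum, Finset.sum_eq_single (QuotientGroup.mk x : G ⧸ N)]
  · unfold cq
    rw [ga_coeff, cpt_eq rfl]
  · intro q _ hq
    exact cq_sup q a x hq.symm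
  · intro h; exact absurd (Finset.mem_univ _) h

/-- Expansion over the reference elements. -/
theorem core_expand [Fintype (G ⧸ N)] (hM : IsPModular p M) (P : Sylow p G) (hPN : (P : Subgroup G) ≤ N)
    {rep : G ⧸ N → G} (hrep : ∀ q, (QuotientGroup.mk (rep q) : G ⧸ N) = q)
    (hrepC : ∀ q, rep q ∈ Subgroup.centralizer ((P : Subgroup G) : Set G)) {θ : IrrCharacter N}
    (hθ : θ ∈ principalBlock M N) {a : MonoidAlgebra ℂ G} (ha : a ∈ fixR M N) :
    ∃ r : G ⧸ N → ℂ, (∀ q, MemLocalIdeal M (r q - aug (cq q a))) ∧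
      a * emb N (fB {θ}) = ∑ q : G ⧸ N, r q • (kkn N (rep q) * emb N (fB {θ})) := by
  have h1 : ∀ q : G ⧸ N, ∃ r : ℂ, MemLocalRing M r ∧ MemLocalIdeal M (r - aug (cq q a)) ∧
      cq q a * emb N (fB {θ}) = r • (kkn N (rep q) * emb N (fB {θ})) := by
    intro q
    have hs : SupQ q⁻¹ (kkn N (rep q)⁻¹) := by
      have := kkn_sup (N := N) (rep q)⁻¹
      rwa [QuotientGroup.mk_inv, hrep] at this
    have hs2 : SupQ q (kkn N (rep q)) := by
      have := kkn_sup (N := N) (rep q)
      rwa [hrep] at this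
    exact core_scalar hθ (cq_mem q ha) (kkn_mem hM P (hrepC q) hPN)
      (kkn_mem hM P ((Subgroup.centralizer _).inv_mem (hrepC q)) hPN) (cq_sup q a) hs2 hs (aug_kkn _) (aug_kkn _)
  choose r hr1 hr2 hr3 using h1
  refine ⟨r, hr2, ?_⟩
  conv_lhs => rw [← sum_cq (N := N) a]
  rw [Finset.sum_mul]
  exact Finset.sum_congr rfl fun q _ => hr3 q

end nn

end Cfsg.Agent.H5
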