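import Cfsg.Agent.H5.W49
import Cfsg.Agent.H5.Prin1

set_option autoImplicit false
set_option linter.style.haveILetI false
set_option linter.unusedVariables false
set_option linter.unusedSectionVars false
set_option linter.unusedSimpArgs false

/-! Isomorphic principal blocks, part three. -/

namespace Cfsg.Agent.H5

open Cfsg
open scoped ComplexConjugate

universe u v w

variable {G : Type u} [Group G] [Fintype G] {p : ℕ} {M : Ideal AlgInt}

section nn
variable {N : Subgroup G} [hN : N.Normal] [Fintype N]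

theorem sum_rep [Fintype (G ⧸ N)] {rep : G ⧸ N → G} (hrep : ∀ q, (QuotientGroup.mk (rep q) : G ⧸ N) = q) (f : G → ℂ) :
    ∑ g : G, f g = ∑ q : G ⧸ N, ∑ n : N, f ((n : G) * rep q) := by
  have hbij : Function.Bijective (fun x : (G ⧸ N) × N => (x.2 : G) * rep x.1) := by
    constructor
    · rintro ⟨q, n⟩ ⟨q', n'⟩ h
      have h0 : (n : G) * rep q = n' * rep q' := h
      have h1 : (QuotientGroup.mk ((n : G) * rep q) : G ⧸ N) = QuotientGroup.mk ((n' : G) * rep q') := by rw [h0]
      rw [QuotientGroup.mk_mul, QuotientGroup.mk_mul, (QuotientGroup.eq_one_iff _).mpr n.2, (QuotientGroup.eq_one_iff _).mpr n'.2,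
        one_mul, one_mul, hrep, hrep] at h1
      subst h1
      have h2 := mul_right_cancel h0
      rw [Subtype.ext h2]
    · intro g
      have h1 : (QuotientGroup.mk (g * (rep (QuotientGroup.mk g : G ⧸ N))⁻¹) : G ⧸ N) = 1 := by
        rw [QuotientGroup.mk_mul, QuotientGroup.mk_inv, hrep, mul_inv_cancel]
      refine ⟨(QuotientGroup.mk g, ⟨_, (QuotientGroup.eq_one_iff _).mp h1⟩), ?_⟩
      show g * (rep _)⁻¹ * rep _ = g
      rw [inv_mul_cancel_right]
  rw [← hbij.sum_comp, Fintype.sum_prod_type]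

theorem sInd_class : IsClassFunction G (sInd (N : Set G)) := by
  intro g h
  by_cases hg : g ∈ N
  · rw [sInd_mem (show g ∈ (N : Set G) from hg), sInd_mem (show h * g * h⁻¹ ∈ (N : Set G) from hN.conj_mem g hg h)]
  · rw [sInd_not_mem (show g ∉ (N : Set G) from hg), sInd_not_mem]
    intro h'
    apply hg
    have := hN.conj_mem _ h' h⁻¹
    have e : h⁻¹ * (h * g * h⁻¹) * h⁻¹⁻¹ = g := by group
    rwa [e] at this

variable [hM' : M.IsPrime]

/-- Only the trivial character of the quotient lies in the principal block. -/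
theorem prin_quot_one (hM : IsPModular p M) (hidx : ¬ p ∣ N.index) (P : Sylow p G)
    (hsup : N ⊔ Subgroup.centralizer ((P : Subgroup G) : Set G) = ⊤) {χ : IrrCharacter G} (hχ : χ ∈ principalBlock M G)
    (h0 : omega (χ : G → ℂ) (sInd (N : Set G)) ≠ 0) : χ = oneC G := by
  classical
  haveI : Fact p.Prime := ⟨hM.1⟩
  have hsum : ∑ g : G, sInd (N : Set G) g * (χ : G → ℂ) g ≠ 0 := by
    intro h
    apply h0
    unfold omega
    rw [h, zero_div]
  have hker : ∀ n ∈ N, ∀ g, (χ : G → ℂ) (n * g) = (χ : G → ℂ) g := fun n hn g => ker_of_sum_ne_zero χ hsum n hn g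
  have hχ1 : (χ : G → ℂ) 1 ≠ 0 := IsIrr.one_ne_zero χ.2
  have hval : ∀ g : G, MemLocalIdeal M ((χ : G → ℂ) g / (χ : G → ℂ) 1 - 1) := by
    intro g
    have hg : g ∈ N ⊔ Subgroup.centralizer ((P : Subgroup G) : Set G) := by rw [hsup]; trivial
    rw [Subgroup.mem_sup_of_normal_left] at hg
    obtain ⟨n, hn, c, hc, rfl⟩ := hg
    rw [hker n hn]
    have h1 : SameBlock M (fun _ : G => (1 : ℂ)) (χ : G → ℂ) := hχ
    have h2 := h1 c
    unfold centralChar at h2
    have hi : ¬ p ∣ (Subgroup.centralizer ({c} : Set G)).index := by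
      intro h
      apply Sylow.not_dvd_index P
      refine h.trans (Subgroup.index_dvd_of_le ?_)
      intro y hy
      rw [Subgroup.mem_centralizer_singleton_iff]
      exact (Subgroup.mem_centralizer_iff.mp hc) y hy
    have hiI : ¬ MemLocalIdeal M ((Subgroup.centralizer ({c} : Set G)).index : ℂ) := by
      intro h5
      have h6 : MemLocalIdeal M ((((Subgroup.centralizer ({c} : Set G)).index : ℤ)) : ℂ) := by push_cast; exact h5
      rw [memLocI_intCast_iff hM] at h6
      exact hi (by exact_mod_cast h6)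
    have hi0 : ((Subgroup.centralizer ({c} : Set G)).index : ℂ) ≠ 0 := by
      exact_mod_cast Subgroup.index_ne_zero_of_finite
    have h3 := memLocI_mul_left (memLocR_inv (memLocR_natCast _) hiI) h2
    rw [← memLocI_neg_iff]
    have e : -((χ : G → ℂ) c / (χ : G → ℂ) 1 - 1) = ((Subgroup.centralizer ({c} : Set G)).index : ℂ)⁻¹ *
        (((Subgroup.centralizer ({c} : Set G)).index : ℂ) * (1 : ℂ) / 1 -
          ((Subgroup.centralizer ({c} : Set G)).index : ℂ) * (χ : G → ℂ) c / (χ : G → ℂ) 1) := by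
      field_simp
      ring
    rw [e]; exact h3
  by_contra hne
  have h1 := classInner_irr_ne hne
  rw [classInner_def] at h1
  have hG0 : (Nat.card G : ℂ) ≠ 0 := by exact_mod_cast Nat.card_pos.ne'
  have hN0 : (Nat.card N : ℂ) ≠ 0 := by exact_mod_cast Nat.card_pos.ne'
  have h2 : ∑ g : G, (χ : G → ℂ) g = 0 := by
    have h3 := (mul_eq_zero.mp h1).resolve_left (inv_ne_zero hG0)
    simpa only [oneC_apply, map_one, mul_one] using h3
  have hfQ := Fintype.ofFinite (G ⧸ N)
  rw [sum_rep (rep := fun q : G ⧸ N => q.out) (fun q => QuotientGroup.out_eq' q)] at h2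
  have h3 : ∑ q : G ⧸ N, ∑ n : N, (χ : G → ℂ) ((n : G) * q.out) = (Nat.card N : ℂ) * ∑ q : G ⧸ N, (χ : G → ℂ) q.out := by
    rw [Finset.mul_sum]
    refine Finset.sum_congr rfl fun q _ => ?_
    have h4 : ∀ n : N, (χ : G → ℂ) ((n : G) * q.out) = (χ : G → ℂ) q.out := fun n => hker n n.2 _
    simp only [h4]
    rw [Finset.sum_const, Finset.card_univ, nsmul_eq_mul, Nat.card_eq_fintype_card]
  rw [h3] at h2
  have h5 := (mul_eq_zero.mp h2).resolve_left hN0
  have h6 : MemLocalIdeal M (∑ q : G ⧸ N, ((χ : G → ℂ) q.out / (χ : G → ℂ) 1 - 1)) := memLocI_sum _ _ fun q _ => hval _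
  rw [Finset.sum_sub_distrib, ← Finset.sum_div, h5, zero_div, zero_sub, memLocI_neg_iff] at h6
  rw [Finset.sum_const, Finset.card_univ, nsmul_eq_mul, mul_one, ← Nat.card_eq_fintype_card] at h6
  have h7 : MemLocalIdeal M (((N.index : ℤ)) : ℂ) := by push_cast; exact h6
  rw [memLocI_intCast_iff hM] at h7
  exact hidx (by exact_mod_cast h7)

theorem sN_mul_B (hM : IsPModular p M) (hidx : ¬ p ∣ N.index) (P : Sylow p G)
    (hsup : N ⊔ Subgroup.centralizer ((P : Subgroup G) : Set G) = ⊤) (x : G) :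
    (ga (sInd (N : Set G)) * fB (principalBlock M G)).coeff x = (N.index : ℂ)⁻¹ := by
  classical
  have h4 := cen_mul (fun χ : IrrCharacter G => omega (χ : G → ℂ) (sInd (N : Set G))) (ind1 (principalBlock M G))
  rw [cen_omega sInd_class] at h4
  have h5 : ga (sInd (N : Set G)) * fB (principalBlock M G) = ga (cen fun χ : IrrCharacter G => omega (χ : G → ℂ) (sInd (N : Set G)) * ind1 (principalBlock M G) χ) := h4.symm
  have h6 : (fun χ : IrrCharacter G => omega (χ : G → ℂ) (sInd (N : Set G)) * ind1 (principalBlock M G) χ) =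
      fun χ => (Nat.card N : ℂ) * ind1 {oneC G} χ := by
    funext χ
    by_cases hc : χ = oneC G
    · rw [hc, ind1_mem (oneC_mem hM), ind1_mem (show oneC G ∈ ({oneC G} : Set (IrrCharacter G)) from rfl), mul_one, mul_one]
      show (∑ g : G, sInd (N : Set G) g * (oneC G : G → ℂ) g) / (oneC G : G → ℂ) 1 = _
      rw [sum_sInd (fun g => (oneC G : G → ℂ) g)]
      simp only [oneC_apply, div_one]
      rw [Finset.sum_const, Finset.card_univ, nsmul_eq_mul, mul_one, Nat.card_eq_fintype_card]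
    · rw [ind1_not_mem (show χ ∉ ({oneC G} : Set (IrrCharacter G)) from hc), mul_zero]
      by_cases hχ : χ ∈ principalBlock M G
      · by_cases h0 : omega (χ : G → ℂ) (sInd (N : Set G)) = 0
        · rw [h0, zero_mul]
        · exact absurd (prin_quot_one hM hidx P hsup hχ h0) hc
      · rw [ind1_not_mem hχ, mul_zero]
  rw [h5, h6, ga_coeff, cen_smul, cen, Finset.sum_eq_single (oneC G)]
  · rw [ind1_mem (show oneC G ∈ ({oneC G} : Set (IrrCharacter G)) from rfl), oneC_apply, oneC_apply, mul_one, mul_one, mul_one]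
    have h7 := N.card_mul_index
    have hN0 : (Nat.card N : ℂ) ≠ 0 := by exact_mod_cast Nat.card_pos.ne'
    have hi0 : (N.index : ℂ) ≠ 0 := by exact_mod_cast Subgroup.index_ne_zero_of_finite
    rw [← h7]
    push_cast
    field_simp
  · intro χ _ hχ
    rw [ind1_not_mem (show χ ∉ ({oneC G} : Set (IrrCharacter G)) from hχ), zero_mul, zero_mul]
  · intro h; exact absurd (Finset.mem_univ _) h

theorem aug_cq (c : MonoidAlgebra ℂ G) (g : G) : aug (cq (QuotientGroup.mk g : G ⧸ N) c) = (ga (sInd (N : Set G)) * c).coeff g := by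
  unfold aug cq
  rw [ga_coeff_mul']
  refine Finset.sum_congr rfl fun y _ => ?_
  rw [ga_coeff, ga_coeff]
  by_cases h : (QuotientGroup.mk y : G ⧸ N) = QuotientGroup.mk g
  · rw [cpt_eq h, sInd_mem, one_mul]
    have h1 : (QuotientGroup.mk (g * y⁻¹) : G ⧸ N) = 1 := by
      rw [QuotientGroup.mk_mul, QuotientGroup.mk_inv, h, mul_inv_cancel]
    exact (QuotientGroup.eq_one_iff _).mp h1
  · rw [cpt_ne h, sInd_not_mem, zero_mul]
    intro h1
    apply h
    have h2 : (QuotientGroup.mk (g * y⁻¹) : G ⧸ N) = 1 := (QuotientGroup.eq_one_iff _).mpr h1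
    rw [QuotientGroup.mk_mul, QuotientGroup.mk_inv, mul_inv_eq_one] at h2
    exact h2.symm

theorem aug_cq_mul (hM : IsPModular p M) (hidx : ¬ p ∣ N.index) (P : Sylow p G)
    (hsup : N ⊔ Subgroup.centralizer ((P : Subgroup G) : Set G) = ⊤) (a : MonoidAlgebra ℂ G) (q : G ⧸ N) :
    aug (cq q (a * fB (principalBlock M G))) = aug a * (N.index : ℂ)⁻¹ := by
  obtain ⟨g, rfl⟩ := QuotientGroup.mk_surjective q
  rw [aug_cq, ← mul_assoc, ga_class_comm sInd_class a, mul_assoc, ga_coeff_mul]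
  simp only [sN_mul_B hM hidx P hsup]
  rw [← Finset.sum_mul]
  rfl

/-- The matrix argument. -/
theorem iso_scalar (hM : IsPModular p M) (hidx : ¬ p ∣ N.index) (P : Sylow p G) (hPN : (P : Subgroup G) ≤ N)
    (hsup : N ⊔ Subgroup.centralizer ((P : Subgroup G) : Set G) = ⊤) {θ : IrrCharacter N} (hθ : θ ∈ principalBlock M N)
    (b : G) : ∃ s : ℂ, sgm N b * (fB (principalBlock M G) * emb N (fB {θ})) =
      s • (fB (principalBlock M G) * emb N (fB {θ})) := by
  classical
  have hfQ := Fintype.ofFinite (G ⧸ N)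
  have hex : ∀ q : G ⧸ N, ∃ g : G, (QuotientGroup.mk g : G ⧸ N) = q ∧ g ∈ Subgroup.centralizer ((P : Subgroup G) : Set G) := by
    intro q
    obtain ⟨g, rfl⟩ := QuotientGroup.mk_surjective q
    have hg : g ∈ N ⊔ Subgroup.centralizer ((P : Subgroup G) : Set G) := by rw [hsup]; trivial
    rw [Subgroup.mem_sup_of_normal_left] at hg
    obtain ⟨n, hn, c, hc, rfl⟩ := hg
    refine ⟨c, ?_, hc⟩
    rw [QuotientGroup.mk_mul, (QuotientGroup.eq_one_iff _).mpr hn, one_mul]
  choose rep hrep hrepC using hex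
  obtain ⟨B, hB⟩ : ∃ B : MonoidAlgebra ℂ G, B = fB (principalBlock M G) := ⟨_, rfl⟩
  obtain ⟨E, hE⟩ : ∃ E : MonoidAlgebra ℂ G, E = emb N (fB {θ}) := ⟨_, rfl⟩
  have hBB : B * B = B := by rw [hB]; exact fB_mul_self _
  have hBc : ∀ a : MonoidAlgebra ℂ G, B * a = a * B := by intro a; rw [hB]; exact fB_comm _ a
  have hBm : B ∈ fixR M N := by rw [hB]; exact fB_mem_fixR N (blockCoeff_memLocR principal_isPBlock)
  have hexp := fun (a : MonoidAlgebra ℂ G) (ha : a ∈ fixR M N) => core_expand hM P hPN hrep hrepC hθ ha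
  rw [← hB, ← hE]
  rw [← hE] at hexp
  -- expansion of ε and of the translates
  obtain ⟨ρ, hρ1, hρ2⟩ := hexp B hBm
  have h1 : ∀ q : G ⧸ N, ∃ r : G ⧸ N → ℂ, (∀ q', MemLocalIdeal M (r q' - aug (cq q' (kkn N (rep q) * B)))) ∧
      kkn N (rep q) * B * E = ∑ q' : G ⧸ N, r q' • (kkn N (rep q') * E) := fun q =>
    hexp _ ((fixR M N).mul_mem (kkn_mem hM P (hrepC q) hPN) hBm)
  choose r hr1 hr2 using h1
  obtain ⟨v, hv⟩ : ∃ v : G ⧸ N → MonoidAlgebra ℂ G, v = fun q => kkn N (rep q) * (B * E) := ⟨_, rfl⟩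
  have hBv : ∀ q, B * (kkn N (rep q) * E) = v q := by
    intro q
    rw [hv]
    show B * (kkn N (rep q) * E) = kkn N (rep q) * (B * E)
    rw [← mul_assoc, hBc, mul_assoc]
  have hBv2 : ∀ q, B * v q = v q := by
    intro q
    rw [← hBv, ← mul_assoc, hBB]
  have hBε : B * (B * E) = B * E := by rw [← mul_assoc, hBB]
  have hbI : ∀ q q', MemLocalIdeal M (ρ q' - r q q') := by
    intro q q'
    have e1 : aug (cq q' B) = (N.index : ℂ)⁻¹ := by
      have := aug_cq_mul hM hidx P hsup (gof (1 : G)) q'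
      rw [gof_one, one_mul, ← hB] at this
      rw [this]
      have h2 : aug (1 : MonoidAlgebra ℂ G) = 1 := aug_gof (1 : G)
      rw [h2, one_mul]
    have e2 : aug (cq q' (kkn N (rep q) * B)) = (N.index : ℂ)⁻¹ := by
      rw [hB, aug_cq_mul hM hidx P hsup, aug_kkn, one_mul]
    have h2 := memLocI_sub (hρ1 q') (hr1 q q')
    rw [e1, e2] at h2
    have e3 : ρ q' - (N.index : ℂ)⁻¹ - (r q q' - (N.index : ℂ)⁻¹) = ρ q' - r q q' := by ring
    rw [e3] at h2
    exact h2
  have hsys : ∀ q, v q + ∑ q' : G ⧸ N, (ρ q' - r q q') • v q' = B * E := by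
    intro q
    have h2 : v q = ∑ q' : G ⧸ N, r q q' • v q' := by
      have h3 : v q = B * (kkn N (rep q) * B * E) := by
        rw [mul_assoc, ← hBv2, hv]
      rw [h3, hr2, Finset.mul_sum]
      refine Finset.sum_congr rfl fun q' _ => ?_
      rw [mul_smul_comm, hBv]
    have h4 : B * E = ∑ q' : G ⧸ N, ρ q' • v q' := by
      rw [← hBε]
      conv_lhs => rw [hρ2]
      rw [Finset.mul_sum]
      refine Finset.sum_congr rfl fun q' _ => ?_
      rw [mul_smul_comm, hBv]
    simp only [sub_smul]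
    rw [Finset.sum_sub_distrib, ← h2, ← h4]
    abel
  obtain ⟨S, hS⟩ : ∃ S : Matrix (G ⧸ N) (G ⧸ N) ℂ, S = fun q q' => ρ q' - r q q' := ⟨_, rfl⟩
  have hunit : IsUnit (1 + S) := isUnit_one_add_matrix (M := M) S (fun q q' => by rw [hS]; exact hbI q q')
  have hdet : IsUnit (1 + S).det := (Matrix.isUnit_iff_isUnit_det _).mp hunit
  obtain ⟨A, hA⟩ : ∃ A : Matrix (G ⧸ N) (G ⧸ N) ℂ, A * (1 + S) = 1 := ⟨(1 + S)⁻¹, Matrix.nonsing_inv_mul _ hdet⟩
  have hsol : ∀ q, v q = (∑ q' : G ⧸ N, A q q') • (B * E) := by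
    intro q
    have h2 : ∑ q' : G ⧸ N, A q q' • (v q' + ∑ q'' : G ⧸ N, S q' q'' • v q'') = (∑ q' : G ⧸ N, A q q') • (B * E) := by
      rw [Finset.sum_smul]
      refine Finset.sum_congr rfl fun q' _ => ?_
      congr 1
      rw [hS]
      exact hsys q'
    rw [← h2]
    have h3 : ∀ q', v q' + ∑ q'' : G ⧸ N, S q' q'' • v q'' = ∑ q'' : G ⧸ N, (1 + S) q' q'' • v q'' := by
      intro q'
      simp only [Matrix.add_apply, add_smul, Finset.sum_add_distrib]
      congr 1
      rw [Finset.sum_eq_single q']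
      · rw [Matrix.one_apply_eq, one_smul]
      · intro q'' _ hne
        rw [Matrix.one_apply_ne (Ne.symm hne), zero_smul]
      · intro h; exact absurd (Finset.mem_univ _) h
    simp only [h3, Finset.smul_sum, smul_smul]
    rw [Finset.sum_comm]
    have h4 : ∀ q'', ∑ q' : G ⧸ N, (A q q' * (1 + S) q' q'') • v q'' = (1 : Matrix (G ⧸ N) (G ⧸ N) ℂ) q q'' • v q'' := by
      intro q''
      rw [← Finset.sum_smul, ← Matrix.mul_apply, hA]
    simp only [h4]
    rw [Finset.sum_eq_single q]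
    · rw [Matrix.one_apply_eq, one_smul]
    · intro q'' _ hne
      rw [Matrix.one_apply_ne (Ne.symm hne), zero_smul]
    · intro h; exact absurd (Finset.mem_univ _) h
  obtain ⟨t, ht1, ht2⟩ := hexp (sgm N b) (sgm_mem b)
  refine ⟨∑ q : G ⧸ N, t q * ∑ q' : G ⧸ N, A q q', ?_⟩
  have h5 : sgm N b * (B * E) = B * (sgm N b * E) := by rw [← mul_assoc, ← hBc, mul_assoc]
  rw [h5, ht2, Finset.mul_sum, Finset.sum_smul]
  refine Finset.sum_congr rfl fun q _ => ?_
  rw [mul_smul_comm, hBv, hsol, smul_smul]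

end nn

end Cfsg.Agent.H5
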