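import Cfsg.Agent.H5.W50

set_option autoImplicit false
set_option linter.style.haveILetI false
set_option linter.unusedVariables false
set_option linter.unusedSectionVars false
set_option linter.unusedSimpArgs false

/-! Isomorphic principal blocks, part four. -/

namespace Cfsg.Agent.H5

open Cfsg
open scoped ComplexConjugate

universe u v w

variable {G : Type u} [Group G] [Fintype G] {p : ℕ} {M : Ideal AlgInt}

section nn
variable {N : Subgroup G} [hN : N.Normal] [Fintype N]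

theorem lin_E_mul {χ : IrrCharacter G} {θ : IrrCharacter N}
    (h : (χ : G → ℂ) 1 = (θ : N → ℂ) 1 * classInner (fun n : N => (χ : G → ℂ) n) (θ : N → ℂ)) (x : MonoidAlgebra ℂ G) :
    lin (χ : G → ℂ) (emb N (fB {θ}) * x) = lin (χ : G → ℂ) x := by
  obtain ⟨n, ρ, -, hρ⟩ := χ.2
  rw [← hρ, lin_trace, lin_trace, map_mul]
  have h1 : ρ.asAlgebraHom (emb N (fB {θ})) * ρ.asAlgebraHom (emb N (fB {θ})) = ρ.asAlgebraHom (emb N (fB {θ})) := by
    rw [← map_mul, ← map_mul, fB_mul_self]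
  have h2 : LinearMap.trace ℂ (Fin n → ℂ) (ρ.asAlgebraHom (emb N (fB {θ}))) = (χ : G → ℂ) 1 := by
    rw [← lin_trace, hρ, lin_emb, lin_fB_singleton, ← h]
  have h3 : (1 - ρ.asAlgebraHom (emb N (fB {θ}))) * (1 - ρ.asAlgebraHom (emb N (fB {θ}))) =
      1 - ρ.asAlgebraHom (emb N (fB {θ})) := by
    rw [mul_sub, sub_mul, sub_mul, h1, one_mul, mul_one]
    simp
  have h4 : LinearMap.trace ℂ (Fin n → ℂ) (1 - ρ.asAlgebraHom (emb N (fB {θ}))) = 0 := by
    rw [map_sub, h2, sub_eq_zero]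
    have h5 : ρ.character 1 = (χ : G → ℂ) 1 := congrFun hρ 1
    rw [← h5]
    exact congrArg (LinearMap.trace ℂ (Fin n → ℂ)) (map_one ρ).symm
  have h6 := idem_trace_zero h3 h4
  rw [← sub_eq_zero.mp h6, one_mul]

theorem fB_single_coeff (θ : IrrCharacter N) (n : N) : (fB {θ}).coeff n = (Nat.card N : ℂ)⁻¹ * ((θ : N → ℂ) 1 * conj ((θ : N → ℂ) n)) := by
  rw [fB_coeff]
  unfold blockCoeff
  rw [finsum_mem_singleton]

/-- Conjugation of the idempotent. -/
theorem gof_mul_E (g : G) {θ θ' : IrrCharacter N} (h : (θ' : N → ℂ) = H4.conjBy hN g⁻¹ (θ : N → ℂ)) :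
    gof g * emb N (fB {θ}) = emb N (fB {θ'}) * gof g := by
  apply ga_ext
  intro x
  rw [ga_coeff_single_mul, ga_coeff_mul_single, one_mul, mul_one]
  by_cases hx : x * g⁻¹ ∈ N
  · have hx2 : g⁻¹ * x ∈ N := by
      have := hN.conj_mem _ hx g⁻¹
      have e : g⁻¹ * (x * g⁻¹) * g⁻¹⁻¹ = g⁻¹ * x := by group
      rwa [e] at this
    have h1 : (emb N (fB {θ})).coeff (g⁻¹ * x) = (fB {θ}).coeff ⟨g⁻¹ * x, hx2⟩ := emb_coeff_coe N _ ⟨g⁻¹ * x, hx2⟩
    have h2 : (emb N (fB {θ'})).coeff (x * g⁻¹) = (fB {θ'}).coeff ⟨x * g⁻¹, hx⟩ := emb_coeff_coe N _ ⟨x * g⁻¹, hx⟩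
    rw [h1, h2, fB_single_coeff, fB_single_coeff, h, H4.conjBy_apply, H4.conjBy_apply, map_one]
    have h3 : H4.conjAut hN g⁻¹ ⟨x * g⁻¹, hx⟩ = ⟨g⁻¹ * x, hx2⟩ := by
      apply Subtype.ext
      show g⁻¹ * (x * g⁻¹) * g⁻¹⁻¹ = g⁻¹ * x
      group
    rw [h3]
  · have hx2 : g⁻¹ * x ∉ N := by
      intro h1
      apply hx
      have := hN.conj_mem _ h1 g
      have e : g * (g⁻¹ * x) * g⁻¹ = x * g⁻¹ := by group
      rwa [e] at this
    rw [emb_coeff_not_mem N _ hx, emb_coeff_not_mem N _ hx2]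

theorem gof_N_comm_E (n : N) (θ : IrrCharacter N) : gof (n : G) * emb N (fB {θ}) = emb N (fB {θ}) * gof (n : G) := by
  rw [← emb_gof, ← map_mul, ← map_mul, fB_comm]

theorem E_ne_zero (θ : IrrCharacter N) : emb N (fB {θ}) ≠ (0 : MonoidAlgebra ℂ G) := by
  intro h
  have h1 : (emb N (fB {θ})).coeff ((1 : N) : G) = (fB {θ}).coeff 1 := emb_coeff_coe N _ 1
  rw [h, fB_single_coeff, ga_coeff_zero] at h1
  have h2 : conj ((θ : N → ℂ) 1) ≠ 0 := by
    rw [Ne, map_eq_zero]; exact IsIrr.one_ne_zero θ.2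
  have hN0 : (Nat.card N : ℂ) ≠ 0 := by exact_mod_cast Nat.card_pos.ne'
  exact (mul_ne_zero (inv_ne_zero hN0) (mul_ne_zero (IsIrr.one_ne_zero θ.2) h2)) h1.symm

theorem kkn_mul_E (g : G) {θ θ' : IrrCharacter N} (h : (θ' : N → ℂ) = H4.conjBy hN g⁻¹ (θ : N → ℂ)) :
    kkn N g * emb N (fB {θ}) = emb N (fB {θ'}) * kkn N g := by
  unfold kkn sgm
  rw [smul_mul_assoc, mul_smul_comm, Finset.sum_mul, Finset.mul_sum]
  congr 1
  refine Finset.sum_congr rfl fun n _ => ?_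
  rw [gof_mul, gof_mul]
  have e1 : gof ((n : G)⁻¹) * emb N (fB {θ}) = emb N (fB {θ}) * gof ((n : G)⁻¹) := gof_N_comm_E n⁻¹ θ
  rw [mul_assoc, e1, mul_assoc, ← mul_assoc (gof g), gof_mul_E g h]
  rw [← mul_assoc, ← mul_assoc, gof_N_comm_E n θ']
  simp only [mul_assoc]

variable [hM' : M.IsPrime]

theorem theta_inv (hM : IsPModular p M) (P : Sylow p G) (hPN : (P : Subgroup G) ≤ N)
    {θ : IrrCharacter N} (hθ : θ ∈ principalBlock M N) {g : G} (hg : g ∈ Subgroup.centralizer ((P : Subgroup G) : Set G)) :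
    g⁻¹ ∈ H4.inertia hN (θ : N → ℂ) := by
  classical
  obtain ⟨θ', hθ'⟩ : ∃ θ' : IrrCharacter N, (θ' : N → ℂ) = H4.conjBy hN g⁻¹ (θ : N → ℂ) := ⟨⟨_, H4.conjBy_irr hN _ θ.2⟩, rfl⟩
  rw [H4.mem_inertia, ← hθ']
  by_contra hne
  have hne' : θ' ≠ θ := fun h => hne (by rw [h])
  have hk := kkn_mem (N := N) (M := M) hM P hg hPN
  have hk' := kkn_mem (N := N) (M := M) hM P ((Subgroup.centralizer _).inv_mem hg) hPN
  have hs : SupQ (1 : G ⧸ N) (kkn N g⁻¹ * kkn N g) := by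
    have := (kkn_sup (N := N) g⁻¹).mul (kkn_sup (N := N) g)
    rwa [QuotientGroup.mk_inv, inv_mul_cancel] at this
  obtain ⟨w, hwR, hw, e⟩ := exists_omega hθ ((fixR M N).mul_mem hk' hk) hs
  rw [aug_mul, aug_kkn, aug_kkn, mul_one] at hw
  have hw0 : w ≠ 0 := by
    intro h0
    rw [h0, zero_sub, memLocI_neg_iff] at hw
    exact memLocI_one hw
  have hEE : emb N (fB {θ}) * emb N (fB {θ}) = (emb N (fB {θ}) : MonoidAlgebra ℂ G) := by rw [← map_mul, fB_mul_self]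
  have hE'E : emb N (fB {θ'}) * emb N (fB {θ}) = (0 : MonoidAlgebra ℂ G) := by
    rw [← map_mul, fB_mul_disjoint, map_zero]
    intro χ h1 h2
    rw [Set.mem_singleton_iff] at h1 h2
    exact hne' (h1.symm.trans h2)
  have h1 := kkn_mul_E g hθ'
  have h2 : kkn N g * emb N (fB {θ}) = 0 := by
    calc kkn N g * emb N (fB {θ}) = kkn N g * emb N (fB {θ}) * emb N (fB {θ}) := by rw [mul_assoc, hEE]
      _ = emb N (fB {θ'}) * (kkn N g * emb N (fB {θ})) := by rw [← mul_assoc, ← h1]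
      _ = emb N (fB {θ'}) * (emb N (fB {θ}) * kkn N g) := by rw [comm_emb_of hk]
      _ = 0 := by rw [← mul_assoc, hE'E, zero_mul]
  rw [mul_assoc, h2, mul_zero] at e
  have h3 := smul_eq_zero.mp e.symm
  rcases h3 with h3 | h3
  · exact hw0 h3
  · exact E_ne_zero θ h3

theorem inertia_top (hM : IsPModular p M) (P : Sylow p G) (hPN : (P : Subgroup G) ≤ N)
    (hsup : N ⊔ Subgroup.centralizer ((P : Subgroup G) : Set G) = ⊤) {θ : IrrCharacter N} (hθ : θ ∈ principalBlock M N) :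
    H4.inertia hN (θ : N → ℂ) = ⊤ := by
  rw [eq_top_iff, ← hsup]
  apply sup_le
  · intro x hx
    exact H4.conjBy_coe_mem hN ⟨x, hx⟩ (irr_classFun θ)
  · intro g hg
    have := theta_inv hM P hPN hθ hg
    exact (Subgroup.inv_mem_iff _).mp this

theorem iso_val (hM : IsPModular p M) (hidx : ¬ p ∣ N.index) (P : Sylow p G) (hPN : (P : Subgroup G) ≤ N)
    (hsup : N ⊔ Subgroup.centralizer ((P : Subgroup G) : Set G) = ⊤) {θ : IrrCharacter N} (hθ : θ ∈ principalBlock M N)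
    (b : G) : ∃ s : ℂ, ∀ χ ∈ principalBlock M G, classInner (fun n : N => ((χ : IrrCharacter G) : G → ℂ) n) (θ : N → ℂ) ≠ 0 →
      ∀ a : MonoidAlgebra ℂ G, lin ((χ : IrrCharacter G) : G → ℂ) (a * sgm N b) = s * lin ((χ : IrrCharacter G) : G → ℂ) a := by
  obtain ⟨s, hs⟩ := iso_scalar hM hidx P hPN hsup hθ b
  refine ⟨s, fun χ hχ hover a => ?_⟩
  have hcf := irr_classFun χ
  have hT := inertia_top hM P hPN hsup hθ
  have hdeg := H4.clifford_degree hN χ χ.2 θ θ.2 hover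
  rw [hT, Subgroup.index_top, Nat.cast_one, mul_one, mul_comm] at hdeg
  have key : ∀ x : MonoidAlgebra ℂ G, lin (χ : G → ℂ) (x * (fB (principalBlock M G) * emb N (fB {θ}))) = lin (χ : G → ℂ) x := by
    intro x
    rw [lin_mul_comm hcf, mul_assoc, lin_fB_mul, ind1_mem hχ, one_mul, lin_E_mul hdeg]
  rw [← key, mul_assoc, hs, mul_smul_comm, map_smul, key, smul_eq_mul]

theorem lin_sgm {χ : IrrCharacter G} (b : G) : lin (χ : G → ℂ) (sgm N b) = Nat.card N * (χ : G → ℂ) b := by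
  unfold sgm
  rw [map_sum]
  have h1 : ∀ n : N, lin (χ : G → ℂ) (gof ((n : G) * b * (n : G)⁻¹)) = (χ : G → ℂ) b := by
    intro n
    rw [lin_single, one_mul, irr_classFun χ]
  simp only [h1]
  rw [Finset.sum_const, Finset.card_univ, nsmul_eq_mul, Nat.card_eq_fintype_card]

theorem iso_main (hM : IsPModular p M) (hidx : ¬ p ∣ N.index) (P : Sylow p G) (hPN : (P : Subgroup G) ≤ N)
    (hsup : N ⊔ Subgroup.centralizer ((P : Subgroup G) : Set G) = ⊤) {θ : IrrCharacter N} (hθ : θ ∈ principalBlock M N)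
    {χ : IrrCharacter G} (hχ : χ ∈ principalBlock M G) (hover : classInner (fun n : N => (χ : G → ℂ) n) (θ : N → ℂ) ≠ 0)
    (n : N) : (χ : G → ℂ) n = (θ : N → ℂ) n := by
  classical
  have hcf := irr_classFun χ
  have hχ1 : (χ : G → ℂ) 1 ≠ 0 := IsIrr.one_ne_zero χ.2
  have hG0 : (Nat.card G : ℂ) ≠ 0 := by exact_mod_cast Nat.card_pos.ne'
  have hN0 : (Nat.card N : ℂ) ≠ 0 := by exact_mod_cast Nat.card_pos.ne'
  have h1 : ∀ b a : G, ∑ n : N, (χ : G → ℂ) (a * ((n : G) * b * (n : G)⁻¹)) = Nat.card N * (χ : G → ℂ) b * (χ : G → ℂ) a / (χ : G → ℂ) 1 := by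
    intro b a
    obtain ⟨s, hs⟩ := iso_val hM hidx P hPN hsup hθ b
    have h2 := hs χ hχ hover (gof a)
    have h3 := hs χ hχ hover (gof 1)
    rw [gof_one, one_mul, lin_sgm] at h3
    have h4 : lin (χ : G → ℂ) (1 : MonoidAlgebra ℂ G) = (χ : G → ℂ) 1 := by
      rw [← gof_one, lin_single, one_mul]
    rw [h4] at h3
    rw [lin_single, one_mul] at h2
    have h5 : lin (χ : G → ℂ) (gof a * sgm N b) = ∑ n : N, (χ : G → ℂ) (a * ((n : G) * b * (n : G)⁻¹)) := by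
      unfold sgm
      rw [Finset.mul_sum, map_sum]
      refine Finset.sum_congr rfl fun n _ => ?_
      rw [← gof_mul, lin_single, one_mul]
    rw [h5] at h2
    rw [h2, h3]
    field_simp
  have h2 : ∑ n : N, (χ : G → ℂ) n * conj ((χ : G → ℂ) n) = Nat.card N := by
    have h3 : ∑ b : G, ∑ n : N, (χ : G → ℂ) (b⁻¹ * ((n : G) * b * (n : G)⁻¹)) = Nat.card N * Nat.card G / (χ : G → ℂ) 1 := by
      simp only [h1]
      rw [← Finset.sum_div]
      congr 1
      have h4 : ∀ b : G, Nat.card N * (χ : G → ℂ) b * (χ : G → ℂ) b⁻¹ = Nat.card N * ((χ : G → ℂ) b * (χ : G → ℂ) b⁻¹) := fun b => by ring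
      simp only [h4]
      rw [← Finset.mul_sum, sum_irr_mul_inv χ χ, if_pos rfl]
    rw [Finset.sum_comm] at h3
    have h5 : ∀ n : N, ∑ b : G, (χ : G → ℂ) (b⁻¹ * ((n : G) * b * (n : G)⁻¹)) =
        Nat.card G * ((χ : G → ℂ) n * conj ((χ : G → ℂ) n)) / (χ : G → ℂ) 1 := by
      intro n
      have h6 := irr_sum_conj_mul χ.2 (n : G) (n : G)⁻¹
      rw [IsCharacter.inv_eq_conj (irr_isCharacter χ), mul_assoc] at h6
      rw [← h6, ← Equiv.sum_comp (Equiv.inv G)]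
      refine Finset.sum_congr rfl fun b _ => ?_
      congr 1
      simp only [Equiv.inv_apply, inv_inv]
      group
    simp only [h5] at h3
    rw [← Finset.sum_div, ← Finset.mul_sum] at h3
    have h7 := (div_left_inj' hχ1).mp h3
    have h8 : (Nat.card G : ℂ) * ∑ n : N, (χ : G → ℂ) n * conj ((χ : G → ℂ) n) = Nat.card G * Nat.card N := by
      rw [h7]; ring
    exact mul_left_cancel₀ hG0 h8
  have h3 : classInner (fun n : N => (χ : G → ℂ) n) (fun n : N => (χ : G → ℂ) n) = 1 := by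
    rw [classInner_def, h2, inv_mul_cancel₀ hN0]
  have h4 : IsIrrCharacter N (fun n : N => (χ : G → ℂ) n) :=
    isIrrCharacter_iff_inner.mpr ⟨isCharacter_restrict N (irr_isCharacter χ), h3⟩
  obtain ⟨η, hη⟩ : ∃ η : IrrCharacter N, (η : N → ℂ) = fun n : N => (χ : G → ℂ) n := ⟨⟨_, h4⟩, rfl⟩
  rw [← hη] at hover
  have h5 : η = θ := by
    by_contra hne
    exact hover (classInner_irr_ne hne)
  rw [← h5, hη]

theorem iso_unique (hM : IsPModular p M) (hidx : ¬ p ∣ N.index) (P : Sylow p G) (hPN : (P : Subgroup G) ≤ N)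
    (hsup : N ⊔ Subgroup.centralizer ((P : Subgroup G) : Set G) = ⊤) {θ : IrrCharacter N} (hθ : θ ∈ principalBlock M N)
    {χ ψ : IrrCharacter G} (hχ : χ ∈ principalBlock M G) (hover : classInner (fun n : N => (χ : G → ℂ) n) (θ : N → ℂ) ≠ 0)
    (hψ : ψ ∈ principalBlock M G) (hover' : classInner (fun n : N => (ψ : G → ℂ) n) (θ : N → ℂ) ≠ 0) : χ = ψ := by
  classical
  have hN0 : (Nat.card N : ℂ) ≠ 0 := by exact_mod_cast Nat.card_pos.ne'
  have hd : (χ : G → ℂ) 1 = (ψ : G → ℂ) 1 := by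
    have h1 := iso_main hM hidx P hPN hsup hθ hχ hover 1
    have h2 := iso_main hM hidx P hPN hsup hθ hψ hover' 1
    have h3 : (χ : G → ℂ) 1 = (θ : N → ℂ) 1 := h1
    have h4 : (ψ : G → ℂ) 1 = (θ : N → ℂ) 1 := h2
    rw [h3, h4]
  apply Subtype.ext
  funext b
  obtain ⟨s, hs⟩ := iso_val hM hidx P hPN hsup hθ b
  have h3 := hs χ hχ hover (gof 1)
  have h4 := hs ψ hψ hover' (gof 1)
  rw [gof_one, one_mul, lin_sgm, ← gof_one, lin_single, one_mul] at h3 h4
  rw [hd, ← h4] at h3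
  exact mul_left_cancel₀ hN0 h3

theorem principal_exists_over (hM : IsPModular p M) {θ : IrrCharacter N} (hθ : θ ∈ principalBlock M N) :
    ∃ χ ∈ principalBlock M G, classInner (fun n : N => ((χ : IrrCharacter G) : G → ℂ) n) (θ : N → ℂ) ≠ 0 := by
  have h1 : classInner (fun n : N => (oneC G : G → ℂ) n) (oneC N : N → ℂ) ≠ 0 := by
    have e : (fun n : N => (oneC G : G → ℂ) n) = (oneC N : N → ℂ) := by
      funext n; rw [oneC_apply, oneC_apply]
    rw [e, classInner_irr_self]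
    exact one_ne_zero
  have hc : Cov N (principalBlock M G) (principalBlock M N) := cov_of (oneC_mem hM) (oneC_mem hM) h1
  have h2 := (cov_iff' principal_isPBlock principal_isPBlock).mp hc
  exact exists_cov_char principal_isPBlock principal_isPBlock h2 hθ

end nn

end Cfsg.Agent.H5
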