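import Cfsg.Agent.H5.W37
import Cfsg.Agent.H5.Sect4
import Cfsg.Agent.H5.K1

set_option autoImplicit false
set_option linter.style.haveILetI false
set_option linter.unusedVariables false
set_option linter.unusedSectionVars false
set_option linter.unusedSimpArgs false

/-! Averages of 2-contributions. -/

namespace Cfsg.Agent.H5

open Cfsg
open scoped ComplexConjugate

universe u v w

/-- The average of the odd powers of a root of unity. -/
noncomputable def sZ (w : ℂ) : ℤ := by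
  classical exact if w = 1 then 1 else if w = -1 then -1 else 0

theorem sZ_one : sZ 1 = 1 := by
  classical
  unfold sZ
  rw [if_pos rfl]

theorem sZ_conj (w : ℂ) : sZ (conj w) = sZ w := by
  classical
  unfold sZ
  have h1 : conj w = 1 ↔ w = 1 := by
    constructor
    · intro h; rw [← Complex.conj_conj w, h, map_one]
    · intro h; rw [h, map_one]
  have h2 : conj w = -1 ↔ w = -1 := by
    constructor
    · intro h; rw [← Complex.conj_conj w, h, map_neg, map_one]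
    · intro h; rw [h, map_neg, map_one]
  simp only [h1, h2]

theorem sum_odd_pow {j : ℕ} {w : ℂ} (hw : w ^ (2 ^ (j + 1)) = 1) :
    ∑ i ∈ Finset.range (2 ^ j), w ^ (2 * i + 1) = ((2 ^ j : ℕ) : ℂ) * (sZ w : ℂ) := by
  classical
  have h1 : ∑ i ∈ Finset.range (2 ^ j), w ^ (2 * i + 1) = w * ∑ i ∈ Finset.range (2 ^ j), (w ^ 2) ^ i := by
    rw [Finset.mul_sum]
    refine Finset.sum_congr rfl fun i _ => ?_
    rw [pow_succ, pow_mul, mul_comm]
  rw [h1]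
  by_cases h2 : w ^ 2 = 1
  · rw [h2]
    simp only [one_pow]
    rw [Finset.sum_const, Finset.card_range, nsmul_eq_mul, mul_one, mul_comm]
    congr 1
    rcases (sq_eq_sq_iff_eq_or_eq_neg (a := w) (b := 1)).mp (by rw [h2]; norm_num) with h | h
    · rw [h, sZ_one]; simp
    · unfold sZ
      rw [if_neg (by rw [h]; norm_num), if_pos h, h]
      simp
  · have h3 : ∑ i ∈ Finset.range (2 ^ j), (w ^ 2) ^ i = 0 := by
      rw [geom_sum_eq h2, ← pow_mul, ← pow_succ', hw, sub_self, zero_div]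
    have h4 : sZ w = 0 := by
      unfold sZ
      rw [if_neg, if_neg]
      · intro h; apply h2; rw [h]; norm_num
      · intro h; apply h2; rw [h]; norm_num
    rw [h3, h4]; simp

theorem centralizer_pow_odd {G : Type u} [Group G] [Finite G] {x : G} {k : ℕ} (hk : k.Coprime (orderOf x)) :
    Subgroup.centralizer ({x ^ k} : Set G) = Subgroup.centralizer ({x} : Set G) := by
  ext y
  rw [Subgroup.mem_centralizer_singleton_iff, Subgroup.mem_centralizer_singleton_iff]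
  constructor
  · intro h
    have h1 : Commute y (x ^ k) := h
    obtain ⟨m, hm⟩ := exists_pow_eq_self_of_coprime hk
    have h2 : Commute y ((x ^ k) ^ m) := h1.pow_right m
    rw [hm] at h2
    exact h2
  · intro h
    have h1 : Commute y x := h
    exact h1.pow_right k

section
variable {G : Type u} [Group G] [Fintype G] {M : Ideal AlgInt} [hM' : M.IsPrime]

/-- Multiplicity in the restriction. -/
noncomputable def nmu {C : Subgroup G} [Fintype C] (χ : IrrCharacter G) (η : IrrCharacter C) : ℕ :=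
  (IsCharacter.inner_nat (isCharacter_restrict C (irr_isCharacter χ)) η).choose

theorem nmu_spec {C : Subgroup G} [Fintype C] (χ : IrrCharacter G) (η : IrrCharacter C) :
    classInner (fun c : C => (χ : G → ℂ) c) (η : C → ℂ) = (nmu χ η : ℂ) :=
  (IsCharacter.inner_nat (isCharacter_restrict C (irr_isCharacter χ)) η).choose_spec

/-- The integral average of the contribution. -/
noncomputable def aZ {C : Subgroup G} [Fintype C] {x : G} (hxC : x ∈ C) (b : Set (IrrCharacter C)) (χ : IrrCharacter G) : ℤ :=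
  ∑ η ∈ bF b, ∑ ξ ∈ bF b, (nmu χ η : ℤ) * (nmu χ ξ : ℤ) * cm 2 b η ξ *
    sZ (cv (⟨x, hxC⟩ : C) (η : C → ℂ) * conj (cv (⟨x, hxC⟩ : C) (ξ : C → ℂ)))

theorem mcon_pow_eq {p : ℕ} (hM : IsPModular p M) {x : G} {C : Subgroup G} [Fintype C] (hxC : x ∈ C)
    (hcomm : ∀ h : C, Commute x (h : G)) (χ : IrrCharacter G) {b : Set (IrrCharacter C)} (hb : IsPBlock M b)
    (k : ℕ) : mcon p (x ^ k) b (χ : G → ℂ) (χ : G → ℂ) = ∑ η ∈ bF b, ∑ ξ ∈ bF b,
    (nmu χ η : ℂ) * (nmu χ ξ : ℂ) * (cm p b η ξ : ℂ) *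
    (cv (⟨x, hxC⟩ : C) (η : C → ℂ) * conj (cv (⟨x, hxC⟩ : C) (ξ : C → ℂ))) ^ k := by
  have hcomm' : ∀ h : C, Commute (⟨x, hxC⟩ : C) h := fun h => Subtype.ext (hcomm h).eq
  have hxkC : x ^ k ∈ C := C.pow_mem hxC k
  have hcommk : ∀ h : C, Commute (x ^ k) (h : G) := fun h => (hcomm h).pow_left k
  rw [mcon_eq_sum hM hxkC hcommk (IsCharacter.classFun (irr_isCharacter χ)) (IsCharacter.classFun (irr_isCharacter χ)) hb]
  refine Finset.sum_congr rfl fun η _ => ?_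
  refine Finset.sum_congr rfl fun ξ _ => ?_
  have hpow : ∀ ζ : IrrCharacter C, cv (⟨x ^ k, hxkC⟩ : C) (ζ : C → ℂ) = cv (⟨x, hxC⟩ : C) (ζ : C → ℂ) ^ k := by
    intro ζ
    have h1 := cv_pow hcomm' ζ k
    have h2 : (⟨x, hxC⟩ : C) ^ k = ⟨x ^ k, hxkC⟩ := rfl
    rw [h2] at h1
    have h3 : (ζ : C → ℂ) 1 ≠ 0 := IsIrr.one_ne_zero ζ.2
    unfold cv at h1 ⊢
    rw [h1]; field_simp
  rw [nmu_spec, nmu_spec, Complex.conj_natCast, hpow, hpow, map_pow, mul_pow]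
  ring

theorem sum_mcon_pow (hM : IsPModular 2 M) {x : G} {j : ℕ} (hj : orderOf x = 2 ^ j) {C : Subgroup G} [Fintype C] (hxC : x ∈ C)
    (hcomm : ∀ h : C, Commute x (h : G)) (χ : IrrCharacter G) {b : Set (IrrCharacter C)} (hb : IsPBlock M b) :
    ∑ i ∈ Finset.range (2 ^ j), mcon 2 (x ^ (2 * i + 1)) b (χ : G → ℂ) (χ : G → ℂ) = ((2 ^ j : ℕ) : ℂ) * (aZ hxC b χ : ℂ) := by
  classical
  have hcomm' : ∀ h : C, Commute (⟨x, hxC⟩ : C) h := fun h => Subtype.ext (hcomm h).eq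
  have hx1 : (⟨x, hxC⟩ : C) ^ (2 ^ (j + 1)) = 1 := by
    apply Subtype.ext
    show x ^ (2 ^ (j + 1)) = 1
    rw [pow_succ, pow_mul, ← hj, pow_orderOf_eq_one, one_pow]
  have hw : ∀ η ξ : IrrCharacter C, (cv (⟨x, hxC⟩ : C) (η : C → ℂ) * conj (cv (⟨x, hxC⟩ : C) (ξ : C → ℂ))) ^ (2 ^ (j + 1)) = 1 := by
    intro η ξ
    rw [mul_pow, ← map_pow, cv_pow_eq_one hcomm' η hx1, cv_pow_eq_one hcomm' ξ hx1, map_one, mul_one]
  rw [Finset.sum_congr rfl (fun i _ => mcon_pow_eq hM hxC hcomm χ hb (2 * i + 1))]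
  rw [Finset.sum_comm]
  unfold aZ
  push_cast
  rw [Finset.mul_sum]
  refine Finset.sum_congr rfl fun η _ => ?_
  rw [Finset.sum_comm, Finset.mul_sum]
  refine Finset.sum_congr rfl fun ξ _ => ?_
  rw [← Finset.mul_sum, sum_odd_pow (hw η ξ)]
  push_cast
  ring

theorem aZ_congr (hM : IsPModular 2 M) {x : G} {j : ℕ} (hj : orderOf x = 2 ^ j) {C : Subgroup G} [Fintype C] (hxC : x ∈ C)
    (hcomm : ∀ h : C, Commute x (h : G)) (χ : IrrCharacter G) {b : Set (IrrCharacter C)} (hb : IsPBlock M b) :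
    MemLocalIdeal M (mcon 2 x b (χ : G → ℂ) (χ : G → ℂ) - (aZ hxC b χ : ℂ)) := by
  classical
  have hchar : CharP (KK M) 2 := charP_KK hM
  have hcomm' : ∀ h : C, Commute (⟨x, hxC⟩ : C) h := fun h => Subtype.ext (hcomm h).eq
  have hx1 : (⟨x, hxC⟩ : C) ^ (2 ^ (j + 1)) = 1 := by
    apply Subtype.ext
    show x ^ (2 ^ (j + 1)) = 1
    rw [pow_succ, pow_mul, ← hj, pow_orderOf_eq_one, one_pow]
  obtain ⟨n, hn⟩ : ∃ n : IrrCharacter C → ℕ, n = fun η => nmu χ η := ⟨_, rfl⟩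
  obtain ⟨w, hw⟩ : ∃ w : IrrCharacter C → IrrCharacter C → ℂ, w = fun (η ξ : IrrCharacter C) => cv (⟨x, hxC⟩ : C) (η : C → ℂ) * conj (cv (⟨x, hxC⟩ : C) (ξ : C → ℂ)) := ⟨_, rfl⟩
  have hw1 : ∀ η ξ : IrrCharacter C, w η ξ ^ (2 ^ (j + 1)) = 1 := by
    intro η ξ
    rw [hw]
    show (cv (⟨x, hxC⟩ : C) (η : C → ℂ) * conj (cv (⟨x, hxC⟩ : C) (ξ : C → ℂ))) ^ (2 ^ (j + 1)) = 1
    rw [mul_pow, ← map_pow, cv_pow_eq_one hcomm' η hx1, cv_pow_eq_one hcomm' ξ hx1, map_one, mul_one]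
  have hwI : ∀ η ξ, MemLocalIdeal M (w η ξ - 1) := fun η ξ => memLocI_rootOfUnity_sub_one hM (hw1 η ξ)
  have hwR : ∀ η ξ, MemLocalRing M (w η ξ) := by
    intro η ξ
    have h1 := memLocR_add (memLocI_imp (hwI η ξ)) memLocR_one
    rwa [sub_add_cancel] at h1
  have hdiag : ∀ η, w η η = 1 := by
    intro η
    have h1 : ‖cv (⟨x, hxC⟩ : C) (η : C → ℂ)‖ = 1 :=
      Complex.norm_eq_one_of_pow_eq_one (cv_pow_eq_one hcomm' η hx1) (by positivity)
    rw [hw]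
    show cv (⟨x, hxC⟩ : C) (η : C → ℂ) * conj (cv (⟨x, hxC⟩ : C) (η : C → ℂ)) = 1
    rw [Complex.mul_conj, Complex.normSq_eq_norm_sq, h1]
    norm_num
  have hconj : ∀ η ξ, w ξ η = conj (w η ξ) := by
    intro η ξ
    rw [hw]
    show cv (⟨x, hxC⟩ : C) (ξ : C → ℂ) * conj (cv (⟨x, hxC⟩ : C) (η : C → ℂ)) =
      conj (cv (⟨x, hxC⟩ : C) (η : C → ℂ) * conj (cv (⟨x, hxC⟩ : C) (ξ : C → ℂ)))
    rw [map_mul, Complex.conj_conj, mul_comm]
  have h1 := mcon_pow_eq hM hxC hcomm χ hb 1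
  rw [pow_one] at h1
  simp only [pow_one] at h1
  have h2 : mcon 2 x b (χ : G → ℂ) (χ : G → ℂ) - (aZ hxC b χ : ℂ) =
      ∑ q ∈ (bF b) ×ˢ (bF b), (n q.1 : ℂ) * (n q.2 : ℂ) * (cm 2 b q.1 q.2 : ℂ) * (w q.1 q.2 - (sZ (w q.1 q.2) : ℂ)) := by
    rw [h1]
    unfold aZ
    push_cast
    rw [← Finset.sum_sub_distrib, Finset.sum_product]
    refine Finset.sum_congr rfl fun η _ => ?_
    rw [← Finset.sum_sub_distrib]
    refine Finset.sum_congr rfl fun ξ _ => ?_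
    simp only [hn, hw]
    ring
  have hfR : ∀ q ∈ (bF b) ×ˢ (bF b), MemLocalRing M ((n q.1 : ℂ) * (n q.2 : ℂ) * (cm 2 b q.1 q.2 : ℂ) * (w q.1 q.2 - (sZ (w q.1 q.2) : ℂ))) := by
    intro q _
    exact memLocR_mul (memLocR_mul (memLocR_mul (memLocR_natCast _) (memLocR_natCast _)) (memLocR_intCast _))
      (memLocR_sub (hwR _ _) (memLocR_intCast _))
  rw [h2, ← red_eq_zero_iff (memLocR_sum _ _ hfR), red_sum _ _ hfR]
  have hval : ∀ q ∈ (bF b) ×ˢ (bF b), red M ((n q.1 : ℂ) * (n q.2 : ℂ) * (cm 2 b q.1 q.2 : ℂ) * (w q.1 q.2 - (sZ (w q.1 q.2) : ℂ))) =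
      red M ((n q.1 : ℂ) * (n q.2 : ℂ) * (cm 2 b q.1 q.2 : ℂ)) * (1 - red M (sZ (w q.1 q.2) : ℂ)) := by
    intro q _
    rw [red_mul (memLocR_mul (memLocR_mul (memLocR_natCast _) (memLocR_natCast _)) (memLocR_intCast _))
      (memLocR_sub (hwR _ _) (memLocR_intCast _)), red_sub (hwR _ _) (memLocR_intCast _)]
    congr 2
    rw [← red_one (M := M), red_eq_iff (hwR _ _) memLocR_one]
    exact hwI _ _
  rw [Finset.sum_congr rfl hval]
  apply Finset.sum_involution (fun q _ => (q.2, q.1))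
  · rintro ⟨η, ξ⟩ hq
    rw [Finset.mem_product] at hq
    simp only
    have e1 : (cm 2 b ξ η : ℂ) = (cm 2 b η ξ : ℂ) := by
      rw [cm_symm hM (mem_bF.mp hq.2) (mem_bF.mp hq.1)]
    have e2 : sZ (w ξ η) = sZ (w η ξ) := by rw [hconj η ξ, sZ_conj]
    rw [e1, e2, mul_comm (n ξ : ℂ) (n η : ℂ)]
    exact CharTwo.add_self_eq_zero _
  · rintro ⟨η, ξ⟩ hq hne heq
    simp only [Prod.mk.injEq] at heq
    obtain ⟨h3, -⟩ := heq
    subst h3
    apply hne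
    simp only
    rw [hdiag, sZ_one, Int.cast_one, red_one, sub_self, mul_zero]
  · rintro ⟨η, ξ⟩ hq
    rw [Finset.mem_product] at hq ⊢
    exact ⟨hq.2, hq.1⟩
  · rintro ⟨η, ξ⟩ hq
    rfl

theorem aZ_odd (hM : IsPModular 2 M) {x : G} {j : ℕ} (hj : orderOf x = 2 ^ j) {C : Subgroup G} [Fintype C] (hxC : x ∈ C)
    (hcomm : ∀ h : C, Commute x (h : G)) {b : Set (IrrCharacter C)} {B : Set (IrrCharacter G)}
    (hb : IsInducedBlock M C b B) {χ : IrrCharacter G} (hχ : χ ∈ bZ 2 B) : Odd (aZ hxC b χ) := by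
  rw [mem_bZ] at hχ
  rw [← Int.not_even_iff_odd, even_iff_two_dvd]
  intro h
  have h1 := aZ_congr hM hj hxC hcomm χ hb.1
  have h2 : MemLocalIdeal M ((aZ hxC b χ : ℤ) : ℂ) := (memLocI_intCast_iff hM _).mpr (by exact_mod_cast h)
  have h3 := memLocI_add h1 h2
  rw [sub_add_cancel] at h3
  exact mcon_not_memLocI hM ⟨j, hj⟩ hxC hcomm hb hχ.1 hχ.1 hχ.2 hχ.2 h3

theorem odd_cop {j : ℕ} (i : ℕ) : (2 * i + 1).Coprime (2 ^ j) := by
  apply Nat.Coprime.pow_right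
  rw [Nat.coprime_two_right]
  exact ⟨i, rfl⟩

theorem aZ_bound (hM : IsPModular 2 M) {x : G} {j : ℕ} (hj : orderOf x = 2 ^ j) {C : Subgroup G}
    (hC : C = Subgroup.centralizer ({x} : Set G)) [Fintype C] {b : Set (IrrCharacter C)} {B : Set (IrrCharacter G)}
    (hB : IsPBlock M B) (hb : IsInducedBlock M C b B) (T : Finset (IrrCharacter G)) (hT : T ⊆ bF B) {χ : IrrCharacter G}
    (hne : ∀ ψ ∈ T, ∀ i : ℕ, mcon 2 (x ^ (2 * i + 1)) b (χ : G → ℂ) ((ψ : IrrCharacter G) : G → ℂ) ≠ 0) :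
    (T.card : ℤ) ≤ 2 ^ blockDefect 2 b * aZ (mem_of_eq hC) b χ := by
  classical
  have hcomm := hcomm_of_eq hC
  have hxC := mem_of_eq hC
  have hG : Nat.card G ≠ 0 := Nat.card_pos.ne'
  have hxi : ∀ i : ℕ, ∃ k : ℕ, orderOf (x ^ (2 * i + 1)) = 2 ^ k := by
    intro i
    refine ⟨j, ?_⟩
    rw [Nat.Coprime.orderOf_pow (by rw [hj]; exact (odd_cop i).symm), hj]
  have hCi : ∀ i : ℕ, C = Subgroup.centralizer ({x ^ (2 * i + 1)} : Set G) := by
    intro i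
    rw [centralizer_pow_odd (by rw [hj]; exact odd_cop i), hC]
  set s := ((Finset.range (2 ^ j)) ×ˢ (bF B)).filter (fun q => mcon 2 (x ^ (2 * q.1 + 1)) b (χ : G → ℂ) (q.2 : G → ℂ) ≠ 0) with hs
  have hsum : ∑ q ∈ s, mcon 2 (x ^ (2 * q.1 + 1)) b (χ : G → ℂ) (q.2 : G → ℂ) * conj (mcon 2 (x ^ (2 * q.1 + 1)) b (χ : G → ℂ) (q.2 : G → ℂ)) =
      (((2 ^ blockDefect 2 b * (2 ^ j * aZ hxC b χ) : ℤ) : ℚ) : ℂ) := by
    rw [hs, Finset.sum_filter_of_ne]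
    · rw [Finset.sum_product]
      rw [Finset.sum_congr rfl (fun i _ => sum_mcon_sq hM hB (hxi i) (hCi i) hb χ), ← Finset.mul_sum,
        sum_mcon_pow hM hj hxC hcomm χ hb.1]
      push_cast
      ring
    · intro q _ hq h0
      apply hq
      rw [h0, zero_mul]
  have h1 := card_le_of_sum_normSq hG s (fun q => mcon 2 (x ^ (2 * q.1 + 1)) b (χ : G → ℂ) (q.2 : G → ℂ))
    (fun q _ => mcon_mem_cyF hM (mem_of_eq (hCi q.1)) (hcomm_of_eq (hCi q.1)) (irr_isCharacter χ) (irr_isCharacter q.2) hb.1)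
    (fun q _ => mcon_integral hM (mem_of_eq (hCi q.1)) (hcomm_of_eq (hCi q.1)) (irr_isCharacter χ) (irr_isCharacter q.2) hb.1)
    (fun q hq => (Finset.mem_filter.mp hq).2) hsum
  have h2 : (Finset.range (2 ^ j)) ×ˢ T ⊆ s := by
    intro q hq
    rw [Finset.mem_product] at hq
    rw [hs, Finset.mem_filter, Finset.mem_product]
    exact ⟨⟨hq.1, hT hq.2⟩, hne _ hq.2 _⟩
  have h3 := Finset.card_le_card h2
  rw [Finset.card_product, Finset.card_range] at h3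
  have h4 : (s.card : ℤ) ≤ 2 ^ blockDefect 2 b * (2 ^ j * aZ hxC b χ) := by exact_mod_cast h1
  have h5 : ((2 ^ j : ℕ) : ℤ) * (T.card : ℤ) ≤ (2 ^ j : ℤ) * (2 ^ blockDefect 2 b * aZ hxC b χ) := by
    calc ((2 ^ j : ℕ) : ℤ) * (T.card : ℤ) = ((2 ^ j * T.card : ℕ) : ℤ) := by push_cast; ring
      _ ≤ (s.card : ℤ) := by exact_mod_cast h3
      _ ≤ _ := h4
      _ = _ := by ring
  push_cast at h5
  exact le_of_mul_le_mul_left h5 (by positivity)

theorem mcon_self_real {p : ℕ} (x : G) {C : Subgroup G} [Fintype C] (b : Set (IrrCharacter C)) (χ : IrrCharacter G) :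
    ∃ r : ℝ, 0 ≤ r ∧ mcon p x b (χ : G → ℂ) (χ : G → ℂ) = (r : ℂ) := by
  refine ⟨(p ^ blockDefect p b : ℕ) * ∑ η ∈ bF b, Complex.normSq (ar p x (χ : G → ℂ) (η : C → ℂ)), ?_, ?_⟩
  · exact mul_nonneg (Nat.cast_nonneg _) (Finset.sum_nonneg fun _ _ => Complex.normSq_nonneg _)
  · unfold mcon con
    push_cast
    congr 1
    refine Finset.sum_congr rfl fun η _ => ?_
    rw [Complex.mul_conj]

theorem aZ_nonneg (hM : IsPModular 2 M) {x : G} {j : ℕ} (hj : orderOf x = 2 ^ j) {C : Subgroup G} [Fintype C] (hxC : x ∈ C)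
    (hcomm : ∀ h : C, Commute x (h : G)) (χ : IrrCharacter G) {b : Set (IrrCharacter C)} (hb : IsPBlock M b) :
    0 ≤ aZ hxC b χ := by
  have h1 := sum_mcon_pow hM hj hxC hcomm χ hb
  have h2 : ∃ r : ℝ, 0 ≤ r ∧ ∑ i ∈ Finset.range (2 ^ j), mcon 2 (x ^ (2 * i + 1)) b (χ : G → ℂ) (χ : G → ℂ) = (r : ℂ) := by
    choose r hr1 hr2 using fun i : ℕ => mcon_self_real (p := 2) (x ^ (2 * i + 1)) b χ
    refine ⟨∑ i ∈ Finset.range (2 ^ j), r i, Finset.sum_nonneg fun i _ => hr1 i, ?_⟩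
    rw [Finset.sum_congr rfl (fun i _ => hr2 i)]
    push_cast
    rfl
  obtain ⟨r, hr, h3⟩ := h2
  rw [h3] at h1
  have h4 : r = (2 ^ j : ℝ) * (aZ hxC b χ : ℝ) := by
    have : (r : ℂ) = (((2 ^ j : ℝ) * (aZ hxC b χ : ℝ) : ℝ) : ℂ) := by rw [h1]; push_cast; ring
    exact_mod_cast this
  rw [h4] at hr
  have h5 : (0 : ℝ) ≤ (aZ hxC b χ : ℝ) := by
    by_contra hneg
    push Not at hneg
    have : (2 ^ j : ℝ) * (aZ hxC b χ : ℝ) < 0 := mul_neg_of_pos_of_neg (by positivity) hneg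
    linarith
  exact_mod_cast h5

theorem sum_aZ (hM : IsPModular 2 M) {x : G} {j : ℕ} (hj : orderOf x = 2 ^ j) {C : Subgroup G}
    (hC : C = Subgroup.centralizer ({x} : Set G)) [Fintype C] {b : Set (IrrCharacter C)} {B : Set (IrrCharacter G)}
    (hB : IsPBlock M B) (hb : IsInducedBlock M C b B) :
    ∑ χ ∈ bF B, aZ (mem_of_eq hC) b χ = 2 ^ blockDefect 2 b * blockRank 2 b := by
  classical
  have hcomm := hcomm_of_eq hC
  have hxC := mem_of_eq hC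
  have hxi : ∀ i : ℕ, ∃ k : ℕ, orderOf (x ^ (2 * i + 1)) = 2 ^ k := by
    intro i
    refine ⟨j, ?_⟩
    rw [Nat.Coprime.orderOf_pow (by rw [hj]; exact (odd_cop i).symm), hj]
  have hCi : ∀ i : ℕ, C = Subgroup.centralizer ({x ^ (2 * i + 1)} : Set G) := by
    intro i
    rw [centralizer_pow_odd (by rw [hj]; exact odd_cop i), hC]
  have h1 : ∑ i ∈ Finset.range (2 ^ j), ∑ χ ∈ bF B, mcon 2 (x ^ (2 * i + 1)) b (χ : G → ℂ) (χ : G → ℂ) =
      ((2 ^ j : ℕ) : ℂ) * (((2 ^ blockDefect 2 b : ℕ) : ℂ) * (blockRank 2 b : ℂ)) := by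
    have h2 : ∀ i ∈ Finset.range (2 ^ j), ∑ χ ∈ bF B, mcon 2 (x ^ (2 * i + 1)) b (χ : G → ℂ) (χ : G → ℂ) =
        ((2 ^ blockDefect 2 b : ℕ) : ℂ) * (blockRank 2 b : ℂ) := by
      intro i _
      unfold mcon
      rw [← Finset.mul_sum, con_trace hM hB (hxi i) (hCi i) hb]
    rw [Finset.sum_congr rfl h2, Finset.sum_const, Finset.card_range, nsmul_eq_mul]
  rw [Finset.sum_comm, Finset.sum_congr rfl (fun χ _ => sum_mcon_pow hM hj hxC hcomm χ hb.1), ← Finset.mul_sum] at h1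
  have h3 : ((2 ^ j : ℕ) : ℂ) ≠ 0 := by exact_mod_cast (pow_pos (by norm_num : 0 < 2) j).ne'
  have h4 := mul_left_cancel₀ h3 h1
  have h5 : ((∑ χ ∈ bF B, aZ hxC b χ : ℤ) : ℂ) = ((2 ^ blockDefect 2 b * (blockRank 2 b : ℤ) : ℤ) : ℂ) := by
    push_cast
    push_cast at h4
    exact h4
  exact_mod_cast h5

theorem k0_odd (hM : IsPModular 2 M) {x : G} {j : ℕ} (hj : orderOf x = 2 ^ j) {C : Subgroup G}
    (hC : C = Subgroup.centralizer ({x} : Set G)) [Fintype C] {b : Set (IrrCharacter C)} {B : Set (IrrCharacter G)}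
    (hB : IsPBlock M B) (hb : IsInducedBlock M C b B) :
    ∃ a : ℕ, Odd a ∧ (bZ 2 B).card ≤ 2 ^ blockDefect 2 b * a ∧ (bZ 2 B).card * a ≤ 2 ^ blockDefect 2 b * blockRank 2 b := by
  classical
  have hcomm := hcomm_of_eq hC
  have hxC := mem_of_eq hC
  have hxi : ∀ i : ℕ, ∃ k : ℕ, orderOf (x ^ (2 * i + 1)) = 2 ^ k := by
    intro i
    refine ⟨j, ?_⟩
    rw [Nat.Coprime.orderOf_pow (by rw [hj]; exact (odd_cop i).symm), hj]
  have hCi : ∀ i : ℕ, C = Subgroup.centralizer ({x ^ (2 * i + 1)} : Set G) := by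
    intro i
    rw [centralizer_pow_odd (by rw [hj]; exact odd_cop i), hC]
  have hbZ : bZ 2 B ⊆ bF B := by
    intro χ hχ
    rw [mem_bZ] at hχ
    exact mem_bF.mpr hχ.1
  have hnonempty : (bZ 2 B).Nonempty := by
    obtain ⟨χ, hχ, h0⟩ := exists_height_zero (p := 2) hM hB
    exact ⟨χ, mem_bZ.mpr ⟨hχ, h0⟩⟩
  obtain ⟨χ₀, hχ₀, hmin⟩ := Finset.exists_min_image (bZ 2 B) (fun χ => aZ hxC b χ) hnonempty
  have h0 := aZ_nonneg hM hj hxC hcomm χ₀ hb.1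
  obtain ⟨a, ha⟩ := Int.eq_ofNat_of_zero_le h0
  have hodd := aZ_odd hM hj hxC hcomm hb hχ₀
  refine ⟨a, ?_, ?_, ?_⟩
  · rw [ha] at hodd
    exact_mod_cast hodd
  · have h1 := aZ_bound hM hj hC hB hb (bZ 2 B) hbZ (χ := χ₀) (by
      intro ψ hψ i h2
      rw [mem_bZ] at hψ
      have h3 := mcon_not_memLocI hM (hxi i) (mem_of_eq (hCi i)) (hcomm_of_eq (hCi i)) hb (mem_bZ.mp hχ₀).1 hψ.1 (mem_bZ.mp hχ₀).2 hψ.2
      rw [h2] at h3
      exact h3 memLocI_zero)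
    rw [ha] at h1
    exact_mod_cast h1
  · have h1 : ((bZ 2 B).card : ℤ) * (a : ℤ) ≤ ∑ χ ∈ bZ 2 B, aZ hxC b χ := by
      rw [← nsmul_eq_mul]
      apply Finset.card_nsmul_le_sum
      intro χ hχ
      have h2 : aZ hxC b χ₀ ≤ aZ hxC b χ := hmin χ hχ
      rw [ha] at h2
      exact h2
    have h2 : ∑ χ ∈ bZ 2 B, aZ hxC b χ ≤ ∑ χ ∈ bF B, aZ hxC b χ :=
      Finset.sum_le_sum_of_subset_of_nonneg hbZ fun χ _ _ => aZ_nonneg hM hj hxC hcomm χ hb.1
    rw [sum_aZ hM hj hC hB hb] at h2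
    have h3 := h1.trans h2
    exact_mod_cast h3

end

end Cfsg.Agent.H5
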