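import Cfsg.Agent.H5.W52

set_option autoImplicit false
set_option linter.style.haveILetI false
set_option linter.unusedVariables false
set_option linter.unusedSectionVars false
set_option linter.unusedSimpArgs false

/-! Integers of the field of 2-power roots of unity. -/

namespace Cfsg.Agent.H5

open Cfsg
open scoped ComplexConjugate

universe u v w

section rlem
variable {M : Ideal AlgInt} [hM' : M.IsPrime]

theorem pi_pow (hM : IsPModular 2 M) {m : ℕ} {ζ : ℂ} (hζ : ζ ^ (2 ^ m) = -1) :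
    MemLocalIdeal M (ζ - 1) ∧ ∃ u : ℂ, MemLocalRing M u ∧ (2 : ℂ) = (ζ - 1) ^ (2 ^ m) * u := by
  have hpi : MemLocalIdeal M (ζ - 1) := by
    apply memLocI_rootOfUnity_sub_one (p := 2) hM (k := m + 1)
    rw [pow_succ, pow_mul, hζ]; norm_num
  refine ⟨hpi, ?_⟩
  have hint : IsIntegral ℤ ζ := IsIntegral.of_pow (n := 2 ^ (m + 1)) (by positivity) (by
    rw [pow_succ, pow_mul, hζ]; norm_num; exact isIntegral_one)
  let z : AlgInt := ⟨ζ, hint⟩
  obtain ⟨r, hr⟩ := exists_add_pow_prime_pow_eq Nat.prime_two (z - 1) 1 m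
  have h1 : (ζ : ℂ) ^ (2 ^ m) = (ζ - 1) ^ (2 ^ m) + 1 + 2 * ((ζ - 1) * (r : ℂ)) := by
    have h2 := congrArg (fun a : AlgInt => (a : ℂ)) hr
    have h3 : ((z - 1 + 1 : AlgInt) : ℂ) = ζ := by rw [sub_add_cancel]
    simp only [one_pow, mul_one] at h2
    push_cast at h2
    have h4 : ((z : AlgInt) : ℂ) = ζ := rfl
    rw [h4] at h2
    rw [sub_add_cancel] at h2
    have h5 : ((2 : AlgInt) : ℂ) = 2 := by
      have h6 : (2 : AlgInt) = 1 + 1 := by norm_num
      rw [h6]; push_cast; norm_num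
    rw [h2, h5]
    ring
  have hR : MemLocalRing M (r : ℂ) := ⟨r, 1, fun h => hM'.ne_top ((Ideal.eq_top_iff_one M).mpr h), by simp⟩
  have hI : MemLocalIdeal M ((ζ - 1) * (r : ℂ)) := by rw [mul_comm]; exact memLocI_mul_left hR hpi
  have hu : ¬ MemLocalIdeal M (1 + (ζ - 1) * (r : ℂ)) := by
    intro h
    have h2 := memLocI_sub h hI
    rw [add_sub_cancel_right] at h2
    exact memLocI_one h2
  have hu0 : 1 + (ζ - 1) * (r : ℂ) ≠ 0 := by
    intro h
    rw [h] at hu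
    exact hu memLocI_zero
  refine ⟨-(1 + (ζ - 1) * (r : ℂ))⁻¹, ?_, ?_⟩
  · rw [← neg_one_mul]
    exact memLocR_mul (by have := memLocR_intCast (M := M) (-1); simpa using this)
      (memLocR_inv (memLocR_add memLocR_one (memLocI_imp hI)) hu)
  · rw [hζ] at h1
    have h2 : (ζ - 1) ^ (2 ^ m) = -(2 * (1 + (ζ - 1) * (r : ℂ))) := by linear_combination -h1
    rw [h2]
    field_simp

theorem coeff_even (hM : IsPModular 2 M) {m : ℕ} {ζ : ℂ} (hζ : ζ ^ (2 ^ m) = -1) {Q : Polynomial ℤ}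
    (hdeg : Q.natDegree < 2 ^ m) (hz : MemLocalRing M (Polynomial.aeval (ζ - 1) Q / 2)) (e : ℕ) : (2 : ℤ) ∣ Q.coeff e := by
  obtain ⟨hpi, u, huR, hu⟩ := pi_pow hM hζ
  have hpi0 : ζ - 1 ≠ 0 := by
    intro h
    rw [sub_eq_zero.mp h] at hζ
    rw [one_pow] at hζ
    norm_num at hζ
  have hpiR := memLocI_imp hpi
  induction e using Nat.strong_induction_on with
  | _ e ih =>
    rcases Nat.lt_or_ge e (2 ^ m) with he | he
    · obtain ⟨Y, hY⟩ : ∃ Y, Y = Polynomial.aeval (ζ - 1) Q / 2 := ⟨_, rfl⟩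
      rw [← hY] at hz
      have h1 : Polynomial.aeval (ζ - 1) Q = ∑ i ∈ Finset.range (2 ^ m), (Q.coeff i : ℂ) * (ζ - 1) ^ i := by
        rw [Polynomial.aeval_eq_sum_range' hdeg]
        refine Finset.sum_congr rfl fun i _ => ?_
        rw [zsmul_eq_mul]
      have h2 : ∑ i ∈ Finset.range (2 ^ m), (Q.coeff i : ℂ) * (ζ - 1) ^ i =
          ∑ i ∈ Finset.range e, (Q.coeff i : ℂ) * (ζ - 1) ^ i + (Q.coeff e : ℂ) * (ζ - 1) ^ e +
            (ζ - 1) ^ (e + 1) * ∑ i ∈ Finset.range (2 ^ m - (e + 1)), (Q.coeff (e + 1 + i) : ℂ) * (ζ - 1) ^ i := by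
        have h3 : 2 ^ m = (e + 1) + (2 ^ m - (e + 1)) := by omega
        conv_lhs => rw [h3]
        rw [Finset.sum_range_add, Finset.sum_range_succ, Finset.mul_sum]
        congr 1
        refine Finset.sum_congr rfl fun i _ => ?_
        rw [pow_add]; ring
      obtain ⟨T, hT⟩ : ∃ T, T = ∑ i ∈ Finset.range (2 ^ m - (e + 1)), (Q.coeff (e + 1 + i) : ℂ) * (ζ - 1) ^ i := ⟨_, rfl⟩
      have hTR : MemLocalRing M T := by
        rw [hT]
        exact memLocR_sum _ _ fun i _ => memLocR_mul (memLocR_intCast _) (memLocR_pow hpiR _)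
      have h4 : ∃ Y', MemLocalRing M Y' ∧ ∑ i ∈ Finset.range e, (Q.coeff i : ℂ) * (ζ - 1) ^ i = 2 * Y' := by
        have h5 : ∀ i, i < e → ∃ c : ℤ, Q.coeff i = 2 * c := fun i hi => ih i hi
        refine ⟨∑ i ∈ Finset.range e, ((Q.coeff i / 2 : ℤ) : ℂ) * (ζ - 1) ^ i, ?_, ?_⟩
        · exact memLocR_sum _ _ fun i _ => memLocR_mul (memLocR_intCast _) (memLocR_pow hpiR _)
        · rw [Finset.mul_sum]
          refine Finset.sum_congr rfl fun i hi => ?_
          obtain ⟨c, hc⟩ := h5 i (Finset.mem_range.mp hi)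
          rw [hc, Int.mul_ediv_cancel_left _ (by norm_num)]
          push_cast; ring
      obtain ⟨Y', hY'R, hY'⟩ := h4
      have h6 : Polynomial.aeval (ζ - 1) Q = 2 * Y := by rw [hY]; ring
      rw [h6, h2, hY', ← hT] at h1
      have hsplit : (ζ - 1) ^ (2 ^ m) = (ζ - 1) ^ (e + 1) * (ζ - 1) ^ (2 ^ m - (e + 1)) := by
        rw [← pow_add]; congr 1; omega
      have h7 : (ζ - 1) ^ e * (Q.coeff e : ℂ) =
          (ζ - 1) ^ e * (((ζ - 1) ^ (2 ^ m - (e + 1)) * u * (Y - Y') - T) * (ζ - 1)) := by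
        have h8 : (Q.coeff e : ℂ) * (ζ - 1) ^ e = 2 * (Y - Y') - (ζ - 1) ^ (e + 1) * T := by linear_combination -h1
        rw [mul_comm, h8, hu, hsplit, pow_succ]
        ring
      have h9 := mul_left_cancel₀ (pow_ne_zero e hpi0) h7
      have h10 : MemLocalIdeal M ((Q.coeff e : ℤ) : ℂ) := by
        rw [h9]
        apply memLocI_mul_left _ hpi
        exact memLocR_sub (memLocR_mul (memLocR_mul (memLocR_pow hpiR _) huR) (memLocR_sub hz hY'R)) hTR
      rw [memLocI_intCast_iff hM] at h10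
      exact_mod_cast h10
    · rw [Polynomial.coeff_eq_zero_of_natDegree_lt (lt_of_lt_of_le hdeg he)]
      exact dvd_zero _

theorem poly_half (hM : IsPModular 2 M) {m : ℕ} {ζ : ℂ} (hζ : ζ ^ (2 ^ m) = -1) {P : Polynomial ℤ}
    (hdeg : P.natDegree < 2 ^ m) (hz : MemLocalRing M (Polynomial.aeval ζ P / 2)) :
    ∃ P' : Polynomial ℤ, P'.natDegree < 2 ^ m ∧ P = Polynomial.C 2 * P' := by
  obtain ⟨Q, hQ⟩ : ∃ Q : Polynomial ℤ, Q = P.comp (Polynomial.X + Polynomial.C 1) := ⟨_, rfl⟩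
  have hQd : Q.natDegree < 2 ^ m := by
    rw [hQ, Polynomial.natDegree_comp, Polynomial.natDegree_X_add_C, mul_one]
    exact hdeg
  have hQz : Polynomial.aeval (ζ - 1) Q = Polynomial.aeval ζ P := by
    rw [hQ, Polynomial.aeval_comp]
    congr 1
    simp
  have h1 := fun e => coeff_even hM hζ hQd (by rw [hQz]; exact hz) e
  have h2 : Polynomial.C 2 ∣ Q := by
    rw [Polynomial.C_dvd_iff_dvd_coeff]
    exact h1
  obtain ⟨Q', hQ'⟩ := h2
  have h3 : P = Polynomial.C 2 * Q'.comp (Polynomial.X - Polynomial.C 1) := by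
    have h4 : P = Q.comp (Polynomial.X - Polynomial.C 1) := by
      rw [hQ, Polynomial.comp_assoc]
      simp
    rw [h4, hQ', Polynomial.mul_comp, Polynomial.C_comp]
  refine ⟨Q'.comp (Polynomial.X - Polynomial.C 1), ?_, h3⟩
  rw [h3, Polynomial.natDegree_C_mul (by norm_num)] at hdeg
  exact hdeg

theorem poly_pow (hM : IsPModular 2 M) {m : ℕ} {ζ : ℂ} (hζ : ζ ^ (2 ^ m) = -1) (h : ℕ) : ∀ {P : Polynomial ℤ},
    P.natDegree < 2 ^ m → MemLocalRing M (Polynomial.aeval ζ P / 2 ^ h) →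
    ∃ P' : Polynomial ℤ, P'.natDegree < 2 ^ m ∧ P = Polynomial.C (2 ^ h) * P' := by
  induction h with
  | zero =>
    intro P hd hz
    exact ⟨P, hd, by simp⟩
  | succ h ih =>
    intro P hd hz
    have h1 : MemLocalRing M (Polynomial.aeval ζ P / 2) := by
      have h2 := memLocR_mul (memLocR_pow (memLocR_natCast (M := M) 2) h) hz
      have e : ((2 : ℕ) : ℂ) ^ h * (Polynomial.aeval ζ P / 2 ^ (h + 1)) = Polynomial.aeval ζ P / 2 := by
        push_cast
        rw [pow_succ]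
        field_simp
      rwa [e] at h2
    obtain ⟨P1, hd1, hP1⟩ := poly_half hM hζ hd h1
    have h2 : MemLocalRing M (Polynomial.aeval ζ P1 / 2 ^ h) := by
      have e : Polynomial.aeval ζ P1 / 2 ^ h = Polynomial.aeval ζ P / 2 ^ (h + 1) := by
        rw [hP1, map_mul, Polynomial.aeval_C, pow_succ]
        simp only [algebraMap_int_eq, eq_intCast, Int.cast_ofNat]
        field_simp
      rw [e]; exact hz
    obtain ⟨P', hd', hP'⟩ := ih hd1 h2
    refine ⟨P', hd', ?_⟩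
    rw [hP1, hP', ← mul_assoc, ← Polynomial.C_mul]
    congr 2
    ring

theorem poly_zero (hM : IsPModular 2 M) {m : ℕ} {ζ : ℂ} (hζ : ζ ^ (2 ^ m) = -1) {P : Polynomial ℤ}
    (hd : P.natDegree < 2 ^ m) (hz : Polynomial.aeval ζ P = 0) : P = 0 := by
  ext e
  rw [Polynomial.coeff_zero]
  by_contra hne
  obtain ⟨h, hh⟩ : ∃ h : ℕ, (P.coeff e).natAbs < 2 ^ h := ⟨_, Nat.lt_two_pow_self⟩
  obtain ⟨P', -, hP'⟩ := poly_pow hM hζ h hd (by rw [hz, zero_div]; exact memLocR_zero)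
  have h1 : (2 : ℤ) ^ h ∣ P.coeff e := by
    rw [hP', Polynomial.coeff_C_mul]
    exact dvd_mul_right _ _
  have h2 := Int.natAbs_dvd_natAbs.mpr h1
  rw [Int.natAbs_pow] at h2
  have h3 := Nat.le_of_dvd (Int.natAbs_pos.mpr hne) h2
  have h4 : (2 : ℤ).natAbs = 2 := rfl
  rw [h4] at h3
  omega

end rlem

end Cfsg.Agent.H5
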