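import Cfsg.Agent.H5.W53

set_option autoImplicit false
set_option linter.style.haveILetI false
set_option linter.unusedVariables false
set_option linter.unusedSectionVars false
set_option linter.unusedSimpArgs false

/-! Divisibility of averaged 2-contributions. -/

namespace Cfsg.Agent.H5

open Cfsg
open scoped ComplexConjugate

universe u v w

section rl
variable {M : Ideal AlgInt} [hM' : M.IsPrime]

theorem prim_neg {m : ℕ} {ζ : ℂ} (hζ : IsPrimitiveRoot ζ (2 ^ (m + 1))) : ζ ^ (2 ^ m) = -1 := by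
  have h1 : (ζ ^ (2 ^ m)) ^ 2 = 1 ^ 2 := by
    rw [← pow_mul, ← pow_succ, hζ.pow_eq_one, one_pow]
  rcases sq_eq_sq_iff_eq_or_eq_neg.mp h1 with h | h
  · exfalso
    have h2 := hζ.dvd_of_pow_eq_one _ h
    have h3 := Nat.le_of_dvd (by positivity) h2
    have h4 : 2 ^ m < 2 ^ (m + 1) := Nat.pow_lt_pow_right (by norm_num) (by omega)
    omega
  · exact h

theorem poly_avg {m : ℕ} {ζ : ℂ} (hζ : IsPrimitiveRoot ζ (2 ^ (m + 1))) {P : Polynomial ℤ} (hd : P.natDegree < 2 ^ m) :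
    ∑ i ∈ Finset.range (2 ^ m), Polynomial.aeval (ζ ^ (2 * i + 1)) P = ((2 ^ m : ℕ) : ℂ) * (P.coeff 0 : ℂ) := by
  have h1 : ∀ i, Polynomial.aeval (ζ ^ (2 * i + 1)) P = ∑ e ∈ Finset.range (2 ^ m), (P.coeff e : ℂ) * (ζ ^ e) ^ (2 * i + 1) := by
    intro i
    rw [Polynomial.aeval_eq_sum_range' hd]
    refine Finset.sum_congr rfl fun e _ => ?_
    rw [zsmul_eq_mul, ← pow_mul, ← pow_mul, mul_comm (2 * i + 1) e]
  rw [Finset.sum_congr rfl (fun i _ => h1 i), Finset.sum_comm, Finset.sum_eq_single 0]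
  · rw [← Finset.mul_sum, pow_zero, sum_odd_pow (by rw [one_pow]), sZ_one]
    push_cast; ring
  · intro e he he0
    rw [← Finset.mul_sum, sum_odd_pow (by rw [← pow_mul, mul_comm, pow_mul, hζ.pow_eq_one, one_pow])]
    have h2 : sZ (ζ ^ e) = 0 := by
      classical
      have he' := Finset.mem_range.mp he
      unfold sZ
      rw [if_neg, if_neg]
      · intro h
        rw [← prim_neg hζ] at h
        have h3 := hζ.pow_inj (by omega) (Nat.pow_lt_pow_right (by norm_num) (by omega)) h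
        omega
      · intro h
        have h3 := Nat.le_of_dvd (by omega) (hζ.dvd_of_pow_eq_one _ h)
        omega
    rw [h2]; simp
  · intro h
    exact absurd (Finset.mem_range.mpr (by positivity)) h

theorem poly_real (hM : IsPModular 2 M) {m : ℕ} {ζ : ℂ} (hζ : IsPrimitiveRoot ζ (2 ^ (m + 1))) {P : Polynomial ℤ} (hd : P.natDegree < 2 ^ m)
    (hreal : conj (Polynomial.aeval ζ P) = Polynomial.aeval ζ P) :
    MemLocalIdeal M (Polynomial.aeval ζ P - (P.coeff 0 : ℂ)) := by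
  classical
  have hneg := prim_neg hζ
  have hnorm : ‖ζ‖ = 1 := Complex.norm_eq_one_of_pow_eq_one hζ.pow_eq_one (by positivity)
  have hζ0 : ζ ≠ 0 := by
    intro h; rw [h, norm_zero] at hnorm; norm_num at hnorm
  have hconj : conj ζ * ζ = 1 := by
    rw [mul_comm, Complex.mul_conj, Complex.normSq_eq_norm_sq, hnorm]; norm_num
  have hN : 0 ∈ Finset.range (2 ^ m) := Finset.mem_range.mpr (by positivity)
  have h1 : Polynomial.aeval ζ P = ∑ e ∈ Finset.range (2 ^ m), (P.coeff e : ℂ) * ζ ^ e := by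
    rw [Polynomial.aeval_eq_sum_range' hd]
    exact Finset.sum_congr rfl fun e _ => by rw [zsmul_eq_mul]
  have h2 : Polynomial.aeval ζ P = (P.coeff 0 : ℂ) + ∑ e ∈ (Finset.range (2 ^ m)).erase 0, (P.coeff e : ℂ) * ζ ^ e := by
    rw [h1, ← Finset.add_sum_erase _ _ hN, pow_zero, mul_one]
  have h3 : conj (Polynomial.aeval ζ P) = (P.coeff 0 : ℂ) - ∑ e ∈ (Finset.range (2 ^ m)).erase 0, (P.coeff e : ℂ) * ζ ^ (2 ^ m - e) := by
    rw [h2, map_add, map_sum, map_intCast, sub_eq_add_neg, ← Finset.sum_neg_distrib]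
    congr 1
    refine Finset.sum_congr rfl fun e he => ?_
    rw [map_mul, map_intCast, map_pow, ← mul_neg]
    congr 1
    rw [Finset.mem_erase, Finset.mem_range] at he
    have h4 : conj ζ ^ e * ζ ^ e = 1 := by rw [← mul_pow, hconj, one_pow]
    have h5 : ζ ^ (2 ^ m - e) * ζ ^ e = -1 := by
      rw [← pow_add, Nat.sub_add_cancel he.2.le, hneg]
    have h6 : ζ ^ e ≠ 0 := pow_ne_zero _ hζ0
    apply mul_right_cancel₀ h6
    rw [h4, neg_mul, h5, neg_neg]
  have hrefl : ∀ {A : Type} [AddCommMonoid A] (f g : ℕ → A), (∀ e, 0 < e → e < 2 ^ m → f e = g (2 ^ m - e)) →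
      ∑ e ∈ (Finset.range (2 ^ m)).erase 0, f e = ∑ e ∈ (Finset.range (2 ^ m)).erase 0, g e := by
    intro A _ f g hfg
    refine Finset.sum_bij' (fun e _ => 2 ^ m - e) (fun e _ => 2 ^ m - e) ?_ ?_ ?_ ?_ ?_
    · intro e he
      simp only [Finset.mem_erase, Finset.mem_range] at he ⊢
      omega
    · intro e he
      simp only [Finset.mem_erase, Finset.mem_range] at he ⊢
      omega
    · intro e he
      simp only [Finset.mem_erase, Finset.mem_range] at he ⊢
      omega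
    · intro e he
      simp only [Finset.mem_erase, Finset.mem_range] at he ⊢
      omega
    · intro e he
      simp only [Finset.mem_erase, Finset.mem_range] at he ⊢
      exact hfg e (by omega) he.2
  have h4 : ∑ e ∈ (Finset.range (2 ^ m)).erase 0, (P.coeff e : ℂ) * ζ ^ (2 ^ m - e) =
      ∑ e ∈ (Finset.range (2 ^ m)).erase 0, (P.coeff (2 ^ m - e) : ℂ) * ζ ^ e := by
    apply hrefl
    intro e he0 he
    have e1 : 2 ^ m - (2 ^ m - e) = e := by omega
    rw [e1]
  obtain ⟨D, hD⟩ : ∃ D : Polynomial ℤ, D = ∑ e ∈ (Finset.range (2 ^ m)).erase 0,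
    Polynomial.C (P.coeff e + P.coeff (2 ^ m - e)) * Polynomial.X ^ e := ⟨_, rfl⟩
  have hDcoeff : ∀ e, D.coeff e = if e ∈ (Finset.range (2 ^ m)).erase 0 then P.coeff e + P.coeff (2 ^ m - e) else 0 := by
    intro e
    rw [hD, Polynomial.finset_sum_coeff]
    simp only [Polynomial.coeff_C_mul, Polynomial.coeff_X_pow]
    by_cases he : e ∈ (Finset.range (2 ^ m)).erase 0
    · rw [if_pos he, Finset.sum_eq_single e]
      · simp
      · intro i _ hi
        rw [if_neg (Ne.symm hi), mul_zero]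
      · intro h; exact absurd he h
    · rw [if_neg he]
      apply Finset.sum_eq_zero
      intro i hi
      rw [if_neg, mul_zero]
      intro h
      rw [h] at he
      exact he hi
  have hDd : D.natDegree < 2 ^ m := by
    by_contra hlt
    push Not at hlt
    have h5 : D.coeff D.natDegree = 0 := by
      rw [hDcoeff, if_neg]
      rw [Finset.mem_erase, Finset.mem_range]
      omega
    have h6 : D = 0 := Polynomial.leadingCoeff_eq_zero.mp h5
    rw [h6, Polynomial.natDegree_zero] at hlt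
    have h7 : 0 < 2 ^ m := by positivity
    omega
  have hDz : Polynomial.aeval ζ D = 0 := by
    have h5 : Polynomial.aeval ζ D = ∑ e ∈ (Finset.range (2 ^ m)).erase 0, (P.coeff e : ℂ) * ζ ^ e +
        ∑ e ∈ (Finset.range (2 ^ m)).erase 0, (P.coeff (2 ^ m - e) : ℂ) * ζ ^ e := by
      rw [hD, map_sum, ← Finset.sum_add_distrib]
      refine Finset.sum_congr rfl fun e _ => ?_
      rw [map_mul, map_pow, Polynomial.aeval_X, Polynomial.aeval_C]
      simp only [algebraMap_int_eq, eq_intCast]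
      push_cast
      ring
    rw [h5, ← h4]
    rw [hreal, h2] at h3
    linear_combination h3
  have hD0 := poly_zero hM hneg hDd hDz
  have hanti : ∀ e, 0 < e → e < 2 ^ m → P.coeff e + P.coeff (2 ^ m - e) = 0 := by
    intro e he0 he
    have h5 := hDcoeff e
    rw [hD0, Polynomial.coeff_zero, if_pos (by rw [Finset.mem_erase, Finset.mem_range]; omega)] at h5
    exact h5.symm
  have hS : ∑ e ∈ (Finset.range (2 ^ m)).erase 0, P.coeff e = 0 := by
    have h5 : ∑ e ∈ (Finset.range (2 ^ m)).erase 0, P.coeff e = ∑ e ∈ (Finset.range (2 ^ m)).erase 0, -P.coeff e := by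
      apply hrefl
      intro e he0 he
      linarith [hanti e he0 he]
    rw [Finset.sum_neg_distrib] at h5
    omega
  have h5 : Polynomial.aeval ζ P - (P.coeff 0 : ℂ) = ∑ e ∈ (Finset.range (2 ^ m)).erase 0, (P.coeff e : ℂ) * (ζ ^ e - 1) := by
    have h6 : ((∑ e ∈ (Finset.range (2 ^ m)).erase 0, P.coeff e : ℤ) : ℂ) = 0 := by rw [hS]; simp
    push_cast at h6
    rw [h2, add_sub_cancel_left]
    simp only [mul_sub, mul_one]
    rw [Finset.sum_sub_distrib, h6, sub_zero]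
  rw [h5]
  apply memLocI_sum
  intro e _
  apply memLocI_mul_left (memLocR_intCast _)
  apply memLocI_rootOfUnity_sub_one (p := 2) hM (k := m + 1)
  rw [← pow_mul, mul_comm, pow_mul, hζ.pow_eq_one, one_pow]

end rl

section
variable {G : Type u} [Group G] [Fintype G] {M : Ideal AlgInt} [hM' : M.IsPrime]

theorem mcon_poly (hM : IsPModular 2 M) {x : G} {j : ℕ} (hj : orderOf x = 2 ^ j) {C : Subgroup G} [Fintype C] (hxC : x ∈ C)
    (hcomm : ∀ h : C, Commute x (h : G)) (χ ψ : IrrCharacter G) {b : Set (IrrCharacter C)} (hb : IsPBlock M b)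
    {ζ : ℂ} (hζ : IsPrimitiveRoot ζ (2 ^ (j + 1))) :
    ∃ P : Polynomial ℤ, P.natDegree < 2 ^ j ∧ ∀ k : ℕ, Odd k →
      mcon 2 (x ^ k) b (χ : G → ℂ) (ψ : G → ℂ) = Polynomial.aeval (ζ ^ k) P := by
  classical
  have hcomm' : ∀ h : C, Commute (⟨x, hxC⟩ : C) h := fun h => Subtype.ext (hcomm h).eq
  have hx1 : (⟨x, hxC⟩ : C) ^ (2 ^ (j + 1)) = 1 := by
    apply Subtype.ext
    show x ^ (2 ^ (j + 1)) = 1
    rw [pow_succ, pow_mul, ← hj, pow_orderOf_eq_one, one_pow]
  have hw : ∀ η ξ : IrrCharacter C, ∃ e : ℕ, ζ ^ e = cv (⟨x, hxC⟩ : C) (η : C → ℂ) * conj (cv (⟨x, hxC⟩ : C) (ξ : C → ℂ)) := by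
    intro η ξ
    have h1 : (cv (⟨x, hxC⟩ : C) (η : C → ℂ) * conj (cv (⟨x, hxC⟩ : C) (ξ : C → ℂ))) ^ (2 ^ (j + 1)) = 1 := by
      rw [mul_pow, ← map_pow, cv_pow_eq_one hcomm' η hx1, cv_pow_eq_one hcomm' ξ hx1, map_one, mul_one]
    obtain ⟨e, -, he⟩ := hζ.eq_pow_of_pow_eq_one h1
    exact ⟨e, he⟩
  choose e he using hw
  obtain ⟨P0, hP0⟩ : ∃ P0 : Polynomial ℤ, P0 = ∑ η ∈ bF b, ∑ ξ ∈ bF b,
    Polynomial.C ((nmu χ η : ℤ) * (nmu ψ ξ : ℤ) * cm 2 b η ξ) * Polynomial.X ^ e η ξ := ⟨_, rfl⟩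
  obtain ⟨R, hR⟩ : ∃ R : Polynomial ℤ, R = Polynomial.X ^ (2 ^ j) + Polynomial.C 1 := ⟨_, rfl⟩
  have hRm : R.Monic := by rw [hR]; exact Polynomial.monic_X_pow_add_C _ (by positivity)
  have hR1 : R ≠ 1 := by
    intro h
    have h1 := congrArg Polynomial.natDegree h
    rw [hR, Polynomial.natDegree_X_pow_add_C, Polynomial.natDegree_one] at h1
    have : 0 < 2 ^ j := by positivity
    omega
  refine ⟨P0 %ₘ R, ?_, ?_⟩
  · have h1 := Polynomial.natDegree_modByMonic_lt P0 hRm hR1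
    rw [hR, Polynomial.natDegree_X_pow_add_C, ← hR] at h1
    exact h1
  · intro k hk
    have hroot : Polynomial.aeval (ζ ^ k) R = 0 := by
      rw [hR, map_add, map_pow, Polynomial.aeval_X, Polynomial.aeval_C, ← pow_mul, mul_comm, pow_mul, prim_neg hζ, hk.neg_one_pow]
      simp
    have h2 : Polynomial.aeval (ζ ^ k) (P0 %ₘ R) = Polynomial.aeval (ζ ^ k) P0 := by
      have h3 := congrArg (Polynomial.aeval (ζ ^ k)) (Polynomial.modByMonic_add_div P0 R)
      rw [map_add, map_mul, hroot, zero_mul, add_zero] at h3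
      exact h3
    rw [h2, hP0, map_sum]
    have hxkC : x ^ k ∈ C := C.pow_mem hxC k
    have hcommk : ∀ h : C, Commute (x ^ k) (h : G) := fun h => (hcomm h).pow_left k
    rw [mcon_eq_sum hM hxkC hcommk (IsCharacter.classFun (irr_isCharacter χ)) (IsCharacter.classFun (irr_isCharacter ψ)) hb]
    refine Finset.sum_congr rfl fun η _ => ?_
    rw [map_sum]
    refine Finset.sum_congr rfl fun ξ _ => ?_
    have hpow : ∀ ζ : IrrCharacter C, cv (⟨x ^ k, hxkC⟩ : C) (ζ : C → ℂ) = cv (⟨x, hxC⟩ : C) (ζ : C → ℂ) ^ k := by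
      intro ζ
      have h1 := cv_pow hcomm' ζ k
      have h2 : (⟨x, hxC⟩ : C) ^ k = ⟨x ^ k, hxkC⟩ := rfl
      rw [h2] at h1
      have h3 : (ζ : C → ℂ) 1 ≠ 0 := IsIrr.one_ne_zero ζ.2
      unfold cv at h1 ⊢
      rw [h1]; field_simp
    rw [nmu_spec, nmu_spec, Complex.conj_natCast, hpow, hpow, map_pow, map_mul, map_pow, Polynomial.aeval_X, Polynomial.aeval_C]
    simp only [algebraMap_int_eq, eq_intCast]
    rw [← pow_mul, mul_comm k, pow_mul, he, mul_pow]
    push_cast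
    ring

end

end Cfsg.Agent.H5
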