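import Cfsg.Agent.H5.W54
import Cfsg.Agent.H5.Block16

set_option autoImplicit false
set_option linter.style.haveILetI false
set_option linter.unusedVariables false
set_option linter.unusedSectionVars false
set_option linter.unusedSimpArgs false

/-! Bounds for 2-blocks from a central element of a defect group. -/

namespace Cfsg.Agent.H5

open Cfsg
open scoped ComplexConjugate

universe u v w

section
variable {G : Type u} [Group G] [Fintype G] {M : Ideal AlgInt} [hM' : M.IsPrime]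

theorem mcon_div (hM : IsPModular 2 M) {x : G} {j : ℕ} (hj : orderOf x = 2 ^ j) {C : Subgroup G}
    (hC : C = Subgroup.centralizer ({x} : Set G)) [Fintype C] {B : Set (IrrCharacter G)}
    {b : Set (IrrCharacter C)} (hb : IsPBlock M b) (hbd : blockDefect 2 b = blockDefect 2 B) {χ : IrrCharacter G} (hχ : χ ∈ B)
    (ψ : IrrCharacter G) {ζ : ℂ} (hζ : IsPrimitiveRoot ζ (2 ^ (j + 1))) :
    ∃ P : Polynomial ℤ, P.natDegree < 2 ^ j ∧ ∀ k : ℕ, Odd k →
      mcon 2 (x ^ k) b (χ : G → ℂ) (ψ : G → ℂ) = 2 ^ blockHeight 2 B (χ : G → ℂ) * Polynomial.aeval (ζ ^ k) P := by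
  obtain ⟨P, hd, hP⟩ := mcon_poly hM hj (mem_of_eq hC) (hcomm_of_eq hC) χ ψ hb hζ
  have h1 := mcon_locR hM ⟨j, hj⟩ hC hb hbd (irr_isCharacter ψ) hχ
  have h2 := hP 1 odd_one
  rw [pow_one, pow_one] at h2
  rw [h2] at h1
  obtain ⟨P', hd', hP'⟩ := poly_pow hM (prim_neg hζ) (blockHeight 2 B (χ : G → ℂ)) hd (by push_cast at h1; exact h1)
  refine ⟨P', hd', fun k hk => ?_⟩
  rw [hP k hk, hP', map_mul, Polynomial.aeval_C]
  simp only [algebraMap_int_eq, eq_intCast]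
  push_cast
  ring

theorem poly_integral {ζ : ℂ} (hζ : IsIntegral ℤ ζ) (P : Polynomial ℤ) : IsIntegral ℤ (Polynomial.aeval ζ P) := by
  rw [Polynomial.aeval_eq_sum_range]
  apply IsIntegral.sum
  intro i _
  exact IsIntegral.smul _ (hζ.pow i)

theorem root_integral {m : ℕ} {ζ : ℂ} (hζ : IsPrimitiveRoot ζ (2 ^ (m + 1))) : IsIntegral ℤ ζ :=
  IsIntegral.of_pow (n := 2 ^ (m + 1)) (by positivity) (by rw [hζ.pow_eq_one]; exact isIntegral_one)

theorem aZ_star (hM : IsPModular 2 M) {x : G} {j : ℕ} (hj : orderOf x = 2 ^ j) {C : Subgroup G}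
    (hC : C = Subgroup.centralizer ({x} : Set G)) [Fintype C] {B : Set (IrrCharacter G)} (hB : IsPBlock M B)
    {b : Set (IrrCharacter C)} (hb : IsInducedBlock M C b B) (hbd : blockDefect 2 b = blockDefect 2 B) {χ : IrrCharacter G} (hχ : χ ∈ B)
    (hh : 1 ≤ blockHeight 2 B (χ : G → ℂ)) :
    ∃ c : ℤ, aZ (mem_of_eq hC) b χ = 2 ^ blockHeight 2 B (χ : G → ℂ) * (2 * c) := by
  classical
  obtain ⟨ζ, hζ⟩ : ∃ ζ : ℂ, IsPrimitiveRoot ζ (2 ^ (j + 1)) := ⟨_, Complex.isPrimitiveRoot_exp (2 ^ (j + 1)) (by positivity)⟩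
  obtain ⟨P, hd, hP⟩ := mcon_div hM hj hC hb.1 hbd hχ χ hζ
  obtain ⟨h, hhh⟩ : ∃ h, h = blockHeight 2 B (χ : G → ℂ) := ⟨_, rfl⟩
  rw [← hhh] at hP hh ⊢
  have h20 : (2 : ℂ) ^ h ≠ 0 := pow_ne_zero _ (by norm_num)
  have hP1 : mcon 2 x b (χ : G → ℂ) (χ : G → ℂ) = 2 ^ h * Polynomial.aeval ζ P := by
    have := hP 1 odd_one
    rwa [pow_one, pow_one] at this
  have h1 : aZ (mem_of_eq hC) b χ = 2 ^ h * P.coeff 0 := by
    have h2 := sum_mcon_pow hM hj (mem_of_eq hC) (hcomm_of_eq hC) χ hb.1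
    rw [Finset.sum_congr rfl (fun i _ => hP (2 * i + 1) ⟨i, rfl⟩), ← Finset.mul_sum, poly_avg hζ hd] at h2
    have h3 : ((2 ^ j : ℕ) : ℂ) ≠ 0 := by exact_mod_cast (pow_pos (by norm_num : 0 < 2) j).ne'
    have h4 : (aZ (mem_of_eq hC) b χ : ℂ) = 2 ^ h * (P.coeff 0 : ℂ) := by
      apply mul_left_cancel₀ h3
      rw [← h2]; ring
    exact_mod_cast h4
  have hreal : conj (Polynomial.aeval ζ P) = Polynomial.aeval ζ P := by
    obtain ⟨r, -, hr⟩ := mcon_self_real (p := 2) x b χ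
    have h2 : Polynomial.aeval ζ P = ((r / 2 ^ h : ℝ) : ℂ) := by
      rw [hP1] at hr
      push_cast
      rw [← hr]; field_simp
    rw [h2, Complex.conj_ofReal]
  have hy := poly_real hM hζ hd hreal
  -- membership in the ideal
  have hyI : MemLocalIdeal M (Polynomial.aeval ζ P) := by
    obtain ⟨χ₀, hχ₀, hχ₀0⟩ := exists_height_zero (p := 2) hM hB
    obtain ⟨W, hW1, hW2, hW3⟩ := mcon_wt hM ⟨j, hj⟩ hC hb.1 hbd (irr_isCharacter χ)
    obtain ⟨P₂, -, hP₂⟩ := mcon_div hM hj hC hb.1 hbd hχ χ₀ hζ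
    rw [← hhh] at hP₂
    have h2 := hP₂ 1 odd_one
    rw [pow_one, pow_one] at h2
    have h3 : mcon 2 x b (χ₀ : G → ℂ) (χ : G → ℂ) = 2 ^ h * conj (Polynomial.aeval ζ P₂) := by
      have h4 : mcon 2 x b (χ₀ : G → ℂ) (χ : G → ℂ) = conj (mcon 2 x b (χ : G → ℂ) (χ₀ : G → ℂ)) := by
        unfold mcon
        rw [map_mul, Complex.conj_natCast, conj_con]
      rw [h4, h2, map_mul, map_pow]
      congr 2
      exact map_ofNat _ 2
    have h5 : MemLocalRing M (conj (Polynomial.aeval ζ P₂)) := by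
      apply memLocR_of_isIntegral hM'.ne_top
      exact (poly_integral (root_integral hζ) P₂).map (starRingEnd ℂ).toIntAlgHom
    have h2I : MemLocalIdeal M (2 : ℂ) := by
      have := (memLocI_natCast_iff hM 2).mpr dvd_rfl
      simpa using this
    have h6 : MemLocalIdeal M (mcon 2 x b (χ₀ : G → ℂ) (χ : G → ℂ)) := by
      rw [h3]
      obtain ⟨h', rfl⟩ : ∃ h', h = h' + 1 := ⟨h - 1, by omega⟩
      have e : (2 : ℂ) ^ (h' + 1) * conj (Polynomial.aeval ζ P₂) = (2 ^ h' * conj (Polynomial.aeval ζ P₂)) * 2 := by ring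
      rw [e]
      apply memLocI_mul_left _ h2I
      apply memLocR_mul _ h5
      have := memLocR_natCast (M := M) (2 ^ h')
      simpa using this
    rw [hW3 χ₀] at h6
    have h7 : MemLocalIdeal M (omega (χ₀ : G → ℂ) W) := by
      have h8 := wt_not_memLocI hM hχ₀ hχ₀0
      have h9 := memLocI_mul_left (memLocR_inv (wt_memLocR hM hχ₀) h8) h6
      rw [← mul_assoc, inv_mul_cancel₀, one_mul] at h9
      · exact h9
      · intro h0; rw [h0] at h8; exact h8 memLocI_zero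
    have h8 : MemLocalIdeal M (omega (χ : G → ℂ) W) := memLocI_of_sub (omega_congr hW1 hW2 (IsPBlock.sameBlock hB hχ hχ₀)) h7
    have h9 : Polynomial.aeval ζ P = ((2 ^ blockDefect 2 B * charDegree (χ : G → ℂ) : ℕ) : ℂ) / ((Nat.card G * 2 ^ blockHeight 2 B (χ : G → ℂ) : ℕ) : ℂ) *
        omega (χ : G → ℂ) W := by
      have h10 := hW3 χ
      rw [hP1] at h10
      have hcG : (Nat.card G : ℂ) ≠ 0 := Nat.cast_ne_zero.mpr Nat.card_pos.ne'
      apply mul_left_cancel₀ h20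
      rw [h10, ← hhh]
      unfold wt
      push_cast
      field_simp
    rw [h9]
    apply memLocI_mul_left _ h8
    apply natdiv_memLocR hM
    · exact mul_ne_zero (pow_ne_zero _ (by norm_num)) (charDegree_pos χ.2).ne'
    · exact mul_ne_zero Nat.card_pos.ne' (pow_ne_zero _ (by norm_num))
    · rw [fac_scaled hM.1 hχ, Nat.factorization_mul Nat.card_pos.ne' (pow_ne_zero _ (by norm_num))]
      simp only [Finsupp.coe_add, Pi.add_apply]
      rw [hM.1.factorization_pow, Finsupp.single_eq_same]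
  have hc : MemLocalIdeal M ((P.coeff 0 : ℤ) : ℂ) := by
    have := memLocI_sub hyI hy
    rwa [sub_sub_cancel] at this
  rw [memLocI_intCast_iff hM] at hc
  obtain ⟨c, hc⟩ := hc
  refine ⟨c, ?_⟩
  rw [h1, hc]
  push_cast
  ring

theorem conj_mcon {p : ℕ} {C : Subgroup G} [Fintype C] (x : G) (b : Set (IrrCharacter C)) (χ ψ : G → ℂ) :
    conj (mcon p x b χ ψ) = mcon p x b ψ χ := by
  unfold mcon
  rw [map_mul, Complex.conj_natCast, conj_con]

theorem aZ_pos (hM : IsPModular 2 M) {x : G} {j : ℕ} (hj : orderOf x = 2 ^ j) {C : Subgroup G}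
    (hC : C = Subgroup.centralizer ({x} : Set G)) [Fintype C] {B : Set (IrrCharacter G)} (hB : IsPBlock M B)
    {b : Set (IrrCharacter C)} (hb : IsInducedBlock M C b B) (hbd : blockDefect 2 b = blockDefect 2 B) {χ : IrrCharacter G} (hχ : χ ∈ B) :
    0 < aZ (mem_of_eq hC) b χ := by
  classical
  obtain ⟨ψ, hψ, hψ0⟩ := exists_height_zero (p := 2) hM hB
  have h1 := aZ_bound hM hj hC hB hb {ψ} (by intro φ hφ; rw [Finset.mem_singleton] at hφ; rw [hφ]; exact mem_bF.mpr hψ) (χ := χ) (by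
    intro φ hφ i
    rw [Finset.mem_singleton] at hφ
    rw [hφ]
    have hxi : ∃ k : ℕ, orderOf (x ^ (2 * i + 1)) = 2 ^ k := by
      refine ⟨j, ?_⟩
      rw [Nat.Coprime.orderOf_pow (by rw [hj]; exact (odd_cop i).symm), hj]
    have hCi : C = Subgroup.centralizer ({x ^ (2 * i + 1)} : Set G) := by
      rw [centralizer_pow_odd (by rw [hj]; exact odd_cop i), hC]
    exact mcon_ne_zero hM hxi hCi hB hb hbd hχ hψ hψ0)
  rw [Finset.card_singleton] at h1
  by_contra hneg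
  push Not at hneg
  have h2 : (2 : ℤ) ^ blockDefect 2 b * aZ (mem_of_eq hC) b χ ≤ 0 := mul_nonpos_of_nonneg_of_nonpos (by positivity) hneg
  push_cast at h1
  linarith

/-- Weighted bound. -/
theorem wbound (hM : IsPModular 2 M) {x : G} {j : ℕ} (hj : orderOf x = 2 ^ j) {C : Subgroup G}
    (hC : C = Subgroup.centralizer ({x} : Set G)) [Fintype C] {B : Set (IrrCharacter G)} (hB : IsPBlock M B)
    {b : Set (IrrCharacter C)} (hb : IsInducedBlock M C b B) (hbd : blockDefect 2 b = blockDefect 2 B) {χ : IrrCharacter G}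
    (hχ : χ ∈ bZ 2 B) :
    (∑ ψ ∈ bF B, 4 ^ blockHeight 2 B (ψ : G → ℂ) : ℤ) ≤ 2 ^ blockDefect 2 b * aZ (mem_of_eq hC) b χ := by
  classical
  have hcomm := hcomm_of_eq hC
  have hxC := mem_of_eq hC
  have hχ' := mem_bZ.mp hχ
  have hG : Nat.card G ≠ 0 := Nat.card_pos.ne'
  have hxi : ∀ i : ℕ, ∃ k : ℕ, orderOf (x ^ (2 * i + 1)) = 2 ^ k := by
    intro i
    refine ⟨j, ?_⟩
    rw [Nat.Coprime.orderOf_pow (by rw [hj]; exact (odd_cop i).symm), hj]
  have hCi : ∀ i : ℕ, C = Subgroup.centralizer ({x ^ (2 * i + 1)} : Set G) := by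
    intro i
    rw [centralizer_pow_odd (by rw [hj]; exact odd_cop i), hC]
  obtain ⟨ζ, hζ⟩ : ∃ ζ : ℂ, IsPrimitiveRoot ζ (2 ^ (j + 1)) := ⟨_, Complex.isPrimitiveRoot_exp (2 ^ (j + 1)) (by positivity)⟩
  have hPex : ∀ ψ : IrrCharacter G, ∃ P : Polynomial ℤ, ψ ∈ B → ∀ k : ℕ, Odd k →
      mcon 2 (x ^ k) b (ψ : G → ℂ) (χ : G → ℂ) = 2 ^ blockHeight 2 B (ψ : G → ℂ) * Polynomial.aeval (ζ ^ k) P := by
    intro ψ
    by_cases hψ : ψ ∈ B
    · obtain ⟨P, -, hP⟩ := mcon_div hM hj hC hb.1 hbd hψ χ hζ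
      exact ⟨P, fun _ => hP⟩
    · exact ⟨0, fun h => absurd h hψ⟩
  choose P hP using hPex
  obtain ⟨z, hz⟩ : ∃ z : ℕ → IrrCharacter G → ℂ, z = fun i ψ => Polynomial.aeval (ζ ^ (2 * i + 1)) (P ψ) := ⟨_, rfl⟩
  have hz1 : ∀ i, ∀ ψ ∈ B, mcon 2 (x ^ (2 * i + 1)) b ((ψ : IrrCharacter G) : G → ℂ) (χ : G → ℂ) = 2 ^ blockHeight 2 B (ψ : G → ℂ) * z i ψ := by
    intro i ψ hψ
    rw [hP ψ hψ (2 * i + 1) ⟨i, rfl⟩, hz]
  obtain ⟨s, hs⟩ : ∃ s : Finset ((_ : ℕ × IrrCharacter G) × ℕ), s = ((Finset.range (2 ^ j)) ×ˢ (bF B)).sigma (fun q => Finset.range (4 ^ blockHeight 2 B (q.2 : G → ℂ))) := ⟨_, rfl⟩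
  have hsum : ∑ t ∈ s, z t.1.1 t.1.2 * conj (z t.1.1 t.1.2) = (((2 ^ blockDefect 2 b * (2 ^ j * aZ hxC b χ) : ℤ) : ℚ) : ℂ) := by
    rw [hs, Finset.sum_sigma]
    simp only [Finset.sum_const, Finset.card_range, nsmul_eq_mul]
    rw [Finset.sum_product]
    have h1 : ∀ i ∈ Finset.range (2 ^ j), ∑ ψ ∈ bF B, ((4 ^ blockHeight 2 B (ψ : G → ℂ) : ℕ) : ℂ) * (z i ψ * conj (z i ψ)) =
        ((2 ^ blockDefect 2 b : ℕ) : ℂ) * mcon 2 (x ^ (2 * i + 1)) b (χ : G → ℂ) (χ : G → ℂ) := by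
      intro i _
      rw [← sum_mcon_sq hM hB (hxi i) (hCi i) hb χ]
      refine Finset.sum_congr rfl fun ψ hψ => ?_
      rw [conj_mcon, ← conj_mcon, hz1 i ψ (mem_bF.mp hψ), map_mul, map_pow]
      have e2 : conj (2 : ℂ) = 2 := map_ofNat _ 2
      rw [e2]
      have e4 : ((4 ^ blockHeight 2 B (ψ : G → ℂ) : ℕ) : ℂ) = 2 ^ blockHeight 2 B (ψ : G → ℂ) * 2 ^ blockHeight 2 B (ψ : G → ℂ) := by
        push_cast
        rw [← mul_pow]; norm_num
      rw [e4]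
      ring
    rw [Finset.sum_congr rfl h1, ← Finset.mul_sum, sum_mcon_pow hM hj hxC hcomm χ hb.1]
    push_cast
    ring
  have h1 := card_le_of_sum_normSq hG s (fun t => z t.1.1 t.1.2)
    (fun t ht => by
      rw [hs, Finset.mem_sigma, Finset.mem_product] at ht
      have hψ := mem_bF.mp ht.1.2
      have h2 := mcon_mem_cyF hM (mem_of_eq (hCi t.1.1)) (hcomm_of_eq (hCi t.1.1)) (irr_isCharacter t.1.2) (irr_isCharacter χ) hb.1
      rw [hz1 t.1.1 t.1.2 hψ] at h2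
      have h3 : z t.1.1 t.1.2 = (2 ^ blockHeight 2 B (t.1.2 : G → ℂ))⁻¹ * (2 ^ blockHeight 2 B (t.1.2 : G → ℂ) * z t.1.1 t.1.2) := by
        rw [inv_mul_cancel_left₀ (pow_ne_zero _ (by norm_num))]
      show z t.1.1 t.1.2 ∈ _
      rw [h3]
      apply mul_mem (inv_mem _) h2
      exact pow_mem (ofNat_mem _ 2) _)
    (fun t ht => by
      show IsIntegral ℤ (z t.1.1 t.1.2)
      rw [hz]
      exact poly_integral ((root_integral hζ).pow _) _)
    (fun t ht => by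
      rw [hs, Finset.mem_sigma, Finset.mem_product] at ht
      have hψ := mem_bF.mp ht.1.2
      have h2 := mcon_ne_zero hM (hxi t.1.1) (hCi t.1.1) hB hb hbd hψ hχ'.1 hχ'.2
      rw [hz1 t.1.1 t.1.2 hψ] at h2
      exact right_ne_zero_of_mul h2) hsum
  have h2 : s.card = 2 ^ j * ∑ ψ ∈ bF B, 4 ^ blockHeight 2 B (ψ : G → ℂ) := by
    rw [hs, Finset.card_sigma]
    simp only [Finset.card_range]
    rw [Finset.sum_product]
    simp only [Finset.sum_const, Finset.card_range, smul_eq_mul]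
  have h4 : (s.card : ℤ) ≤ 2 ^ blockDefect 2 b * (2 ^ j * aZ hxC b χ) := by exact_mod_cast h1
  rw [h2] at h4
  push_cast at h4
  have h5 : (2 ^ j : ℤ) * (∑ ψ ∈ bF B, 4 ^ blockHeight 2 B (ψ : G → ℂ)) ≤ (2 ^ j : ℤ) * (2 ^ blockDefect 2 b * aZ hxC b χ) := by
    calc _ ≤ _ := h4
      _ = _ := by ring
  exact le_of_mul_le_mul_left h5 (by positivity)

end

end Cfsg.Agent.H5
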