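import Cfsg.Agent.H5.W55

set_option autoImplicit false
set_option linter.style.haveILetI false
set_option linter.unusedVariables false
set_option linter.unusedSectionVars false
set_option linter.unusedSimpArgs false

/-! Bounds for 2-blocks from a central element of a defect group, part two. -/

namespace Cfsg.Agent.H5

open Cfsg
open scoped ComplexConjugate

universe u v w

section
variable {G : Type u} [Group G] [Fintype G] {M : Ideal AlgInt} [hM' : M.IsPrime]

theorem hk_bound (hM : IsPModular 2 M) {x : G} {j : ℕ} (hj : orderOf x = 2 ^ j) {C : Subgroup G}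
    (hC : C = Subgroup.centralizer ({x} : Set G)) [Fintype C] {B : Set (IrrCharacter G)} (hB : IsPBlock M B)
    {b : Set (IrrCharacter C)} (hb : IsInducedBlock M C b B) (hbd : blockDefect 2 b = blockDefect 2 B)
    (hl : blockRank 2 b ≤ 3) :
    3 * (bZ 2 B).card + 2 * ∑ χ ∈ (bF B).filter (fun χ : IrrCharacter G => 1 ≤ blockHeight 2 B (χ : G → ℂ)), 2 ^ blockHeight 2 B (χ : G → ℂ) ≤
      3 * 2 ^ blockDefect 2 B := by
  classical
  have hcomm := hcomm_of_eq hC
  have hxC := mem_of_eq hC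
  have hsplit : ∀ f : IrrCharacter G → ℤ, ∑ χ ∈ bF B, f χ = ∑ χ ∈ bZ 2 B, f χ +
      ∑ χ ∈ (bF B).filter (fun χ : IrrCharacter G => 1 ≤ blockHeight 2 B (χ : G → ℂ)), f χ := by
    intro f
    rw [← Finset.sum_filter_add_sum_filter_not (bF B) (fun χ : IrrCharacter G => blockHeight 2 B (χ : G → ℂ) = 0)]
    have e1 : (bF B).filter (fun χ : IrrCharacter G => blockHeight 2 B (χ : G → ℂ) = 0) = bZ 2 B := by
      ext χ
      rw [Finset.mem_filter, mem_bF, mem_bZ]
    have e2 : (bF B).filter (fun χ : IrrCharacter G => ¬ blockHeight 2 B (χ : G → ℂ) = 0) =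
        (bF B).filter (fun χ : IrrCharacter G => 1 ≤ blockHeight 2 B (χ : G → ℂ)) := by
      ext χ
      rw [Finset.mem_filter, Finset.mem_filter]
      constructor
      · rintro ⟨h1, h2⟩; exact ⟨h1, by omega⟩
      · rintro ⟨h1, h2⟩; exact ⟨h1, by omega⟩
    rw [e1, e2]
  have hgoal : (3 * ((bZ 2 B).card : ℤ) + 2 * ∑ χ ∈ (bF B).filter (fun χ : IrrCharacter G => 1 ≤ blockHeight 2 B (χ : G → ℂ)), (2 : ℤ) ^ blockHeight 2 B (χ : G → ℂ)) ≤
      3 * 2 ^ blockDefect 2 B := by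
    by_cases hcase : ∃ χ ∈ bZ 2 B, aZ hxC b χ = 1
    · obtain ⟨χ, hχ, h1⟩ := hcase
      have h2 := wbound hM hj hC hB hb hbd hχ
      rw [h1, mul_one, hbd, hsplit] at h2
      have h3 : ∑ χ ∈ bZ 2 B, (4 : ℤ) ^ blockHeight 2 B (χ : G → ℂ) = (bZ 2 B).card := by
        rw [Finset.sum_congr rfl (g := fun _ => (1 : ℤ)) (fun χ hχ => by rw [(mem_bZ.mp hχ).2, pow_zero])]
        simp
      rw [h3] at h2
      have h4 : 2 * ∑ χ ∈ (bF B).filter (fun χ : IrrCharacter G => 1 ≤ blockHeight 2 B (χ : G → ℂ)), (2 : ℤ) ^ blockHeight 2 B (χ : G → ℂ) ≤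
          3 * ∑ χ ∈ (bF B).filter (fun χ : IrrCharacter G => 1 ≤ blockHeight 2 B (χ : G → ℂ)), (4 : ℤ) ^ blockHeight 2 B (χ : G → ℂ) := by
        rw [Finset.mul_sum, Finset.mul_sum]
        apply Finset.sum_le_sum
        intro χ _
        have h5 : (2 : ℤ) ^ blockHeight 2 B (χ : G → ℂ) ≤ 4 ^ blockHeight 2 B (χ : G → ℂ) := pow_le_pow_left₀ (by norm_num) (by norm_num) _
        have h6 : (0 : ℤ) ≤ 2 ^ blockHeight 2 B (χ : G → ℂ) := by positivity
        linarith
      linarith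
    · push Not at hcase
      have h1 := sum_aZ hM hj hC hB hb
      rw [hsplit] at h1
      have h2 : 3 * ((bZ 2 B).card : ℤ) ≤ ∑ χ ∈ bZ 2 B, aZ hxC b χ := by
        rw [mul_comm, ← nsmul_eq_mul]
        apply Finset.card_nsmul_le_sum
        intro χ hχ
        have h3 := aZ_odd hM hj hxC hcomm hb hχ
        have h4 := aZ_pos hM hj hC hB hb hbd (mem_bZ.mp hχ).1
        have h5 := hcase χ hχ
        obtain ⟨t, ht⟩ := h3
        omega
      have h3 : 2 * ∑ χ ∈ (bF B).filter (fun χ : IrrCharacter G => 1 ≤ blockHeight 2 B (χ : G → ℂ)), (2 : ℤ) ^ blockHeight 2 B (χ : G → ℂ) ≤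
          ∑ χ ∈ (bF B).filter (fun χ : IrrCharacter G => 1 ≤ blockHeight 2 B (χ : G → ℂ)), aZ hxC b χ := by
        rw [Finset.mul_sum]
        apply Finset.sum_le_sum
        intro χ hχ
        rw [Finset.mem_filter] at hχ
        obtain ⟨c, hc⟩ := aZ_star hM hj hC hB hb hbd (mem_bF.mp hχ.1) hχ.2
        have h4 := aZ_pos hM hj hC hB hb hbd (mem_bF.mp hχ.1)
        have h5 : (0 : ℤ) < 2 ^ blockHeight 2 B (χ : G → ℂ) := by positivity
        rw [hc] at h4 ⊢
        have h6 : 0 < c := by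
          by_contra hneg
          push Not at hneg
          have := mul_nonpos_of_nonneg_of_nonpos h5.le (by linarith : 2 * c ≤ 0)
          linarith
        have h7 : (1 : ℤ) ≤ c := h6
        nlinarith
      have h4 : (2 : ℤ) ^ blockDefect 2 b * (blockRank 2 b : ℤ) ≤ 2 ^ blockDefect 2 B * 3 := by
        rw [hbd]
        exact mul_le_mul_of_nonneg_left (by exact_mod_cast hl) (by positivity)
      linarith
  exact_mod_cast hgoal

/-- The complementary contribution. -/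
theorem nbound (hM : IsPModular 2 M) {x : G} {j : ℕ} (hj : orderOf x = 2 ^ j) {C : Subgroup G}
    (hC : C = Subgroup.centralizer ({x} : Set G)) [Fintype C] {B : Set (IrrCharacter G)} (hB : IsPBlock M B)
    {b : Set (IrrCharacter C)} (hb : IsInducedBlock M C b B) (T : Finset (IrrCharacter G)) (hT : T ⊆ bF B) {χ : IrrCharacter G} (hχ : χ ∈ B)
    (hne : ∀ ψ ∈ T, ∀ i : ℕ, (if ψ = χ then (2 : ℂ) ^ blockDefect 2 b else 0) - mcon 2 (x ^ (2 * i + 1)) b (χ : G → ℂ) ((ψ : IrrCharacter G) : G → ℂ) ≠ 0) :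
    (T.card : ℤ) ≤ 2 ^ blockDefect 2 b * (2 ^ blockDefect 2 b - aZ (mem_of_eq hC) b χ) := by
  classical
  have hcomm := hcomm_of_eq hC
  have hxC := mem_of_eq hC
  have hG : Nat.card G ≠ 0 := Nat.card_pos.ne'
  have hxi : ∀ i : ℕ, ∃ k : ℕ, orderOf (x ^ (2 * i + 1)) = 2 ^ k := by
    intro i
    refine ⟨j, ?_⟩
    rw [Nat.Coprime.orderOf_pow (by rw [hj]; exact (odd_cop i).symm), hj]
  have hCi : ∀ i : ℕ, C = Subgroup.centralizer ({x ^ (2 * i + 1)} : Set G) := by
    intro i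
    rw [centralizer_pow_odd (by rw [hj]; exact odd_cop i), hC]
  obtain ⟨z, hz⟩ : ∃ z : ℕ → IrrCharacter G → ℂ, z = fun i (ψ : IrrCharacter G) => (if ψ = χ then (2 : ℂ) ^ blockDefect 2 b else 0) - mcon 2 (x ^ (2 * i + 1)) b (χ : G → ℂ) (ψ : G → ℂ) := ⟨_, rfl⟩
  set s := ((Finset.range (2 ^ j)) ×ˢ (bF B)).filter (fun q => z q.1 q.2 ≠ 0) with hs
  have hrow : ∀ i, ∑ ψ ∈ bF B, z i ψ * conj (z i ψ) = (2 : ℂ) ^ blockDefect 2 b * (2 ^ blockDefect 2 b - mcon 2 (x ^ (2 * i + 1)) b (χ : G → ℂ) (χ : G → ℂ)) := by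
    intro i
    have h1 := sum_mcon_sq hM hB (hxi i) (hCi i) hb χ
    obtain ⟨r, -, hr⟩ := mcon_self_real (p := 2) (x ^ (2 * i + 1)) b χ
    rw [← Finset.add_sum_erase _ _ (mem_bF.mpr hχ)] at h1 ⊢
    have h2 : ∑ ψ ∈ (bF B).erase χ, z i ψ * conj (z i ψ) = ∑ ψ ∈ (bF B).erase χ,
        mcon 2 (x ^ (2 * i + 1)) b (χ : G → ℂ) (ψ : G → ℂ) * conj (mcon 2 (x ^ (2 * i + 1)) b (χ : G → ℂ) (ψ : G → ℂ)) := by
      refine Finset.sum_congr rfl fun ψ hψ => ?_
      rw [Finset.mem_erase] at hψ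
      simp only [hz]
      rw [if_neg hψ.1, zero_sub, map_neg]
      ring
    have h3 : z i χ = 2 ^ blockDefect 2 b - (r : ℂ) := by
      simp only [hz, if_true]
      rw [hr]
    have e2 : conj (2 : ℂ) = 2 := map_ofNat _ 2
    rw [h2, h3, hr, map_sub, map_pow, e2, Complex.conj_ofReal]
    rw [hr, Complex.conj_ofReal] at h1
    push_cast at h1
    linear_combination h1
  have hsum : ∑ q ∈ s, z q.1 q.2 * conj (z q.1 q.2) =
      (((2 ^ blockDefect 2 b * (2 ^ j * (2 ^ blockDefect 2 b - aZ hxC b χ)) : ℤ) : ℚ) : ℂ) := by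
    rw [hs, Finset.sum_filter_of_ne]
    · rw [Finset.sum_product]
      rw [Finset.sum_congr rfl (fun i _ => hrow i), ← Finset.mul_sum, Finset.sum_sub_distrib,
        sum_mcon_pow hM hj hxC hcomm χ hb.1, Finset.sum_const, Finset.card_range, nsmul_eq_mul]
      push_cast
      ring
    · intro q _ hq h0
      apply hq
      rw [h0, zero_mul]
  have h1 := card_le_of_sum_normSq hG s (fun q => z q.1 q.2)
    (fun q _ => by
      simp only [hz]
      apply sub_mem _ (mcon_mem_cyF hM (mem_of_eq (hCi q.1)) (hcomm_of_eq (hCi q.1)) (irr_isCharacter χ) (irr_isCharacter q.2) hb.1)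
      split_ifs
      · exact pow_mem (ofNat_mem _ 2) _
      · exact zero_mem _)
    (fun q _ => by
      simp only [hz]
      apply IsIntegral.sub _ (mcon_integral hM (mem_of_eq (hCi q.1)) (hcomm_of_eq (hCi q.1)) (irr_isCharacter χ) (irr_isCharacter q.2) hb.1)
      split_ifs
      · apply IsIntegral.pow
        have := isIntegral_algebraMap (R := ℤ) (A := ℂ) (x := 2)
        simpa using this
      · exact isIntegral_zero)
    (fun q hq => (Finset.mem_filter.mp hq).2) hsum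
  have h2 : (Finset.range (2 ^ j)) ×ˢ T ⊆ s := by
    intro q hq
    rw [Finset.mem_product] at hq
    rw [hs, Finset.mem_filter, Finset.mem_product]
    refine ⟨⟨hq.1, hT hq.2⟩, ?_⟩
    simp only [hz]
    exact hne _ hq.2 _
  have h3 := Finset.card_le_card h2
  rw [Finset.card_product, Finset.card_range] at h3
  have h4 : (s.card : ℤ) ≤ 2 ^ blockDefect 2 b * (2 ^ j * (2 ^ blockDefect 2 b - aZ hxC b χ)) := by exact_mod_cast h1
  have h5 : ((2 ^ j : ℕ) : ℤ) * (T.card : ℤ) ≤ (2 ^ j : ℤ) * (2 ^ blockDefect 2 b * (2 ^ blockDefect 2 b - aZ hxC b χ)) := by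
    calc ((2 ^ j : ℕ) : ℤ) * (T.card : ℤ) = ((2 ^ j * T.card : ℕ) : ℤ) := by push_cast; ring
      _ ≤ (s.card : ℤ) := by exact_mod_cast h3
      _ ≤ _ := h4
      _ = _ := by ring
  push_cast at h5
  exact le_of_mul_le_mul_left h5 (by positivity)

theorem kl_bound (hM : IsPModular 2 M) {x : G} {j : ℕ} (hj : orderOf x = 2 ^ j) {C : Subgroup G}
    (hC : C = Subgroup.centralizer ({x} : Set G)) [Fintype C] {B : Set (IrrCharacter G)} (hB : IsPBlock M B)
    {b : Set (IrrCharacter C)} (hb : IsInducedBlock M C b B) (hbd : blockDefect 2 b = blockDefect 2 B)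
    (hl : (bF B).card ≤ blockRank 2 b + 3) : (bF B).card ≤ 2 ^ blockDefect 2 B := by
  classical
  have hcomm := hcomm_of_eq hC
  have hxC := mem_of_eq hC
  have hxi : ∀ i : ℕ, ∃ k : ℕ, orderOf (x ^ (2 * i + 1)) = 2 ^ k := by
    intro i
    refine ⟨j, ?_⟩
    rw [Nat.Coprime.orderOf_pow (by rw [hj]; exact (odd_cop i).symm), hj]
  have hCi : ∀ i : ℕ, C = Subgroup.centralizer ({x ^ (2 * i + 1)} : Set G) := by
    intro i
    rw [centralizer_pow_odd (by rw [hj]; exact odd_cop i), hC]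
  rcases Nat.eq_zero_or_pos (blockDefect 2 B) with hd | hd
  · obtain ⟨χ, hχ⟩ := IsPBlock.nonempty' hB
    have h1 := block_of_defect_zero hM hB hd hχ
    have h2 : bF B = {χ} := by
      ext ψ
      rw [mem_bF, Finset.mem_singleton, h1]
      rfl
    rw [h2, hd]; simp
  have hne0 : ∀ χ ∈ bZ 2 B, ∀ ψ ∈ B, ∀ i : ℕ, mcon 2 (x ^ (2 * i + 1)) b ((χ : IrrCharacter G) : G → ℂ) ((ψ : IrrCharacter G) : G → ℂ) ≠ 0 := by
    intro χ hχ ψ hψ i h0
    have h1 := mcon_ne_zero hM (hxi i) (hCi i) hB hb hbd hψ (mem_bZ.mp hχ).1 (mem_bZ.mp hχ).2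
    apply h1
    rw [← conj_mcon, h0, map_zero]
  have h2I : MemLocalIdeal M ((2 : ℂ) ^ blockDefect 2 b) := by
    have h1 := (memLocI_natCast_iff hM (2 ^ blockDefect 2 b)).mpr (dvd_pow_self 2 (by omega))
    simpa using h1
  have hdiag : ∀ χ ∈ bZ 2 B, ∀ i : ℕ, (2 : ℂ) ^ blockDefect 2 b - mcon 2 (x ^ (2 * i + 1)) b ((χ : IrrCharacter G) : G → ℂ) (χ : G → ℂ) ≠ 0 := by
    intro χ hχ i h0
    have h1 := mcon_not_memLocI hM (hxi i) (mem_of_eq (hCi i)) (hcomm_of_eq (hCi i)) hb (mem_bZ.mp hχ).1 (mem_bZ.mp hχ).1 (mem_bZ.mp hχ).2 (mem_bZ.mp hχ).2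
    apply h1
    rw [← sub_eq_zero.mp h0]
    exact h2I
  have hall : ∀ χ ∈ bZ 2 B, ∀ ψ ∈ bF B, ∀ i : ℕ, (if ψ = χ then (2 : ℂ) ^ blockDefect 2 b else 0) -
      mcon 2 (x ^ (2 * i + 1)) b ((χ : IrrCharacter G) : G → ℂ) ((ψ : IrrCharacter G) : G → ℂ) ≠ 0 := by
    intro χ hχ ψ hψ i
    by_cases h : ψ = χ
    · subst h
      rw [if_pos rfl]
      exact hdiag _ hχ i
    · rw [if_neg h, zero_sub, neg_ne_zero]
      exact hne0 χ hχ ψ (mem_bF.mp hψ) i
  have hbZ : bZ 2 B ⊆ bF B := by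
    intro χ hχ
    exact mem_bF.mpr (mem_bZ.mp hχ).1
  have hgoal : ((bF B).card : ℤ) ≤ 2 ^ blockDefect 2 B := by
    by_cases hcase : ∃ χ ∈ bZ 2 B, 2 ^ blockDefect 2 b - aZ hxC b χ = 1
    · obtain ⟨χ, hχ, h1⟩ := hcase
      have h2 := nbound hM hj hC hB hb (bF B) (Finset.Subset.refl _) (mem_bZ.mp hχ).1 (hall χ hχ)
      rw [h1, mul_one, hbd] at h2
      exact h2
    · push Not at hcase
      obtain ⟨ψ₀, hψ₀, hψ₀0⟩ := exists_height_zero (p := 2) hM hB
      have h2pos : (0 : ℤ) < 2 ^ blockDefect 2 b := by positivity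
      have hpos : ∀ χ ∈ bF B, 0 < 2 ^ blockDefect 2 b - aZ hxC b χ := by
        intro χ hχ
        have h1 := nbound hM hj hC hB hb {ψ₀} (by intro φ hφ; rw [Finset.mem_singleton] at hφ; rw [hφ]; exact mem_bF.mpr hψ₀) (mem_bF.mp hχ) (by
          intro φ hφ i
          rw [Finset.mem_singleton] at hφ
          rw [hφ]
          by_cases h : ψ₀ = χ
          · rw [if_pos h, ← h]
            exact hdiag ψ₀ (mem_bZ.mpr ⟨hψ₀, hψ₀0⟩) i
          · rw [if_neg h, zero_sub, neg_ne_zero]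
            exact mcon_ne_zero hM (hxi i) (hCi i) hB hb hbd (mem_bF.mp hχ) hψ₀ hψ₀0)
        rw [Finset.card_singleton] at h1
        by_contra hneg
        push Not at hneg
        have h3 := mul_nonpos_of_nonneg_of_nonpos h2pos.le hneg
        push_cast at h1
        linarith
      have h3 : ∀ χ ∈ bF B, 3 ≤ 2 ^ blockDefect 2 b - aZ hxC b χ := by
        intro χ hχ
        have hp := hpos χ hχ
        rcases Nat.eq_zero_or_pos (blockHeight 2 B (χ : G → ℂ)) with h0 | h0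
        · have hχ' : χ ∈ bZ 2 B := mem_bZ.mpr ⟨mem_bF.mp hχ, h0⟩
          obtain ⟨t, ht⟩ := aZ_odd hM hj hxC hcomm hb hχ'
          have h5 := hcase χ hχ'
          obtain ⟨d', hd'⟩ : ∃ d', blockDefect 2 b = d' + 1 := ⟨blockDefect 2 b - 1, by omega⟩
          rw [hd', pow_succ] at hp h5 ⊢
          omega
        · obtain ⟨c, hc⟩ := aZ_star hM hj hC hB hb hbd (mem_bF.mp hχ) h0
          have ha := aZ_pos hM hj hC hB hb hbd (mem_bF.mp hχ)
          obtain ⟨h', hh'⟩ : ∃ h', blockHeight 2 B (χ : G → ℂ) = h' + 1 := ⟨_, (Nat.sub_add_cancel h0).symm⟩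
          rw [hh', pow_succ] at hc
          have e : aZ hxC b χ = 4 * (2 ^ h' * c) := by rw [hc]; ring
          rw [e] at hp ha ⊢
          -- blockDefect ≥ 2
          have hd2 : 2 ≤ blockDefect 2 b := by
            by_contra hlt
            have h5 : blockDefect 2 b = 1 := by omega
            rw [h5] at hp
            omega
          obtain ⟨d', hd'⟩ : ∃ d', blockDefect 2 b = d' + 2 := ⟨blockDefect 2 b - 2, by omega⟩
          rw [hd', pow_add] at hp ⊢
          have e4 : (2 : ℤ) ^ d' * 2 ^ 2 = 4 * 2 ^ d' := by ring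
          rw [e4] at hp ⊢
          omega
      have h4 : 3 * ((bF B).card : ℤ) ≤ ∑ χ ∈ bF B, (2 ^ blockDefect 2 b - aZ hxC b χ) := by
        rw [mul_comm, ← nsmul_eq_mul]
        exact Finset.card_nsmul_le_sum _ _ _ h3
      rw [Finset.sum_sub_distrib, sum_aZ hM hj hC hB hb, Finset.sum_const, nsmul_eq_mul] at h4
      have h5 : ((bF B).card : ℤ) ≤ blockRank 2 b + 3 := by exact_mod_cast hl
      rw [hbd] at h4 h2pos
      have h6 : ((bF B).card : ℤ) * 2 ^ blockDefect 2 B ≤ (blockRank 2 b + 3) * 2 ^ blockDefect 2 B :=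
        mul_le_mul_of_nonneg_right h5 h2pos.le
      linarith
  exact_mod_cast hgoal

theorem defect_center (hM : IsPModular 2 M) {B : Set (IrrCharacter G)} (hB : IsPBlock M B) {D : Subgroup G}
    (hD : IsDefectGroup 2 M B D) {z : G} (hzD : z ∈ D) (hzc : ∀ d ∈ D, d * z = z * d)
    {b : Set (IrrCharacter (Subgroup.centralizer ({z} : Set G)))} (hb : IsPBlock M b)
    (hbD : IsDefectGroup 2 M b (D.subgroupOf (Subgroup.centralizer ({z} : Set G)))) :
    blockDefect 2 b = blockDefect 2 B ∧ ∃ j, orderOf z = 2 ^ j := by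
  have hDC : D ≤ Subgroup.centralizer ({z} : Set G) := by
    intro d hd
    rw [Subgroup.mem_centralizer_singleton_iff]
    exact hzc d hd
  have hfC : Fintype (Subgroup.centralizer ({z} : Set G)) := Fintype.ofFinite _
  have h1 := card_defectGroup hM hB hD
  have h2 := card_defectGroup hM hb hbD
  have h3 : Nat.card (D.subgroupOf (Subgroup.centralizer ({z} : Set G))) = Nat.card D :=
    Nat.card_congr (Subgroup.subgroupOfEquivOfLe hDC).toEquiv
  rw [h3, h1] at h2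
  refine ⟨(Nat.pow_right_injective (le_refl 2) h2).symm, ?_⟩
  have h4 : orderOf z ∣ Nat.card D := by
    have := orderOf_dvd_natCard (⟨z, hzD⟩ : D)
    rwa [Subgroup.orderOf_mk] at this
  rw [h1] at h4
  obtain ⟨j, -, hj⟩ := (Nat.dvd_prime_pow Nat.prime_two).mp h4
  exact ⟨j, hj⟩

end

end Cfsg.Agent.H5
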