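import Cfsg.Agent.H5.W64
import Cfsg.Agent.H5.W45

set_option linter.all false
set_option autoImplicit false

namespace Cfsg.Agent.H5.W65

open Cfsg Cfsg.Agent.H5
open scoped Pointwise ComplexConjugate

universe u
variable {G : Type u} [Group G]

theorem fs_over [Fintype G] (N : Subgroup G) [hN : N.Normal] [Fintype N] (hodd : Odd N.index) (φ : IrrCharacter N) :
    ∑ χ : IrrCharacter G, H4.fsInd (χ : G → ℂ) * classInner (fun h : N => (χ : G → ℂ) h) (φ : N → ℂ)
      = conj (H4.fsInd (φ : N → ℂ)) := by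
  classical
  have hin : ∀ s : G, s * s ∈ N → s ∈ N := by
    intro s hs
    rw [← QuotientGroup.eq_one_iff] at hs ⊢
    rw [QuotientGroup.mk_mul, ← pow_two] at hs
    have h1 : orderOf (s : G ⧸ N) ∣ 2 := orderOf_dvd_of_pow_eq_one hs
    have h2 : orderOf (s : G ⧸ N) ∣ Nat.card (G ⧸ N) := orderOf_dvd_natCard _
    have h3 : Nat.Coprime 2 (Nat.card (G ⧸ N)) := by
      rw [Nat.coprime_two_left]; exact hodd
    have h4 := Nat.eq_one_of_dvd_coprimes h3 h1 h2
    exact orderOf_eq_one_iff.1 h4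
  have h1 : ∑ χ : IrrCharacter G, H4.fsInd (χ : G → ℂ) * classInner (fun h : N => (χ : G → ℂ) h) (φ : N → ℂ)
      = (Nat.card N : ℂ)⁻¹ * ∑ h : N, (Nat.card {s : G // s * s = (h : G)} : ℂ) * conj ((φ : N → ℂ) h) := by
    simp only [H4.card_sqrt, classInner, Finset.sum_mul]
    rw [Finset.sum_comm, Finset.mul_sum]
    apply Finset.sum_congr rfl
    intro χ _
    rw [Finset.mul_sum, Finset.mul_sum, Finset.mul_sum]
    apply Finset.sum_congr rfl
    intro h _
    ring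
  rw [h1, H4.fsInd, map_mul, map_inv₀, map_natCast, map_sum]
  congr 1
  have h2 : ∀ h : N, (Nat.card {s : G // s * s = (h : G)} : ℂ) = ∑ s : N, if s * s = h then (1 : ℂ) else 0 := by
    intro h
    rw [← Finset.sum_filter, Finset.sum_const, nsmul_eq_mul, mul_one]
    congr 1
    rw [← Fintype.card_subtype, ← Nat.card_eq_fintype_card]
    apply Nat.card_congr
    refine ⟨fun s => ⟨⟨s.1, hin s.1 (by rw [s.2]; exact h.2)⟩, Subtype.ext s.2⟩, fun s => ⟨s.1.1, congrArg Subtype.val s.2⟩, fun _ => rfl, fun _ => rfl⟩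
  simp only [h2, Finset.sum_mul]
  rw [Finset.sum_comm]
  apply Finset.sum_congr rfl
  intro s _
  simp

theorem main [Finite G] (N : Subgroup G) [hN : N.Normal] (hodd : Odd N.index) (φ : Cfsg.IrrCharacter ↥N) (hφ : (Nat.card ↥N : ℂ)⁻¹ * ∑ᶠ g : ↥N, (φ : ↥N → ℂ) (g * g) = 1) : ∃! χ : Cfsg.IrrCharacter G, (Nat.card G : ℂ)⁻¹ * ∑ᶠ g : G, (χ : G → ℂ) (g * g) = 1 ∧ (∑ᶠ n : ↥N, (χ : G → ℂ) n * (starRingEnd ℂ) ((φ : ↥N → ℂ) n)) ≠ 0 := by
  classical
  haveI hfG : Fintype G := Fintype.ofFinite G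
  haveI hfN : Fintype N := Fintype.ofFinite N
  rw [finsum_eq_sum_of_fintype] at hφ
  simp only [finsum_eq_sum_of_fintype]
  have hφ' : H4.fsInd (φ : N → ℂ) = 1 := hφ
  have hφr := (H4.fsInd_irr_ne_zero_iff φ).1 (by rw [hφ']; exact one_ne_zero)
  have hN0 : (Nat.card N : ℂ) ≠ 0 := by exact_mod_cast Nat.card_pos.ne'
  have hinner : ∀ χ : IrrCharacter G, (∑ n : N, (χ : G → ℂ) n * (starRingEnd ℂ) ((φ : ↥N → ℂ) n)) ≠ 0 ↔
      classInner (fun h : N => (χ : G → ℂ) h) (φ : N → ℂ) ≠ 0 := by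
    intro χ
    unfold classInner
    rw [mul_ne_zero_iff]
    constructor
    · intro h; exact ⟨inv_ne_zero hN0, h⟩
    · intro h; exact h.2
  have hcard1 : 0 < Nat.card G := Nat.card_pos
  have hk : (Nat.card G - 1).Coprime (Nat.card G) := by
    have h := (Nat.coprime_self_add_right (m := Nat.card G - 1) (n := 1)).2 (Nat.coprime_one_right _)
    have h' : Nat.card G - 1 + 1 = Nat.card G := by omega
    rwa [h'] at h
  have hpow : ∀ g : G, g ^ (Nat.card G - 1) = g⁻¹ := by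
    intro g
    apply eq_inv_of_mul_eq_one_left
    rw [← pow_succ]
    have h' : Nat.card G - 1 + 1 = Nat.card G := by omega
    rw [h', pow_card_eq_one']
  have hpowN : ∀ n : N, n ^ (Nat.card G - 1) = n⁻¹ := by
    intro n
    apply Subtype.ext
    push_cast
    exact hpow n
  obtain ⟨χ0, hχ0, huniq⟩ := sig_unique (N := N) φ hodd hk (fun g _ => hpow g) (fun n => by
    rw [hpowN, IsCharacter.inv_eq_conj (irr_isCharacter φ)]
    exact Complex.conj_eq_iff_im.2 (hφr n))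
  have hkey : ∀ χ : IrrCharacter G, (Nat.card G : ℂ)⁻¹ * ∑ g : G, (χ : G → ℂ) (g * g) = 1 →
      (∑ n : N, (χ : G → ℂ) n * (starRingEnd ℂ) ((φ : ↥N → ℂ) n)) ≠ 0 → χ = χ0 := by
    intro χ h1 h2
    apply huniq
    refine ⟨(hinner χ).1 h2, fun g => ?_⟩
    have h1' : H4.fsInd (χ : G → ℂ) = 1 := h1
    have hr := (H4.fsInd_irr_ne_zero_iff χ).1 (by rw [h1']; exact one_ne_zero)
    rw [hpow, IsCharacter.inv_eq_conj (irr_isCharacter χ)]
    exact Complex.conj_eq_iff_im.2 (hr g)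
  have hex : ∃ χ : IrrCharacter G, (Nat.card G : ℂ)⁻¹ * ∑ g : G, (χ : G → ℂ) (g * g) = 1 ∧
      (∑ n : N, (χ : G → ℂ) n * (starRingEnd ℂ) ((φ : ↥N → ℂ) n)) ≠ 0 := by
    by_contra hcon
    push Not at hcon
    have hs := fs_over N hodd φ
    rw [hφ', map_one] at hs
    have h3 : ∀ χ : IrrCharacter G, (H4.fsInd (χ : G → ℂ) * classInner (fun h : N => (χ : G → ℂ) h) (φ : N → ℂ)).re ≤ 0 := by
      intro χ
      obtain ⟨m, hm⟩ := IsCharacter.inner_nat (isCharacter_restrict N (irr_isCharacter χ)) φ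
      have hm' : classInner (fun h : N => (χ : G → ℂ) h) (φ : N → ℂ) = m := hm
      rw [hm']
      rcases H4.fsInd_irr χ with h | h | h
      · rw [h]; simp
      · have h4 := hcon χ h
        have h5 : m = 0 := by
          by_contra h6
          exact (hinner χ).2 (by rw [hm']; exact_mod_cast h6) h4
        rw [h5]; simp
      · rw [h]; simp
    have h4 : (∑ χ : IrrCharacter G, H4.fsInd (χ : G → ℂ) * classInner (fun h : N => (χ : G → ℂ) h) (φ : N → ℂ)).re ≤ 0 := by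
      rw [Complex.re_sum]
      exact Finset.sum_nonpos fun χ _ => h3 χ
    rw [hs] at h4
    norm_num at h4
  obtain ⟨χ, h1, h2⟩ := hex
  exact ⟨χ, ⟨h1, h2⟩, fun ψ hψ => by rw [hkey ψ hψ.1 hψ.2, hkey χ h1 h2]⟩

end Cfsg.Agent.H5.W65
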